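import Cfsg.Agent.H24.Sub3
import Cfsg.Agent.H1.GFitting
import Cfsg.Agent.H1.Wielandt

/-! Point stabilizers of primitive groups inducing the alternating or symmetric group on a
suborbit. -/

set_option autoImplicit false

open Cfsg Subgroup H28 Equiv
open scoped Pointwise commutatorElement

namespace H24.AltSub

local notation:max "#" H:max => Nat.card H
local notation "Alt" => alternatingGroup
local notation "Sn" => H1.SubnIn

variable {G : Type*} [Group G]

abbrev kr {Y : Subgroup G} {S : Type*} [Group S] (f : Y →* S) : Subgroup G :=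
  f.ker.map Y.subtype

abbrev im {Y : Subgroup G} {S : Type*} [Group S] (f : Y →* S) (X : Subgroup G) : Subgroup S :=
  (X.subgroupOf Y).map f

section
variable {Y : Subgroup G} {S : Type*} [Group S] (f : Y →* S)

theorem mem_kr {x : Y} : (x : G) ∈ kr f ↔ f x = 1 :=
  ⟨fun ⟨_, h, e⟩ => Subtype.ext e ▸ h, fun h => ⟨x, h, rfl⟩⟩

theorem kr_le : kr f ≤ Y := map_subtype_le _

theorem le_kr {X : Subgroup G} (h : X ≤ Y) : im f X = ⊥ ↔ X ≤ kr f := by
  rw [Subgroup.map_eq_bot_iff]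
  exact ⟨fun c x hx => (mem_kr f (x := ⟨x, h hx⟩)).2 (c hx), fun c x hx => (mem_kr f).1 (c hx)⟩

theorem relIndex_kr : (kr f).relIndex Y = #f.range := by
  rw [relIndex, subgroupOf_map_subtype', index_ker]

end

section
variable {α : Type*} [Fintype α] [DecidableEq α] (h5 : 5 ≤ #α)
include h5

theorem alt_qs : IsQuasisimple (Alt α) := by
  haveI := alternatingGroup.isSimpleGroup h5
  refine H1.isQuasisimple_of_isSimpleGroup fun c => ?_
  have := alternatingGroup.center_eq_bot (α := α) (by omega)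
  rw [center_eq_top] at this
  exact top_ne_bot this

theorem cent_alt : 𝐂 (Alt α) = ⊥ := by
  by_contra c
  exact H1.Quasisimple.not_le_centralizer (alt_qs h5)
    (Perm.alternatingGroup_le_of_normal h5 ((nontrivial_iff_ne_bot _).2 c))

variable {Y : Subgroup G} {f : Y →* Perm α} (hA : Alt α ≤ f.range)
include hA

theorem as {S : Subgroup G} (hS : Sn S Y) : S ≤ kr f ∨ Alt α ≤ im f S := by
  have a : Sn (im f S) f.range := by
    have := (hS.subgroupOf Y).map f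
    rwa [subgroupOf_self, ← MonoidHom.range_eq_map] at this
  refine (H1.le_or_commutator_eq_bot_of_subnIn (alt_qs h5)
    (H1.SubnIn.of_le_normalizer hA le_normalizer_of_normal) a).symm.imp_left fun c => ?_
  rw [commutator_comm, commutator_eq_bot_iff_le_centralizer, cent_alt h5] at c
  exact (le_kr f hS.le).1 (eq_bot_iff.2 c)

theorem p1 {S T : Subgroup G} (hS : Sn S Y) (hT : Sn T Y) (h : ⁅S, T⁆ ≤ kr f) :
    S ≤ kr f ∨ T ≤ kr f := by
  rcases as h5 hA hS with a | a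
  · exact Or.inl a
  rcases as h5 hA hT with b | b
  · exact Or.inr b
  have c := (le_kr f (h.trans (kr_le f))).2 h
  rw [im, commutator_subgroupOf hS.le hT.le, map_commutator] at c
  exact absurd (eq_bot_iff.2 ((H1.Quasisimple.perfect (alt_qs h5)).ge.trans
    ((commutator_mono a b).trans c.le))) (H1.Quasisimple.ne_bot (alt_qs h5))

theorem p2 {S : Subgroup G} (hS : Sn S Y) (h : Group.IsSolvable S) : S ≤ kr f := by
  refine (as h5 hA hS).resolve_right (H1.Quasisimple.not_le_of_isSolvable (alt_qs h5) ?_)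
  haveI : Group.IsSolvable (S.subgroupOf Y) :=
    Group.isSolvable_of_surjective (f := (subgroupOfEquivOfLe hS.le).symm.toMonoidHom)
      (MulEquiv.surjective _)
  exact Group.isSolvable_of_surjective (f.subgroupMap_surjective _)

end

/-- no proper normal subgroup of index less than `n` -/
def Perf (n : ℕ) (Y : Type*) [Group Y] : Prop :=
  ∀ Z : Subgroup Y, Z.Normal → Z.index < n → Z = ⊤

theorem Perf.equiv {n : ℕ} {Y Y' : Type*} [Group Y] [Group Y'] (h : Perf n Y) (e : Y ≃* Y') :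
    Perf n Y' := fun Z hZ hi => by
  have := h (Z.comap e.toMonoidHom) (hZ.comap _)
    (by rwa [index_comap_of_surjective _ e.surjective])
  exact comap_injective (f := e.toMonoidHom) e.surjective (this.trans (comap_top _).symm)

variable [Finite G]

theorem Perf.le {n : ℕ} {Y X Z : Subgroup G} (h : Perf n Y) (h1 : Y ≤ X) (h2 : X ≤ 𝐍 Z)
    (h3 : Z.relIndex X < n) : Y ≤ Z :=
  subgroupOf_eq_top.1 (h _ (normal_subgroupOf_of_le_normalizer (h1.trans h2))
    ((relIndex_le_of_le_right h1 index_ne_zero_of_finite).trans_lt h3))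

theorem exists_perf {Y : Subgroup G} {S : Type*} [Group S] (f : Y →* S) (A : Subgroup S)
    [IsSimpleGroup A] {X : Subgroup G} (hX : A ≤ im f X) :
    ∃ W ≤ X, Perf (#A) W ∧ W ≠ ⊥ := by
  obtain ⟨W, ⟨h1, h2⟩, h3⟩ := Set.Finite.exists_minimal
    (s := {W : Subgroup Y | W ≤ X.subgroupOf Y ∧ W.map f = A}) (Set.toFinite _)
    ⟨X.subgroupOf Y ⊓ A.comap f, inf_le_left, le_antisymm (map_le_iff_le_comap.2 inf_le_right)
      fun y hy => by obtain ⟨x, hx, rfl⟩ := hX hy; exact ⟨x, ⟨hx, hy⟩, rfl⟩⟩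
  refine ⟨W.map Y.subtype, map_subtype_le_iff.2 h1,
    Perf.equiv (fun Z hZ hi => ?_) (equivMapOfInjective W _ Y.subtype_injective), fun c => ?_⟩
  · let g : W →* A := (MulEquiv.subgroupCongr h2).toMonoidHom.comp (f.subgroupMap W)
    have hg : Function.Surjective g :=
      (MulEquiv.subgroupCongr h2).surjective.comp (f.subgroupMap_surjective W)
    rcases (hZ.map g hg).eq_bot_or_eq_top with e | e
    · have := index_antitone ((Subgroup.map_eq_bot_iff _).1 e)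
      rw [index_ker, MonoidHom.range_eq_top.2 hg, card_top] at this
      omega
    · have a : (Z.map W.subtype).map f = A := by
        refine le_antisymm (h2 ▸ map_mono (map_subtype_le Z)) fun y hy => ?_
        obtain ⟨z, hz, ez⟩ := e.ge (mem_top (⟨y, hy⟩ : A))
        exact ⟨z, ⟨z, hz, rfl⟩, congrArg Subtype.val ez⟩
      have := h3 ⟨(map_subtype_le Z).trans h1, a⟩ (map_subtype_le Z)
      exact eq_top_iff.2 fun w _ => by
        obtain ⟨z, hz, ez⟩ := this w.2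
        exact Subtype.ext ez ▸ hz
  · rw [map_eq_bot_iff_of_injective _ Y.subtype_injective] at c
    rw [c, Subgroup.map_bot] at h2
    exact (nontrivial_iff_ne_bot A).1 inferInstance h2.symm

theorem perf_bot {n : ℕ} {H R D K K' : Subgroup G} (k1 : K ≤ D) (l1 : K' ≤ D) (d1 : D ≤ H)
    (d2 : D ≤ R) (k2 : H ≤ 𝐍 K) (l2 : R ≤ 𝐍 K') (k3 : K.relIndex D < n) (l3 : K'.relIndex D < n)
    (b : ∀ N : Subgroup G, N ≤ D → H ≤ 𝐍 N → R ≤ 𝐍 N → N = ⊥) {W : Subgroup G} (hW : W ≤ D)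
    (h : Perf n W) : W = ⊥ := by
  have f : ∀ {H K : Subgroup G}, K ≤ D → D ≤ H → H ≤ 𝐍 K → K.relIndex D < n →
      H ≤ 𝐍 (sSup {W : Subgroup G | W ≤ D ∧ Perf n W}) := fun a b c d =>
    H1.le_normalizer_sSup_of_conj_mem fun g hg W ⟨h1, h2⟩ => le_sSup
      ⟨(cj_le_of_mem_normalizer (h2.le h1 (b.trans c) d) (c hg)).trans a, h2.equiv (cjEquiv g W)⟩
  exact eq_bot_iff.2 ((le_sSup (s := {W : Subgroup G | W ≤ D ∧ Perf n W}) ⟨hW, h⟩).trans
    (b _ (sSup_le fun W h => h.1) (f k1 d1 k2 k3) (f l1 d2 l2 l3)).le)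

omit [Finite G] in
theorem exists_res {α : Type*} [Fintype α] [DecidableEq α] {H D : Subgroup G} (hD : D ≤ H)
    (f : H →* Perm α) (p : α) (hp : ∀ h : H, f h p = p ↔ (h : G) ∈ D) :
    ∃ g : D →* Perm {y // y ≠ p}, kr g = kr f ∧
      (∀ d : D, Perm.sign (g d) = Perm.sign (f ⟨d, hD d.2⟩)) ∧
      (Alt α ≤ f.range → Alt _ ≤ g.range) := by
  have a : ∀ (d : D) (y : α), f ⟨d, hD d.2⟩ y ≠ p ↔ y ≠ p := fun d y => by
    conv_lhs => rw [← (hp ⟨d, hD d.2⟩).2 d.2]
    exact (f _).injective.ne_iff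
  let g : D →* Perm {y // y ≠ p} := MonoidHom.mk' (fun d => (f ⟨d, hD d.2⟩).subtypePerm (a d))
    fun x y => Equiv.ext fun z => Subtype.ext (by
      change f (⟨x, hD x.2⟩ * ⟨y, hD y.2⟩) z = _
      rw [map_mul]; rfl)
  have b : ∀ d, Perm.ofSubtype (g d) = f ⟨d, hD d.2⟩ := fun d =>
    Perm.ofSubtype_subtypePerm (a d) fun y hy e => hy (e ▸ (hp ⟨d, hD d.2⟩).2 d.2)
  refine ⟨g, le_antisymm ?_ ?_, fun d => by rw [← b, Perm.sign_ofSubtype], fun hA σ hσ => ?_⟩
  · rintro _ ⟨d, hd, rfl⟩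
    exact (mem_kr f (x := ⟨d, hD d.2⟩)).2 (by rw [← b, MonoidHom.mem_ker.1 hd, map_one])
  · rintro _ ⟨h, hh, rfl⟩
    have hh : f h = 1 := hh
    refine (mem_kr g (x := ⟨h, (hp h).1 (by rw [hh]; rfl)⟩)).2 (Perm.ofSubtype_injective ?_)
    rw [b, map_one]
    exact hh
  · obtain ⟨h, e⟩ := hA (show Perm.ofSubtype σ ∈ Alt α by
      rwa [Perm.mem_alternatingGroup, Perm.sign_ofSubtype])
    refine ⟨⟨h, (hp h).1 (by rw [e, Perm.ofSubtype_apply_of_not_mem]; simp)⟩,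
      Perm.ofSubtype_injective ((b _).trans e)⟩

omit [Finite G] in
theorem trans_sup {α : Type*} [Fintype α] [DecidableEq α] (h5 : 5 ≤ #α) {H D N : Subgroup G}
    {f : H →* Perm α} {p : α} (hp : ∀ h : H, f h p = p ↔ (h : G) ∈ D) (hA : Alt α ≤ f.range)
    (h1 : N ≤ H) (h2 : H ≤ 𝐍 N) (h3 : ¬ N ≤ kr f) : H ≤ N ⊔ D := fun h hh => by
  obtain ⟨σ, e⟩ := (alternatingGroup.isPretransitive_of_three_le_card (α := α)
    (by omega)).exists_smul_eq p (f ⟨h, hh⟩ p)
  obtain ⟨m, hm, e'⟩ := (as h5 hA (H1.SubnIn.of_le_normalizer h1 h2)).resolve_left h3 σ.2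
  have : f (m⁻¹ * ⟨h, hh⟩) p = p := by
    rw [map_mul, map_inv, Perm.mul_apply, Perm.inv_eq_iff_eq, e']
    exact e.symm
  simpa using mul_mem (mem_sup_left hm : (m : G) ∈ N ⊔ D) (mem_sup_right ((hp _).1 this))

/-- primeness of `D / K` -/
def Pr (D K : Subgroup G) : Prop :=
  ∀ S T : Subgroup G, Sn S D → Sn T D → ⁅S, T⁆ ≤ K → S ≤ K ∨ T ≤ K

theorem norm_inf {H D K K' X X' : Subgroup G} (k1 : K ≤ D) (l1 : K' ≤ D) (k2 : H ≤ 𝐍 K)
    (d1 : D ≤ H) (l2 : D ≤ 𝐍 K') (pr : Pr D K')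
    (tr : ∀ N ≤ H, H ≤ 𝐍 N → ¬ N ≤ K → H ≤ N ⊔ D)
    (x1 : Sn X K) (x2 : IsQuasisimple X) (x3 : ¬ X ≤ K')
    (y1 : Sn X' K') (y2 : IsQuasisimple X') (y3 : ¬ X' ≤ K) : H ≤ 𝐍 (K ⊓ K') := by
  have kD : Sn K D := .of_le_normalizer k1 (d1.trans k2)
  have c1 : ∀ h ∈ H, Sn (cj h X) K := fun h hh => x1.conj_of_mem_normalizer (k2 hh)
  have c2 : ∀ h : G, IsQuasisimple (cj h X) := fun h =>
    H1.isQuasisimple_of_equiv x2 (cjEquiv h X)
  have un : ∀ h ∈ H, ¬ cj h X ≤ K' → cj h X = X := fun h hh c => by_contra fun ne =>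
    (pr _ _ ((c1 h hh).trans kD) (x1.trans kD) ((H1.commutator_eq_bot_of_subnIn_of_ne (c2 h) x2
      (c1 h hh) x1 ne).le.trans bot_le)).elim c x3
  have nD : D ≤ 𝐍 X := le_normalizer_of_cj_eq fun h hh => un h (d1 hh) fun c =>
    x3 ((cj_le_iff.1 c).trans (cj_eq_self (inv_mem (l2 hh))).le)
  have cL : X' ≤ 𝐂 (K ⊓ K') := commutator_eq_bot_iff_le_centralizer.1
    ((H1.le_or_commutator_eq_bot_of_subnIn y2 y1 (.of_le_normalizer inf_le_right
      (le_normalizer_inf (l1.trans (d1.trans k2)) le_normalizer))).resolve_left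
        fun c => y3 (c.trans inf_le_left))
  have nX : H ≤ 𝐍 X := by
    refine (tr (nclIn X' H) (nclIn_le_self (y1.le.trans (l1.trans d1))) (le_normalizer_nclIn _ _)
      fun c => y3 ((le_nclIn _ _).trans c)).trans (sup_le (nclIn_le_iff.2 fun h hh => ?_) nD)
    rw [cj_le_iff, cj_normalizer]
    by_cases c : cj h⁻¹ X ≤ K'
    · exact le_normalizer_of_le_centralizer
        (cL.trans (centralizer_anti (le_inf (c1 _ (inv_mem hh)).le c)))
    · rw [un _ (inv_mem hh) c]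
      exact (y1.le.trans l1).trans nD
  have e : K ⊓ K' = K ⊓ 𝐂 X := by
    refine le_antisymm (le_inf inf_le_left (le_centralizer_comm.1
      (commutator_eq_bot_iff_le_centralizer.1 ((H1.le_or_commutator_eq_bot_of_subnIn x2 x1
        (.of_le_normalizer inf_le_left (le_normalizer_inf le_normalizer (k1.trans l2)))).resolve_left
          fun c => x3 (c.trans inf_le_right))))) (le_inf inf_le_left ?_)
    exact (pr _ _ (.of_le_normalizer (inf_le_left.trans k1) (le_normalizer_inf (d1.trans k2)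
      (le_normalizer_centralizer nD))) (x1.trans kD)
        ((commutator_eq_bot_iff_le_centralizer.2 inf_le_right).le.trans bot_le)).resolve_right x3
  exact e ▸ le_normalizer_inf k2 (le_normalizer_centralizer nX)

theorem exists_comp {H R D K K' : Subgroup G} {x : G} (k1 : K ≤ D) (l1 : K' ≤ D) (d1 : D ≤ H)
    (d2 : D ≤ R) (k2 : H ≤ 𝐍 K) (l2 : R ≤ 𝐍 K') (e : K' = cj x K) (k0 : K ≠ ⊥)
    (b : ∀ N : Subgroup G, N ≤ D → H ≤ 𝐍 N → R ≤ 𝐍 N → N = ⊥)
    (p2 : ∀ S, Sn S D → Group.IsSolvable S → S ≤ K') :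
    ∃ X, Sn X K ∧ IsQuasisimple X ∧ ¬ X ≤ K' := by
  by_contra c
  have kD : Sn K D := .of_le_normalizer k1 (d1.trans k2)
  have a : (generalizedFittingSubgroup K).map K.subtype ≤ K' := by
    rw [H1.gfOf_eq]
    refine sup_le (H1.layerOf_le_iff.2 fun X h1 h2 => by_contra fun h3 => c ⟨X, h1, h2, h3⟩)
      (p2 _ (.trans (.of_le_normalizer (map_subtype_le _) (H1.le_normalizer_fittingOf K)) kD) ?_)
    have := H1.fittingOf_isNilpotent K
    infer_instance
  have a' : (generalizedFittingSubgroup K).map K.subtype ≤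
      (generalizedFittingSubgroup K').map K'.subtype := by
    rw [H1.gfOf_eq_inf (.of_le_normalizer l1 (d2.trans l2))]
    exact le_inf (H1.gfOf_mono kD) a
  have e' := eq_of_le_of_card_le a' (by rw [e, ← smul_eq_cj, ← H1.conj_smul_gfOf, smul_eq_cj, card_cj])
  have := b _ ((map_subtype_le _).trans k1) (k2.trans (H1.normalizer_le_normalizer_gfOf K))
    (e' ▸ l2.trans (H1.normalizer_le_normalizer_gfOf K'))
  rw [map_eq_bot_iff_of_injective _ K.subtype_injective, H1.gf_eq_bot_iff] at this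
  exact k0 (eq_bot_of_subsingleton K)

theorem card_ne {α : Type*} [Fintype α] [DecidableEq α] (p : α) : #{y // y ≠ p} = #α - 1 := by
  simp

theorem main {α β : Type*} [Fintype α] [DecidableEq α] [Fintype β] [DecidableEq β] {d : ℕ}
    (hα : #α = d) (hβ : #β = d) (h6 : 6 ≤ d) {H R : Subgroup G} {x : G} (hR : R = cj x H)
    (f : H →* Perm α) (p : α) (hp : ∀ h : H, f h p = p ↔ (h : G) ∈ H ⊓ R)
    (f' : R →* Perm β) (q : β) (hq : ∀ h : R, f' h q = q ↔ (h : G) ∈ H ⊓ R)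
    (hA : Alt α ≤ f.range) (k0 : kr f ≠ ⊥)
    (b : ∀ N : Subgroup G, N ≤ H ⊓ R → H ≤ 𝐍 N → R ≤ 𝐍 N → N = ⊥) :
    ∃ ψ : H →* Perm {y // y ≠ q}, Function.Injective (f.prod ψ) ∧
      (Alt α).prod (Alt _) ≤ (f.prod ψ).range ∧
      (f.range.index = 2 → ∀ h, Perm.sign (ψ h) = 1) := by
  obtain ⟨g, g1, -, g3⟩ := exists_res inf_le_left f p hp
  obtain ⟨g', g1', g2', g3'⟩ := exists_res inf_le_right f' q hq
  haveI : Nontrivial α := Finite.one_lt_card_iff_nontrivial.1 (by omega)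
  haveI : Nontrivial β := Finite.one_lt_card_iff_nontrivial.1 (by omega)
  have a5 : 5 ≤ #α := by omega
  have b5 : 5 ≤ #β := by omega
  have p5 : 5 ≤ #{y // y ≠ p} := by rw [card_ne]; omega
  have q5 : 5 ≤ #{y // y ≠ q} := by rw [card_ne]; omega
  have cα : 2 * #(Alt α) = d.factorial := by rw [two_mul_nat_card_alternatingGroup, Nat.card_perm, hα]
  have cβ : #(Alt β) = #(Alt α) := by
    have : 2 * #(Alt β) = d.factorial := by rw [two_mul_nat_card_alternatingGroup, Nat.card_perm, hβ]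
    omega
  have lt : (d - 1).factorial < #(Alt α) := by
    obtain ⟨n, rfl⟩ : ∃ n, d = n + 1 := ⟨d - 1, by omega⟩
    have := n.factorial_pos
    rw [Nat.factorial_succ] at cα
    rw [Nat.add_sub_cancel]
    nlinarith
  have k1 : kr f ≤ H ⊓ R := g1 ▸ kr_le g
  have l1 : kr f' ≤ H ⊓ R := g1' ▸ kr_le g'
  have k2 : H ≤ 𝐍 (kr f) := le_normalizer_map_subtype _
  have l2 : R ≤ 𝐍 (kr f') := le_normalizer_map_subtype _
  have pb : ∀ W ≤ H ⊓ R, Perf (#(Alt α)) W → W = ⊥ := fun W h1 h2 => by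
    refine perf_bot k1 l1 inf_le_left inf_le_right k2 l2 ?_ ?_ b h1 h2
    · rw [← g1, relIndex_kr]
      exact (card_le_card_group _).trans_lt (by rwa [Nat.card_perm, card_ne, hα])
    · rw [← g1', relIndex_kr]
      exact (card_le_card_group _).trans_lt (by rwa [Nat.card_perm, card_ne, hβ])
  haveI := alternatingGroup.isSimpleGroup a5
  haveI := alternatingGroup.isSimpleGroup b5
  have hA' : Alt β ≤ f'.range := by
    obtain ⟨W, w1, w2, w3⟩ := exists_perf f (Alt α) (X := H)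
      (by rwa [im, subgroupOf_self, ← MonoidHom.range_eq_map])
    refine Perm.alternatingGroup_le_of_index_le_two (by_contra fun c => w3 (cj_eq_bot.1
      (pb _ (((w2.equiv (cjEquiv x W)).le (hR ▸ cj_mono x w1) l2 ?_).trans l1)
        (w2.equiv (cjEquiv x W)))))
    have := f'.range.index_mul_card
    rw [Nat.card_perm, hβ, ← cα] at this
    rw [relIndex_kr]
    have : 0 < #f'.range := Nat.card_pos
    nlinarith
  have e : kr f' = cj x (kr f) := by
    refine le_antisymm (le_cj_iff.2 ((as a5 hA (.of_le_normalizer ?_ ?_)).resolve_right fun c => ?_))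
      ((as b5 hA' (.of_le_normalizer ?_ ?_)).resolve_right fun c => ?_)
    · exact cj_le_iff.2 (by rw [inv_inv, ← hR]; exact kr_le f')
    · rw [← cj_normalizer, le_cj_iff, inv_inv, ← hR]
      exact l2
    · obtain ⟨W, w1, w2, w3⟩ := exists_perf f (Alt α) c
      exact w3 (cj_eq_bot.1 (pb _ ((cj_le_iff.2 w1).trans l1) (w2.equiv (cjEquiv x W))))
    · exact hR ▸ cj_mono x (kr_le f)
    · rw [← cj_normalizer, hR]
      exact cj_mono x k2
    · obtain ⟨W, w1, w2, w3⟩ := exists_perf f' (Alt β) c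
      exact w3 (cj_eq_bot.1 (pb _ ((le_cj_iff.1 w1).trans k1) ((cβ ▸ w2).equiv (cjEquiv x⁻¹ W))))
  have pr : Pr (H ⊓ R) (kr f) := fun S T h1 h2 => g1 ▸ p1 p5 (g3 hA) h1 h2
  have pr' : Pr (H ⊓ R) (kr f') := fun S T h1 h2 => g1' ▸ p1 q5 (g3' hA') h1 h2
  obtain ⟨X, x1, x2, x3⟩ := exists_comp k1 l1 inf_le_left inf_le_right k2 l2 e k0 b
    fun S h1 h2 => g1' ▸ p2 q5 (g3' hA') h1 h2
  obtain ⟨X', y1, y2, y3⟩ := exists_comp l1 k1 inf_le_right inf_le_left l2 k2 (x := x⁻¹)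
    (by rw [e, cj_inv_cj]) (by rwa [e, Ne, cj_eq_bot]) (fun N h1 h2 h3 => b N h1 h3 h2)
    fun S h1 h2 => g1 ▸ p2 p5 (g3 hA) h1 h2
  have L : kr f ⊓ kr f' = ⊥ := b _ (inf_le_left.trans k1)
    (norm_inf k1 l1 k2 inf_le_left (inf_le_right.trans l2) pr'
      (fun N => trans_sup a5 hp hA) x1 x2 x3 y1 y2 y3)
    (inf_comm (kr f) _ ▸ norm_inf l1 k1 l2 inf_le_right (inf_le_left.trans k2) pr
      (fun N => trans_sup b5 hq hA') y1 y2 y3 x1 x2 x3)
  have kk : ¬ kr f ≤ kr f' := fun c => x3 (x1.le.trans c)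
  have kD : Sn (kr f) (H ⊓ R) := .of_le_normalizer k1 (inf_le_left.trans k2)
  have c1 : kr f' ≤ H ⊓ 𝐂 (kr f) := le_inf (l1.trans inf_le_left)
    (commutator_eq_bot_iff_le_centralizer.1 (eq_bot_iff.2 (L ▸ le_inf
      (commutator_le_of_le_normalizer' (l1.trans (inf_le_left.trans k2)))
      (commutator_le_of_le_normalizer (k1.trans (inf_le_right.trans l2))))))
  have c2 : H ≤ 𝐍 (H ⊓ 𝐂 (kr f)) := le_normalizer_inf le_normalizer (le_normalizer_centralizer k2)
  have c3 : (H ⊓ R) ⊓ (H ⊓ 𝐂 (kr f)) ≤ kr f' :=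
    (pr' _ _ (.of_le_normalizer inf_le_left (le_normalizer_inf le_normalizer (inf_le_left.trans c2)))
      kD ((commutator_eq_bot_iff_le_centralizer.2 (inf_le_right.trans inf_le_right)).le.trans
        bot_le)).resolve_right kk
  have c4 : ¬ H ⊓ 𝐂 (kr f) ≤ kr f := fun c => y3 (y1.le.trans (c1.trans c))
  have c5 : ∀ h : H, ∃ c : H, (c : G) ∈ H ⊓ 𝐂 (kr f) ∧ ∃ e : (H ⊓ R : Subgroup G),
      h = c * inclusion inf_le_left e := fun h => by
    obtain ⟨c, hc, e, he, r⟩ := (mem_sup_of_le_normalizer' (inf_le_left.trans c2)).1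
      (trans_sup a5 hp hA inf_le_left c2 c4 h.2)
    exact ⟨⟨c, hc.1⟩, hc, ⟨e, he⟩, Subtype.ext r.symm⟩
  haveI := normal_subgroupOf_of_le_normalizer c2
  let π := (QuotientGroup.mk' ((H ⊓ 𝐂 (kr f)).subgroupOf H)).comp
    (inclusion (inf_le_left : H ⊓ R ≤ H))
  have π1 : ∀ c : H, (c : G) ∈ H ⊓ 𝐂 (kr f) →
      QuotientGroup.mk' ((H ⊓ 𝐂 (kr f)).subgroupOf H) c = 1 := fun c hc =>
    (QuotientGroup.eq_one_iff c).2 hc
  have π2 : Function.Surjective π := fun y => by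
    obtain ⟨h, rfl⟩ := QuotientGroup.mk'_surjective _ y
    obtain ⟨c, hc, e, rfl⟩ := c5 h
    exact ⟨e, by rw [map_mul, π1 c hc, one_mul]; rfl⟩
  have π3 : π.ker ≤ g'.ker := fun e he => (mem_kr g').1
    (g1' ▸ c3 ⟨e.2, (QuotientGroup.eq_one_iff (inclusion inf_le_left e)).1 he⟩)
  let ψ := (π.liftOfSurjective π2 ⟨g', π3⟩).comp (QuotientGroup.mk' _)
  have ψ1 : ∀ c : H, (c : G) ∈ H ⊓ 𝐂 (kr f) → ψ c = 1 := fun c hc => by
    rw [MonoidHom.comp_apply, π1 c hc, map_one]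
  have ψ2 : ∀ e, ψ (inclusion inf_le_left e) = g' e := fun e =>
    MonoidHom.liftOfRightInverse_comp_apply π _ (Function.rightInverse_surjInv π2) ⟨g', π3⟩ e
  refine ⟨ψ, (injective_iff_map_eq_one _).2 fun h hh => ?_, fun ⟨σ, τ⟩ ⟨h1, h2⟩ => ?_,
    fun i h => ?_⟩
  · obtain ⟨c, hc, e, r⟩ := c5 h
    have h1 : (h : G) ∈ kr f := (mem_kr f).2 (congrArg Prod.fst hh)
    have h2 : ψ h = 1 := congrArg Prod.snd hh
    rw [r, map_mul, ψ1 c hc, one_mul, ψ2] at h2
    have h3 : (h : G) ∈ H ⊓ 𝐂 (kr f) := r ▸ mul_mem hc (c1 (g1' ▸ (mem_kr g').2 h2))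
    exact Subtype.ext (mem_bot.1 (L.le ⟨h1, c3 ⟨k1 h1, h3⟩⟩))
  · obtain ⟨c, hc, rfl⟩ := (as a5 hA (.of_le_normalizer inf_le_left c2)).resolve_left c4 h1
    obtain ⟨k, hk, rfl⟩ := (as q5 (g3' hA') kD).resolve_left (g1' ▸ kk) h2
    refine ⟨c * inclusion inf_le_left k, Prod.ext ?_ ?_⟩
    · change f _ = f c
      rw [map_mul, (mem_kr f (x := inclusion inf_le_left k)).1 hk, mul_one]
    · change ψ _ = g' k
      rw [map_mul, ψ1 c hc, one_mul, ψ2]
  · obtain ⟨c, hc, e', rfl⟩ := c5 h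
    rw [map_mul, ψ1 c hc, one_mul, ψ2, g2']
    have : #f'.range = #f.range := by rw [← relIndex_kr, ← relIndex_kr, e, hR, relIndex_cj]
    have j : f'.range.index = 2 := by
      have a := f'.range.index_mul_card
      rw [Nat.card_perm, hβ, ← hα, ← Nat.card_perm, ← f.range.index_mul_card, i, this] at a
      exact Nat.eq_of_mul_eq_mul_right Nat.card_pos a
    exact (Perm.eq_alternatingGroup_of_index_eq_two j).le ⟨_, rfl⟩

theorem classify {A B : Type*} [Fintype A] [DecidableEq A] [Fintype B] [DecidableEq B]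
    (U : Subgroup (Perm A × Perm B)) (h : (Alt A).prod (Alt B) ≤ U)
    (h' : (∀ u ∈ U, Perm.sign u.1 = 1) → ∀ u ∈ U, Perm.sign u.2 = 1) :
    U = (Alt A).prod (Alt B) ∨ ((∃ u ∈ U, Perm.sign u.1 = -1) ∧
      (U = ⊤ ∨ U = (⊤ : Subgroup (Perm A)).prod (Alt B) ∨
        U = (Perm.sign.comp (MonoidHom.fst (Perm A) (Perm B)) *
          Perm.sign.comp (MonoidHom.snd (Perm A) (Perm B))).ker)) := by
  obtain ⟨P, hP⟩ : ∃ P : ℤˣ → ℤˣ → Prop,
      ∀ s t, P s t ↔ ∃ u ∈ U, Perm.sign u.1 = s ∧ Perm.sign u.2 = t := ⟨_, fun _ _ => Iff.rfl⟩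
  have m : ∀ v, v ∈ U ↔ P (Perm.sign v.1) (Perm.sign v.2) := fun v => by
    rw [hP]
    refine ⟨fun c => ⟨v, c, rfl, rfl⟩, fun ⟨u, c, e1, e2⟩ => ?_⟩
    have : v * u⁻¹ ∈ U := h ⟨by simp [e1], by simp [e2]⟩
    simpa using mul_mem this c
  have one : P 1 1 := by simpa using (m 1).1 U.one_mem
  have mul : ∀ s t s' t', P s t → P s' t' → P (s * s') (t * t') := fun s t s' t' a b => by
    obtain ⟨u, a', rfl, rfl⟩ := (hP _ _).1 a
    obtain ⟨v, b', rfl, rfl⟩ := (hP _ _).1 b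
    simpa using (m _).1 (mul_mem a' b')
  have n : (-1 : ℤˣ) ≠ 1 := by decide
  by_cases a : P (-1) 1 <;> by_cases c : P (-1) (-1)
  · have b : P 1 (-1) := by simpa using mul _ _ _ _ a c
    obtain ⟨u, h1, h2, -⟩ := (hP _ _).1 a
    refine Or.inr ⟨⟨u, h1, h2⟩, Or.inl (eq_top_iff.2 fun v _ => (m v).2 ?_)⟩
    rcases Int.units_eq_one_or (Perm.sign v.1) with e | e <;>
      rcases Int.units_eq_one_or (Perm.sign v.2) with e' | e' <;> rwa [e, e']
  · have b : ¬ P 1 (-1) := fun b => c (by simpa using mul _ _ _ _ a b)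
    obtain ⟨u, h1, h2, -⟩ := (hP _ _).1 a
    refine Or.inr ⟨⟨u, h1, h2⟩, Or.inr (Or.inl (Subgroup.ext fun v => ?_))⟩
    rw [m, mem_prod, Perm.mem_alternatingGroup]
    rcases Int.units_eq_one_or (Perm.sign v.1) with e | e <;>
      rcases Int.units_eq_one_or (Perm.sign v.2) with e' | e' <;> simp [e, e', one, a, b, c, n]
  · have b : ¬ P 1 (-1) := fun b => a (by simpa using mul _ _ _ _ c b)
    obtain ⟨u, h1, h2, -⟩ := (hP _ _).1 c
    refine Or.inr ⟨⟨u, h1, h2⟩, Or.inr (Or.inr (Subgroup.ext fun v => ?_))⟩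
    rw [m, MonoidHom.mem_ker]
    change _ ↔ Perm.sign v.1 * Perm.sign v.2 = 1
    rcases Int.units_eq_one_or (Perm.sign v.1) with e | e <;>
      rcases Int.units_eq_one_or (Perm.sign v.2) with e' | e' <;> simp [e, e', one, a, b, c, n]
  · have d : ∀ u ∈ U, Perm.sign u.1 = 1 := fun u hu =>
      (Int.units_eq_one_or _).resolve_right fun e => by
        have := (m u).1 hu
        rcases Int.units_eq_one_or (Perm.sign u.2) with e' | e' <;> rw [e, e'] at this <;>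
          contradiction
    exact Or.inl (le_antisymm (fun u hu => ⟨d u hu, h' d u hu⟩) h)

end H24.AltSub
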