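import Cfsg.Agent.H24.FTAux
import Cfsg.Agent.H3.NPC

/-! `2`-nilpotent groups are solvable. -/

set_option autoImplicit false

namespace H24
open Subgroup Cfsg

theorem solvable_of_hasNPC_two {G : Type*} [Group G] [Finite G] (h : HasNormalPComplement 2 G) :
    Group.IsSolvable G := by
  haveI := solvable_of_coprime_two _ (H3.hasNPC_iff_coprime.mp h)
  haveI := H2.isSolvable_of_isPGroup (H3.isPGroup_quotient_pResidual (G := G) (n := 2) two_ne_zero)
  exact solvable_of_ker_le_range (pResidual 2 G).subtype (QuotientGroup.mk' (pResidual 2 G)) (by simp)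

end H24
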