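import Cfsg.Agent.H4.Dihedral

/-! The holomorph of the cyclic group of order `8` in coordinates `y ^ i v ^ a z ^ b`. -/

set_option autoImplicit false
set_option synthInstance.maxSize 4096

namespace H24.Wg
open Subgroup H4

@[ext] structure Hl where
  i : ZMod 8
  a : Bool
  b : Bool
  deriving DecidableEq, Fintype

namespace Hl

def m (a b : Bool) : ℤ := (if a then -1 else 1) * (if b then 5 else 1)

instance : Mul Hl := ⟨fun s t => ⟨s.i + m s.a s.b * t.i, xor s.a t.a, xor s.b t.b⟩⟩
instance : One Hl := ⟨⟨0, false, false⟩⟩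
instance : Inv Hl := ⟨fun s => ⟨-(m s.a s.b * s.i), s.a, s.b⟩⟩
instance : Group Hl := Group.ofLeftAxioms (by decide +kernel) (by decide +kernel) (by decide +kernel)

def Y : Hl := ⟨1, false, false⟩
def V : Hl := ⟨0, true, false⟩
def Z : Hl := ⟨0, false, true⟩
def C : Hl := ⟨4, false, false⟩
def g : Hl := Y * V
def S : Hl := g * V * g⁻¹

/-- the quasi-dihedral subgroup of index two -/
def Q : Subgroup Hl where
  carrier := {t | t.b = decide (t.i.val % 2 = 1)}
  mul_mem' := fun {s t} => by simp only [Set.mem_setOf_eq]; revert s t; decide +kernel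
  one_mem' := by simp only [Set.mem_setOf_eq]; decide
  inv_mem' := fun {s} => by simp only [Set.mem_setOf_eq]; revert s; decide +kernel

/-- the centralizer of `Z` -/
def D : Subgroup Hl where
  carrier := {t | t.i.val % 2 = 0}
  mul_mem' := fun {s t} => by simp only [Set.mem_setOf_eq]; revert s t; decide +kernel
  one_mem' := by simp only [Set.mem_setOf_eq]; decide
  inv_mem' := fun {s} => by simp only [Set.mem_setOf_eq]; revert s; decide +kernel

instance : DecidablePred (· ∈ Q) := fun t => decEq t.b _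
instance : DecidablePred (· ∈ D) := fun t => decEq (t.i.val % 2) _

theorem index_Q : Q.index = 2 := index_eq_two_iff.2 ⟨Z, by decide +kernel⟩
theorem index_D : D.index = 2 := index_eq_two_iff.2 ⟨g, by decide +kernel⟩
theorem card : Nat.card Hl = 32 := Nat.card_eq_fintype_card.trans (by decide +kernel)

variable {G : Type*} [Group G] {y v z : G}

theorem exists_hom (y8 : y ^ 8 = 1) (y4 : y ^ 4 ≠ 1) (v2 : v * v = 1) (z2 : z * z = 1)
    (vz : z * v = v * z) (vy : v * y * v⁻¹ = y⁻¹) (zy : z * y * z⁻¹ = y ^ 5) :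
    ∃ η : Hl →* G, Function.Injective η ∧ η Y = y ∧ η V = v ∧ η Z = z := by
  let w : Bool → Bool → G := fun a b => (if a then v else 1) * (if b then z else 1)
  have A : ∀ a b, w a b * y * (w a b)⁻¹ = y ^ m a b := by
    rintro (_ | _) (_ | _)
    · simp [w, m]
    · simpa [w, m] using zy
    · simpa [w, m] using vy
    · have : v * z * y * (v * z)⁻¹ = v * (z * y * z⁻¹) * v⁻¹ := by group
      simp only [w, m, if_true]
      rw [this, zy, ← conj_pow, vy]
      group
  have A' : ∀ a b (j : ZMod 8), w a b * zmodPow y j = zmodPow y ((m a b : ZMod 8) * j) * w a b := fun a b j => by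
    obtain ⟨j, rfl⟩ := ZMod.intCast_surjective j
    rw [← Int.cast_mul, zmodPow_intCast y8, zmodPow_intCast y8, zpow_mul, ← A, conj_zpow,
      inv_mul_cancel_right]
  have v2' : ∀ x, v * (v * x) = x := fun x => by rw [← mul_assoc, v2, one_mul]
  have vz' : ∀ x, z * (v * x) = v * (z * x) := fun x => by rw [← mul_assoc, vz, mul_assoc]
  have B : ∀ a b a' b', w a b * w a' b' = w (xor a a') (xor b b') := by
    rintro (_ | _) (_ | _) (_ | _) (_ | _) <;> simp [w, mul_assoc, v2, z2, vz, v2', vz']
  let η : Hl →* G := MonoidHom.mk' (fun t => zmodPow y t.i * w t.a t.b) fun s t => by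
    change zmodPow y (s.i + (m s.a s.b : ZMod 8) * t.i) * w (xor s.a t.a) (xor s.b t.b) = _
    rw [zmodPow_add y8, ← B, mul_assoc, ← mul_assoc _ (w s.a s.b), ← A']
    simp only [mul_assoc]
  have z0 : zmodPow y (0 : ZMod 8) = 1 := (zmodPow_intCast y8 0).trans (zpow_zero y)
  have eY : η Y = y := by
    change zmodPow y ((1 : ℤ) : ZMod 8) * w false false = y
    rw [zmodPow_intCast y8]; simp [w]
  refine ⟨η, (injective_iff_map_eq_one η).2 fun t ht => by_contra fun t1 => y4 ?_, eY, ?_, ?_⟩
  · obtain ⟨u, n, e⟩ : ∃ u : Hl, ∃ n : Fin 5, t ^ (n : ℕ) = Y ^ 4 ∨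
        (t * u * t⁻¹ * u⁻¹) ^ (n : ℕ) = Y ^ 4 := by clear ht; revert t; decide +kernel
    rw [← eY, ← map_pow]
    rcases e with e | e <;> rw [← e] <;> simp [ht]
  · change zmodPow y (0 : ZMod 8) * w true false = v
    simp [w, z0]
  · change zmodPow y (0 : ZMod 8) * w false true = z
    simp [w, z0]

end Hl
end H24.Wg
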