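import Cfsg.Agent.H5.IS0
import Cfsg.Agent.H24.Zsig

/-! S3535, chunk `NU`: the arithmetic elimination. -/

set_option autoImplicit false

namespace H24.IS
open H5.IS Polynomial

def P : List ℕ := [2, 3, 5, 7, 11, 13, 17, 19, 23, 29, 31, 37, 41, 43, 47, 53, 59, 61, 67, 71]
def prd (l : List (ℕ × ℕ)) : ℕ := (l.map fun x => x.1 ^ x.2).prod
def dat : List (ℕ × ℕ × List (ℕ × ℕ)) := [
  (7920, 4, [(2, 4), (3, 3), (5, 2), (11, 1)]),
  (95040, 6, [(2, 6), (3, 5), (5, 1), (11, 1)]),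
  (443520, 7, [(2, 7), (3, 2), (5, 1), (7, 1), (11, 1)]),
  (10200960, 7, [(2, 7), (3, 2), (5, 1), (7, 1), (11, 1), (23, 1)]),
  (244823040, 10, [(2, 10), (3, 4), (5, 1), (7, 1), (11, 2), (23, 1)]),
  (175560, 3, [(2, 3), (3, 1), (5, 1), (7, 2), (11, 1), (19, 1)]),
  (604800, 7, [(2, 7), (3, 3), (5, 2), (7, 1)]),
  (50232960, 7, [(2, 7), (3, 5), (5, 1), (17, 1), (19, 1)]),
  (86775571046077562880, 21, [(2, 21), (3, 3), (5, 1), (7, 3), (11, 3), (23, 1), (29, 1), (31, 1), (37, 1), (43, 1)]),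
  (4157776806543360000, 21, [(2, 21), (3, 9), (5, 4), (7, 4), (11, 1), (13, 1), (23, 1)]),
  (42305421312000, 18, [(2, 18), (3, 9), (5, 3), (7, 2), (11, 1), (23, 1)]),
  (495766656000, 10, [(2, 10), (3, 8), (5, 3), (7, 1), (11, 2), (23, 1)]),
  (64561751654400, 17, [(2, 17), (3, 9), (5, 2), (7, 1), (11, 1), (13, 1)]),
  (4089470473293004800, 18, [(2, 18), (3, 16), (5, 2), (7, 2), (11, 1), (13, 1), (17, 1), (23, 1)]),
  (1255205709190661721292800, 21, [(2, 21), (3, 16), (5, 2), (7, 5), (11, 1), (13, 1), (17, 1), (23, 1), (29, 1)]),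
  (44352000, 9, [(2, 9), (3, 2), (5, 3), (7, 2), (11, 1)]),
  (898128000, 7, [(2, 7), (3, 6), (5, 3), (7, 1), (11, 1)]),
  (4030387200, 10, [(2, 10), (3, 4), (5, 2), (7, 3), (17, 1)]),
  (145926144000, 14, [(2, 14), (3, 4), (5, 3), (7, 1), (13, 1), (29, 1)]),
  (448345497600, 13, [(2, 13), (3, 7), (5, 2), (7, 1), (11, 1), (13, 1)]),
  (460815505920, 9, [(2, 9), (3, 4), (5, 1), (7, 4), (11, 1), (19, 1), (31, 1)]),
  (273030912000000, 14, [(2, 14), (3, 7), (5, 6), (7, 1), (11, 1), (19, 1)]),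
  (51765179004000000, 8, [(2, 8), (3, 8), (5, 7), (7, 1), (11, 1), (31, 1), (37, 1), (67, 1)]),
  (90745943887872000, 15, [(2, 15), (3, 10), (5, 3), (7, 3), (13, 1), (19, 1), (31, 2)]),
  (4154781481226426191177580544000000, 41, [(2, 41), (3, 13), (5, 6), (7, 2), (11, 1), (13, 1), (17, 1), (19, 1), (23, 1), (31, 1), (47, 1)]),
  (808017424794512875886459904961710757005754368000000000, 46, [(2, 46), (3, 21), (5, 9), (7, 6), (11, 2), (13, 3), (17, 1), (19, 1), (23, 1), (29, 1), (31, 1), (41, 1), (47, 2), (59, 1), (71, 1)]),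
  (17971200, 11, [(2, 11), (3, 3), (5, 2), (13, 1)])]
def allD : List (ℕ × ℕ) → (ℕ → Bool) → ℕ → Bool
  | [], f, m => f m
  | x :: l, f, m => (List.range (x.2 + 1)).all fun i => allD l f (m * x.1 ^ i)
def yy (q e : ℕ) : ℕ := ((List.range e).map fun d => if 0 < d ∧ e % d = 0 then q ^ d - 1 else 1).prod
def st (y x : ℕ) : ℕ := x / Nat.gcd x y
def s4 (y x : ℕ) : ℕ := st y (st y (st y (st y x)))
def tA (M q e : ℕ) : Bool := Nat.gcd (s4 (yy q e) (q ^ e - 1)) (yy q e) != 1 || M % s4 (yy q e) (q ^ e - 1) == 0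
def tB (N q n : ℕ) : Bool :=
  P.all fun r => r == 2 || N % r != 0 || q % r == 0 || (List.range n).any fun m => q ^ (2 * (m + 1)) % r == 1
def chk (N M q e : ℕ) : Bool := q < 2 || !tA M q e || q == 18 || q == 57 || q == 87 ||
  [0, 1, 2].all fun t => [e / 2, e / 2 + 1, e, e + 1].all fun n => (Es t n q).headD 0 != e || n < 2 || (t != 0 && n < 4) ||
    (n == 2 && q ≤ 3) || !(Es t n q).all (tA M q) || !tB N q n || (t, n, q, N) ∈ resid
def rt (d : ℕ) : ℕ := (List.range 26).foldr (fun i s => if (s + 2 ^ i) * (s + 2 ^ i) ≤ d then s + 2 ^ i else s) 0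
def pol (e q : ℕ) : ℕ := if e = 3 then q * q + q + 1 else if e = 4 then q * q + 1 else q * q - q + 1
def two (N M e d : ℕ) : Bool := rt d * rt d ≤ d && d < (rt d + 1) * (rt d + 1) &&
  (pol e (rt d + e / 6) != d || chk N M (rt d + e / 6) e)
def one (N M e : ℕ) (l : List (ℕ × ℕ)) : Bool := e < 3 || prd l == 1 ||
  if e = 3 ∨ e = 4 ∨ e = 6 then allD ((2, 1) :: (3, 1) :: l) (two N M e) 1
  else e * prd l < 110 ^ 4 && (List.range 112).all fun q => e * prd l ≤ (q - 1) ^ 4 || chk N M q e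
def ok (x : ℕ × ℕ × List (ℕ × ℕ)) : Bool := Nat.gcd (x.1 * (2 ^ x.2.1 - 1)) (x.1 ^ 256) == prd x.2.2 &&
  0 < x.1 * (2 ^ x.2.1 - 1) && x.1 * (2 ^ x.2.1 - 1) < 2 ^ 256 && x.2.2.all (·.1 ∈ P) && chk x.1 (prd x.2.2) 2 6 &&
  (List.range 71).all fun e => one x.1 (prd x.2.2) e (x.2.2.filter (·.1 % e = 1))

theorem all_ok : dat.all ok = true := by decide +kernel
theorem ords_eq : ords = dat.map fun x => (x.1, x.2.1) := by decide +kernel
theorem tot : ∀ e < 71, 3 ≤ e → ¬ (e = 3 ∨ e = 4 ∨ e = 6) → 4 ≤ Nat.totient e := by decide +kernel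
theorem P_prime : ∀ r ∈ P, r.Prime ∧ r ≤ 71 := by simp only [P, List.forall_mem_cons]; norm_num

variable {l : List (ℕ × ℕ)} {r j e q M N n t : ℕ}

theorem allD_spec (hl : ∀ x ∈ l, x.1.Prime) {f : ℕ → Bool} {m d : ℕ} (h : allD l f m = true) (hd : d ∣ prd l) :
    f (m * d) = true := by
  induction l generalizing m d with
  | nil => rwa [Nat.dvd_one.1 hd, mul_one]
  | cons x l ih =>
    obtain ⟨a, b, h1, h2, rfl⟩ := exists_dvd_and_dvd_of_dvd_mul (show d ∣ x.1 ^ x.2 * prd l from hd)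
    obtain ⟨i, hi, rfl⟩ := (Nat.dvd_prime_pow (hl x (by simp))).1 h1
    rw [← mul_assoc]
    exact ih (fun y hy => hl y (by simp [hy])) (List.all_eq_true.1 h i (by simpa using Nat.lt_succ_of_le hi)) h2

theorem dvd_filter (hl : ∀ x ∈ l, x.1.Prime) (hr : r.Prime) (h : r ^ j ∣ prd l) (he : r % e = 1) :
    r ^ j ∣ prd (l.filter (·.1 % e = 1)) := by
  rw [prd, ← List.prod_map_filter_mul_prod_map_filter_not (·.1 % e = 1)] at h
  refine (Nat.Coprime.pow_left _ (Nat.coprime_list_prod_right_iff.2 fun n hn => ?_)).dvd_of_dvd_mul_right (by simpa [prd] using h)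
  obtain ⟨x, hx, rfl⟩ := List.mem_map.1 hn
  rw [List.mem_filter] at hx
  exact ((Nat.coprime_primes hr (hl x hx.1)).2 fun k => by simp [← k, he] at hx).pow_right _

theorem mem_P (hl : ∀ x ∈ l, x.1 ∈ P) (hr : r.Prime) (h : r ∣ prd l) : r ∈ P := by
  obtain ⟨_, hn, d⟩ := hr.prime.dvd_prod_iff.1 h
  obtain ⟨x, hx, rfl⟩ := List.mem_map.1 hn
  exact (Nat.prime_dvd_prime_iff_eq hr (P_prime _ (hl x hx)).1).1 (hr.dvd_of_dvd_pow d) ▸ hl x hx

theorem tA_of (hq : 1 ≤ q) (he : 0 < e) (h : ∀ r j, r.Prime → orderOf (q : ZMod r) = e → r ^ j ∣ q ^ e - 1 → r ^ j ∣ M) :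
    tA M q e = true := by
  have k : ∀ y x, st y x ∣ x := fun y x => Nat.div_dvd_of_dvd (Nat.gcd_dvd_left x y)
  have d : s4 (yy q e) (q ^ e - 1) ∣ q ^ e - 1 := (k _ _).trans ((k _ _).trans ((k _ _).trans (k _ _)))
  rw [tA, Bool.or_eq_true, bne_iff_ne, beq_iff_eq, ← Nat.dvd_iff_mod_eq_zero, or_iff_not_imp_left, not_not]
  refine fun c => (Nat.dvd_iff_prime_pow_dvd_dvd _ _).2 fun r j hr d' => ?_
  rcases j with _ | j
  · simp
  have d1 := (dvd_pow_self r j.succ_ne_zero).trans d'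
  have o := (dvd_pow_sub_one_iff hq).1 (d1.trans d)
  refine h r _ hr (by_contra fun n => hr.not_dvd_one (c ▸ Nat.dvd_gcd d1 ?_)) (d'.trans d)
  refine ((dvd_pow_sub_one_iff hq).2 dvd_rfl).trans (List.dvd_prod (List.mem_map.2 ⟨_, List.mem_range.2
    ((Nat.le_of_dvd he o).lt_of_ne n), if_pos ⟨Nat.pos_of_dvd_of_pos o he, Nat.mod_eq_zero_of_dvd o⟩⟩))

theorem hd (ht : t ≤ 2) (hn : 2 ≤ n) (h4 : t ≠ 0 → 4 ≤ n) (h : e = (Es t n q).headD 0) :
    e ∈ Es t n q ∧ 3 ≤ e ∧ n ∈ [e / 2, e / 2 + 1, e, e + 1] ∧ ∀ x ∈ Es t n q, 0 < x := by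
  subst h
  unfold Es
  split_ifs <;> simp <;> omega

theorem cyc3 (hq : 1 ≤ q) (h : e = 3 ∨ e = 4 ∨ e = 6) : cycV e q = pol e q := by
  rw [← Int.natCast_inj, cycV_int hq, pol]
  rcases h with rfl | rfl | rfl
  · simp [cyclotomic_three, sq]
  · simp [show cyclotomic 4 ℤ = _ from cyclotomic_prime_pow_eq_geom_sum (n := 1) Nat.prime_two, Finset.sum_range_succ, sq,
      add_comm]
  · simp [cyclotomic_six, sq, Nat.cast_sub (Nat.le_mul_self q)]

theorem nu : NU := fun t n p f N a hp f0 ht hn h4 h3 hN A B => by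
  have q2 : 2 ≤ p ^ f := Nat.one_lt_pow f0.ne' hp.one_lt
  have np : ∀ r s : ℕ, r.Prime → s.Prime → r ≠ s → ¬ (r ∣ p ^ f ∧ s ∣ p ^ f) := fun r s i j k d => k
    (((Nat.prime_dvd_prime_iff_eq i hp).1 (i.dvd_of_dvd_pow d.1)).trans
      ((Nat.prime_dvd_prime_iff_eq j hp).1 (j.dvd_of_dvd_pow d.2)).symm)
  have pq : p ∣ p ^ f := dvd_pow_self p f0.ne'
  have n1 := np 2 3 (by norm_num) (by norm_num) (by norm_num)
  have n2 := np 3 19 (by norm_num) (by norm_num) (by norm_num)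
  have n3 := np 3 29 (by norm_num) (by norm_num) (by norm_num)
  generalize p ^ f = q at *
  obtain ⟨⟨N, a, l⟩, hx, e⟩ := List.mem_map.1 (ords_eq ▸ hN)
  obtain ⟨rfl, rfl⟩ := Prod.ext_iff.1 e
  have o := List.all_eq_true.1 all_ok _ hx
  simp only [ok, Bool.and_eq_true, beq_iff_eq, decide_eq_true_eq, List.all_eq_true] at o
  obtain ⟨⟨⟨⟨⟨o1, o0⟩, o2⟩, o3⟩, o4⟩, o5⟩ := o
  dsimp only at A B ⊢
  have lp : ∀ x ∈ l, x.1.Prime := fun x h => (P_prime _ (o3 x h)).1
  have A' : ∀ e ∈ Es t n q, ∀ r j, r.Prime → orderOf (q : ZMod r) = e → r ^ j ∣ q ^ e - 1 → r ^ j ∣ prd l :=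
    fun e he r j hr o d => o1 ▸ Nat.dvd_gcd ((A e he r hr o).2 j d) ((pow_dvd_pow_of_dvd (A e he r hr o).1 j).trans
      (pow_dvd_pow _ ((Nat.pow_lt_pow_iff_right one_lt_two).1 ((Nat.pow_le_pow_left hr.two_le j).trans_lt
        ((Nat.le_of_dvd o0 ((A e he r hr o).2 j d)).trans_lt o2))).le))
  obtain ⟨e, he⟩ : ∃ e, e = (Es t n q).headD 0 := ⟨_, rfl⟩
  obtain ⟨e1, e3, e4, e5⟩ := hd ht hn h4 he
  suffices chk N (prd l) q e = true by
    have tb : tB N q n = true := List.all_eq_true.2 fun r hr => by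
      have pr := (P_prime r hr).1
      by_cases d : r ∣ N
      · rcases B r pr d with rfl | rfl | ⟨m, h1, h2, h3⟩
        · simp
        · simp [Nat.mod_eq_zero_of_dvd pq]
        · have : q ^ (2 * (m - 1 + 1)) % r = 1 := by
            rw [Nat.sub_add_cancel h2, ← (Nat.modEq_iff_dvd' (Nat.one_le_pow _ _ (by omega))).2 h3, Nat.mod_eq_of_lt pr.one_lt]
          simp only [Bool.or_eq_true, List.any_eq_true, beq_iff_eq, List.mem_range]
          exact .inr ⟨m - 1, by omega, this⟩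
      · simp [← Nat.dvd_iff_mod_eq_zero, d]
    have ta : ∀ e ∈ Es t n q, tA (prd l) q e = true := fun e he => tA_of (by omega) (e5 e he) (A' e he)
    simp only [chk, ta e e1, Bool.or_eq_true, decide_eq_true_eq, beq_iff_eq, List.all_eq_true] at this
    have := (this.resolve_left (by simp; omega)) t (by simp; omega) n e4
    simp only [← he, tb, List.all_eq_true.2 ta] at this
    exact this.resolve_left (by simp; omega)
  by_cases s : q = 2 ∧ e = 6
  · exact s.1 ▸ s.2 ▸ o4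
  obtain ⟨r, hr, d1, d2⟩ := zsigmondy (a := q) (n := e) q2 (by omega) s (by omega)
  have md : ∀ r, r.Prime → e ∣ r - 1 → r % e = 1 := fun r hr d => by
    rw [← (Nat.modEq_iff_dvd' hr.one_le).2 d, Nat.mod_eq_of_lt (by omega)]
  obtain ⟨z1, z2⟩ := dvd_of_prim (by omega) (by omega) hr d1 d2
  have d3 := A' e e1 r 1 hr z1 (by rwa [pow_one])
  have r71 := (P_prime r (mem_P o3 hr (by rwa [pow_one] at d3))).2
  have e70 : e < 71 := (Nat.le_of_dvd (by have := hr.two_le; omega) z2).trans_lt (by omega)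
  have e0 : 0 < e ∧ 1 < e ∧ 0 < q - 1 ∧ q ≠ 1 := by omega
  have c := cycV_dvd_mul (a := q) (n := e) q2 e3 (c := prd (l.filter (·.1 % e = 1))) fun r j hr n d => by
    rcases j with _ | j
    · simp
    obtain ⟨a1, a2⟩ := prim_of_dvd_cycV (by omega) hr n ((dvd_pow_self r j.succ_ne_zero).trans d)
    obtain ⟨b1, b2⟩ := dvd_of_prim (by omega) (by omega) hr a1 a2
    exact dvd_filter lp hr (A' e e1 r _ hr b1 (d.trans (cycV_dvd (by omega)))) (md r hr b2)
  have c1 := dvd_filter lp hr d3 (md r hr z2)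
  have o := o5 e (List.mem_range.2 e70)
  have lq : ∀ x ∈ l.filter (·.1 % e = 1), x.1.Prime := fun x h => lp x (List.mem_filter.1 h).1
  generalize l.filter (·.1 % e = 1) = l' at *
  simp only [one, Bool.or_eq_true, decide_eq_true_eq, beq_iff_eq] at o
  have o := (o.resolve_left (by
    rintro (k | k)
    · omega
    · exact hr.not_dvd_one (by simpa [k] using c1)))
  split_ifs at o with k
  · have := allD_spec (d := cycV e q) (by simpa [Nat.prime_two, Nat.prime_three] using fun a b h => lq (a, b) h) o (by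
      show _ ∣ 2 ^ 1 * (3 ^ 1 * prd l')
      rcases c with c | ⟨r, hr, d, -, c⟩
      · exact (c.mul_left _).mul_left _
      · have : r ∣ 2 * 2 * 3 := d.trans (by rcases k with rfl | rfl | rfl <;> norm_num)
        simp only [hr.dvd_mul, Nat.prime_dvd_prime_iff_eq hr, Nat.prime_two, Nat.prime_three, or_self] at this
        refine c.trans ?_
        rw [← mul_assoc]
        rcases this with rfl | rfl <;> exact Nat.mul_dvd_mul_right (by norm_num) _)
    rw [one_mul, cyc3 (by omega) k] at this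
    simp only [two, Bool.and_eq_true, decide_eq_true_eq, Bool.or_eq_true, bne_iff_ne] at this
    obtain ⟨⟨u1, u2⟩, u3⟩ := this
    generalize rt (pol e q) = s at *
    have : s + e / 6 = q := by
      obtain ⟨q, rfl⟩ := Nat.exists_eq_add_of_le' q2
      have w : (q + 2) * (q + 2) - (q + 2) + 1 = q * q + 3 * q + 3 := by
        rw [show (q + 2) * (q + 2) = q * q + 3 * q + 2 + (q + 2) by ring, Nat.add_sub_cancel]
      rcases k with rfl | rfl | rfl <;> simp only [pol, w] at u1 u2 <;> norm_num at u1 u2 ⊢ <;> nlinarith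
    rw [this] at u3
    exact u3.resolve_left (by simp)
  · simp only [Bool.and_eq_true, decide_eq_true_eq, List.all_eq_true, Bool.or_eq_true] at o
    have p0 : 0 < e * prd l' := Nat.mul_pos e0.1 (List.prod_pos fun x h => by
      obtain ⟨y, hy, rfl⟩ := List.mem_map.1 h
      exact pow_pos (lq y hy).pos _)
    have lt : (q - 1) ^ 4 < e * prd l' := (Nat.pow_le_pow_right e0.2.2.1 (tot e e70 e3 k)).trans_lt
      ((sub_one_pow_totient_lt_natAbs_cyclotomic_eval e0.2.1 e0.2.2.2).trans_le (Nat.le_of_dvd p0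
        (c.elim (·.mul_left _) fun ⟨r, _, d, _, c⟩ => c.trans (Nat.mul_dvd_mul_right d _))))
    have := (Nat.pow_lt_pow_iff_left (by norm_num)).1 (lt.trans o.1)
    clear c
    exact (o.2 q (List.mem_range.2 (by omega))).resolve_left lt.not_ge

end H24.IS
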