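import Cfsg.Agent.H24.KA4

/-! The order of a Sylow subgroup is bounded in terms of the size of the principal block. -/

set_option autoImplicit false
set_option linter.unusedSectionVars false

open Cfsg H5 H7 H21 Finset Module
open scoped Classical

namespace H24.KA

universe u

section Num

variable {ι : Type u} [Fintype ι] {k : ℕ} (hk : Fintype.card ι ≤ k) {Λ : AddSubgroup (ι → ℚ)}
  {i0 : ι}

/-- the span of the short vectors -/
def Sp (Λ : AddSubgroup (ι → ℚ)) (n : ℕ) : Submodule ℚ (ι → ℚ) :=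
  Submodule.span ℚ {y | y ∈ Λ ∧ ∀ i, |y i| ≤ 1 / n}

include hk in
theorem fr_le (W : Submodule ℚ (ι → ℚ)) : finrank ℚ W ≤ k :=
  W.finrank_le.trans (by simpa using hk)

include hk in
theorem span_bd (H : ∀ y ∈ Λ, (∀ i, |y i| < 1 / 2) → |y i0| ≤ ∑ i, y i ^ 2) {n : ℕ}
    (h1 : 2 * (k + 1) < n) {x : ι → ℚ} (hx : x ∈ Sp Λ n) (hx1 : ∀ i, |x i| ≤ 1) :
    |x i0| ≤ (k * (k + 1) ^ 2 + k ^ 2) * (1 / n) := by
  have n0 : (0 : ℚ) < n := by exact_mod_cast (by omega : 0 < n)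
  have h2 : ((k : ℚ) + 1) * (1 / n) < 1 / 2 := by
    rw [mul_one_div, div_lt_div_iff₀ n0 two_pos]
    exact_mod_cast (by omega : (k + 1) * 2 < 1 * n)
  obtain ⟨f, f1, f2, -⟩ := Submodule.exists_fun_fin_finrank_span_eq ℚ
    {y | y ∈ Λ ∧ ∀ i, |y i| ≤ 1 / (n : ℚ)}
  have hd := fr_le hk (Sp Λ n)
  rw [Sp] at hd
  rw [Sp, ← f2] at hx
  generalize finrank ℚ (Submodule.span ℚ {y | y ∈ Λ ∧ ∀ i, |y i| ≤ 1 / (n : ℚ)}) = d at f f1 hx hd
  have e0 : (0 : ℚ) < 1 / n := by positivity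
  generalize (1 / n : ℚ) = ε at *
  have k0 : (0 : ℚ) ≤ k := by positivity
  have hd' : (d : ℚ) ≤ k := by exact_mod_cast hd
  have hk' : (Fintype.card ι : ℚ) ≤ k := by exact_mod_cast hk
  have H2 : ∀ y ∈ Λ, ∀ δ : ℚ, δ < 1 / 2 → (∀ i, |y i| ≤ δ) → |y i0| ≤ k * δ ^ 2 :=
    fun y hy δ h h' => (H y hy fun i => (h' i).trans_lt h).trans <|
      (sum_le_card_nsmul _ _ (δ ^ 2) fun i _ => sq_le_sq' (abs_le.1 (h' i)).1 (abs_le.1 (h' i)).2).trans
        (by rw [nsmul_eq_mul]; exact mul_le_mul_of_nonneg_right hk' (sq_nonneg _))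
  obtain ⟨c, rfl⟩ := (Submodule.mem_span_range_iff_exists_fun ℚ).1 hx
  have w : ∀ (i : ι) (b : ℚ), 0 ≤ b → (∀ j, |f j i| ≤ b) →
      |∑ j, Int.fract (ε * c j) * f j i| ≤ k * b := fun i b hb h =>
    (abs_sum_le_sum_abs _ _).trans <| (sum_le_card_nsmul _ _ b fun j _ => by
      rw [abs_mul, abs_of_nonneg (Int.fract_nonneg _)]
      exact (mul_le_of_le_one_left (abs_nonneg _) (Int.fract_lt_one _).le).trans (h j)).trans
        (by simpa using mul_le_mul_of_nonneg_right hd' hb)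
  have e : ∀ i, (∑ j, ⌊ε * c j⌋ • f j) i =
      ε * (∑ j, c j • f j) i - ∑ j, Int.fract (ε * c j) * f j i := fun i => by
    simp only [Finset.sum_apply, Pi.smul_apply, smul_eq_mul, zsmul_eq_mul, mul_sum,
      ← sum_sub_distrib, Int.fract, Pi.mul_apply, Pi.intCast_apply]
    exact sum_congr rfl fun j _ => by ring
  have a1 := H2 _ (Λ.sum_mem (t := univ) fun j _ => Λ.zsmul_mem (f1 j).1 ⌊ε * c j⌋) _ h2 fun i => by
    rw [e]
    refine (abs_sub _ _).trans ?_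
    have := w i ε e0.le fun j => (f1 j).2 i
    have := mul_le_mul_of_nonneg_left (hx1 i) e0.le
    rw [abs_mul, abs_of_pos e0]
    linarith
  have a2 := w i0 (k * ε ^ 2) (by positivity) fun j => H2 _ (f1 j).1 ε (by nlinarith) (f1 j).2
  rw [e] at a1
  have a3 := abs_add_le (ε * (∑ j, c j • f j) i0 - ∑ j, Int.fract (ε * c j) * f j i0)
    (∑ j, Int.fract (ε * c j) * f j i0)
  rw [sub_add_cancel, abs_mul, abs_of_pos e0] at a3
  refine le_of_mul_le_mul_left ?_ e0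
  nlinarith

include hk in
theorem pig (hz : ∀ z : ι → ℤ, (fun i => (z i : ℚ)) ∈ Λ) {Q : ℕ} {g : ι → ℚ} (hg : g ∈ Λ)
    (g0 : g i0 = 1 / Q) {n : ℕ} (hn : 0 < n) (hQ : n ^ k < Q) :
    ∃ x ∈ Λ, (∀ i, |x i| ≤ 1 / n) ∧ 1 ≤ |x i0| * (2 * (n ^ k + 1)) := by
  set m := n ^ k + 1 with hm
  have n0 : (0 : ℚ) < n := by exact_mod_cast hn
  have Q0 : (0 : ℚ) < Q := by exact_mod_cast (by omega : 0 < Q)
  have d1 : m * (Q / m) ≤ Q := Nat.mul_div_le _ _
  have d2 : Q < m * (Q / m + 1) := Nat.lt_mul_div_succ _ (by omega)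
  have d3 : 0 < Q / m := Nat.div_pos hQ (by omega)
  generalize Q / m = D at *
  let y : ℕ → ι → ℚ := fun j i => Int.fract (((j * D) • g) i)
  have y1 : ∀ j, y j ∈ Λ := fun j => Λ.sub_mem (Λ.nsmul_mem hg (j * D)) (hz _)
  have y2 : ∀ j ∈ range m, y j i0 = j * D / Q := fun j hj => by
    have : j * D < Q := lt_of_lt_of_le (Nat.mul_lt_mul_of_pos_right (mem_range.1 hj) d3) d1
    simp only [y, Pi.smul_apply, g0, nsmul_eq_mul, mul_one_div, Nat.cast_mul]
    exact Int.fract_eq_self.2 ⟨by positivity, (div_lt_one Q0).2 (by exact_mod_cast this)⟩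
  obtain ⟨j, hj, l, hl, ne, e⟩ := exists_ne_map_eq_of_card_lt_of_maps_to
    (s := range m) (t := Fintype.piFinset fun _ : ι => Ico (0 : ℤ) n)
    (f := fun j i => ⌊n * y j i⌋) (by
      simp only [Fintype.card_piFinset, Int.card_Ico, sub_zero, Int.toNat_natCast, prod_const,
        card_univ, card_range]
      exact Nat.lt_succ_of_le (Nat.pow_le_pow_right hn hk)) fun j _ => by
      refine mem_coe.2 (Fintype.mem_piFinset.2 fun i => mem_Ico.2
        ⟨Int.floor_nonneg.2 (mul_nonneg n0.le (Int.fract_nonneg _)), Int.floor_lt.2 ?_⟩)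
      simpa using mul_lt_mul_of_pos_left (Int.fract_lt_one _) n0
  refine ⟨y j - y l, Λ.sub_mem (y1 j) (y1 l), fun i => ?_, ?_⟩
  · have := Int.abs_sub_lt_one_of_floor_eq_floor (congrFun e i)
    rw [← mul_sub, abs_mul, abs_of_pos n0] at this
    rw [le_div_iff₀ n0, mul_comm]
    exact this.le
  · have h1 : (1 : ℚ) ≤ |(j : ℚ) - l| := by
      have : (j : ℤ) - l ≠ 0 := by omega
      exact_mod_cast Int.one_le_abs this
    have h2 : (Q : ℚ) ≤ D * (2 * m) := by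
      exact_mod_cast (by nlinarith : Q ≤ D * (2 * m))
    rw [Pi.sub_apply, y2 j hj, y2 l hl, ← sub_div, ← sub_mul, abs_div, abs_mul, abs_of_pos Q0,
      Nat.abs_cast, div_mul_eq_mul_div, le_div_iff₀ Q0, one_mul, mul_assoc]
    have : ((n : ℚ) ^ k + 1) = m := by simp [hm]
    rw [this]
    exact h2.trans (le_mul_of_one_le_left (by positivity) h1)

/-- the chain of scales -/
def sc (k : ℕ) : ℕ → ℕ
  | 0 => 1
  | j + 1 => (k * (k + 1) ^ 2 + k ^ 2 + k + 2) * (2 * (sc k j ^ k + 1)) + sc k j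

theorem sc_pos (k j : ℕ) : 0 < sc k j := by
  induction j with
  | zero => exact one_pos
  | succ j ih => exact Nat.add_pos_right _ ih

include hk in
theorem bd (hz : ∀ z : ι → ℤ, (fun i => (z i : ℚ)) ∈ Λ) {Q : ℕ} {g : ι → ℚ} (hg : g ∈ Λ)
    (g0 : g i0 = 1 / Q) (H : ∀ y ∈ Λ, (∀ i, |y i| < 1 / 2) → |y i0| ≤ ∑ i, y i ^ 2) :
    Q ≤ ∑ j ∈ range (k + 1), sc k j ^ k := by
  obtain ⟨j, hj, e⟩ : ∃ j ∈ range (k + 1), Sp Λ (sc k (j + 1)) = Sp Λ (sc k j) := by
    by_contra hh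
    push Not at hh
    have : ∀ j ≤ k + 1, finrank ℚ (Sp Λ (sc k j)) + j ≤ k := fun j => by
      induction j with
      | zero => exact fun _ => fr_le hk _
      | succ j ih =>
        intro h
        have k1 : Sp Λ (sc k (j + 1)) ≤ Sp Λ (sc k j) := Submodule.span_mono
          fun y hy => And.intro hy.1 fun i => (hy.2 i).trans (one_div_le_one_div_of_le
            (by exact_mod_cast sc_pos k j) (by exact_mod_cast Nat.le_add_left _ _))
        have := Submodule.finrank_lt_finrank_of_lt (lt_of_le_of_ne k1 (hh j (mem_range.2 h)))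
        have := ih (by omega)
        omega
    have := this (k + 1) le_rfl
    omega
  refine le_trans (not_lt.1 fun hQ => ?_) (single_le_sum (f := fun j => sc k j ^ k)
    (fun _ _ => Nat.zero_le _) hj)
  obtain ⟨x, x1, x2, x3⟩ := pig hk hz hg g0 (sc_pos k j) hQ
  have n1 : (1 : ℚ) ≤ sc k j := by exact_mod_cast sc_pos k j
  have := span_bd hk H (n := sc k (j + 1)) (by
    have := sc_pos k j
    rw [sc]; nlinarith [Nat.zero_le (sc k j ^ k), Nat.zero_le (k * (k + 1) ^ 2 + k ^ 2)])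
    (e ▸ Submodule.subset_span ⟨x1, x2⟩) fun i => (x2 i).trans ((div_le_one (by linarith)).2 n1)
  rw [mul_one_div, le_div_iff₀ (by exact_mod_cast sc_pos k _), sc] at this
  push_cast at this
  have k0 : (0 : ℚ) ≤ k := by positivity
  have := mul_le_mul_of_nonneg_left x3 (show (0 : ℚ) ≤ k * (k + 1) ^ 2 + k ^ 2 + k + 2 by positivity)
  nlinarith [abs_nonneg (x i0)]

end Num

theorem bm_eq' {Q : ℕ} {x y : ℤ} (hy : 2 * |y| < Q) (e : (Q : ℤ) ∣ x - y) : x.bmod Q = y := by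
  have h1 := Int.bmod_lt (x := x) (m := Q) (by have := abs_nonneg y; omega)
  have h2 := Int.le_bmod (x := x) (m := Q) (by have := abs_nonneg y; omega)
  have := Int.eq_zero_of_abs_lt_dvd (dvd_sub e (bm_dvd x Q)) (by
    rw [abs_lt]; have := le_abs_self y; have := neg_abs_le y; omega)
  omega

variable {G : Type u} [Group G] [Fintype G] {p : ℕ} [hp : Fact p.Prime] {M : Ideal AlgInt}

theorem Q_bd (hM : IsPModular p M) {k : ℕ} (hk : (B0 G M).card ≤ k) :
    QQ G p ≤ ∑ j ∈ range (k + 1), sc k j ^ k := by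
  have Q0 : 0 < QQ G p := pow_pos hp.out.pos _
  have Q1 : (0 : ℚ) < QQ G p := by exact_mod_cast Q0
  let Λ : AddSubgroup (B0 G M → ℚ) :=
    { carrier := {y | ∃ t : ℤ, ∀ i, ∃ z : ℤ, y i = t * av p i.1 / QQ G p + z}
      zero_mem' := ⟨0, fun _ => ⟨0, by simp⟩⟩
      add_mem' := fun ⟨t, h⟩ ⟨t', h'⟩ => ⟨t + t', fun i => by
        obtain ⟨z, hz⟩ := h i
        obtain ⟨z', hz'⟩ := h' i
        exact ⟨z + z', by rw [Pi.add_apply, hz, hz']; push_cast; ring⟩⟩
      neg_mem' := fun ⟨t, h⟩ => ⟨-t, fun i => by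
        obtain ⟨z, hz⟩ := h i
        exact ⟨-z, by rw [Pi.neg_apply, hz]; push_cast; ring⟩⟩ }
  obtain ⟨t, c, ht⟩ := ex_inv hp.out (av_one (G := G) hM) ((Nat.card G).factorization p) 1
  have ht' : (t : ℚ) * av p (irrOne G) - 1 = QQ G p * c := by
    rw [QQ]; exact_mod_cast ht
  refine bd (Λ := Λ) (i0 := ⟨_, S0_sub hM (one_S0 hM)⟩) (by simpa using hk)
    (fun z => ⟨0, fun i => ⟨z i, by simp⟩⟩) (g := fun i => t * av p i.1 / QQ G p + (-c : ℤ))
    ⟨t, fun i => ⟨_, rfl⟩⟩ (by push_cast; field_simp; linear_combination ht') ?_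
  rintro y ⟨t, h⟩ h1
  have e : ∀ i, y i = (t * av p i.1).bmod (QQ G p) / QQ G p := fun i => by
    obtain ⟨z, hz⟩ := h i
    have k1 : y i = (t * av p i.1 + QQ G p * z : ℤ) / QQ G p := by
      rw [hz]; push_cast; field_simp
    have k2 := h1 i
    rw [k1, abs_div, abs_of_pos Q1, div_lt_div_iff₀ Q1 two_pos, one_mul, mul_comm] at k2
    rw [bm_eq' (y := t * av p i.1 + QQ G p * z) (by exact_mod_cast k2) ⟨-z, by ring⟩, k1]
  have := key (G := G) (p := p) (q := QQ G p) (by exact_mod_cast Q0) dvd_rfl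
    (r := fun x => (t * x).bmod (QQ G p)) fun x => bm_dvd _ _
  rw [sum_B0 hM (F := fun x => (t * x).bmod (QQ G p) ^ 2) (by simp), ← sum_coe_sort] at this
  simp only [e, div_pow, ← sum_div]
  rw [abs_div, abs_of_pos Q1, div_le_div_iff₀ Q1 (by positivity), sq, ← mul_assoc,
    mul_le_mul_iff_left₀ Q1, mul_comm]
  exact_mod_cast this

end H24.KA
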