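import Cfsg.Agent.H24.LW1
import Cfsg.Agent.H24.Derang
import Cfsg.Agent.S0735

/-! The Livingstone-Wagner theorems. -/

set_option autoImplicit false

namespace H24
open MulAction Subgroup Equiv Cfsg H19 Pointwise

section
variable {G Ω : Type*} [Group G] [MulAction G Ω] [DecidableEq Ω]

theorem card_fix_smul [Finite G] (g : G) (s : Finset Ω) :
    Nat.card (fixingSubgroup G ((g • s : Finset Ω) : Set Ω)) = Nat.card (fixingSubgroup G (s : Set Ω)) :=
  (card_eq_of_conj g fun x => by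
    simp [H17.mem_fix_iff, mul_smul, Finset.mem_smul_finset, Set.mem_smul_set]).symm

theorem Hom.card_fix [Finite G] {k : ℕ} (h : Hom G Ω k) {s t : Finset Ω} (hs : s.card = k)
    (ht : t.card = k) :
    Nat.card (fixingSubgroup G (s : Set Ω)) = Nat.card (fixingSubgroup G (t : Set Ω)) := by
  obtain ⟨g, rfl⟩ := h s t hs ht
  rw [card_fix_smul]

theorem Hom.card_eq [Finite Ω] {k : ℕ} (h : Hom G Ω k) {s : Finset Ω} (hs : s.card = k) :
    Nat.card G = (Nat.card Ω).choose k *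
      (Nat.card (fixingSubgroup G (s : Set Ω)) * Nat.card (IndG G s)) := by
  have : orbit G s = Set.powersetCard Ω k := by
    ext t
    exact ⟨by rintro ⟨g, rfl⟩; simpa using hs, fun e => h s t hs e⟩
  rw [← card_stab_finset, ← H17.card_orbit_mul s, ← Set.powersetCard.card, this]

theorem Hom.mt {k : ℕ} (h : Hom G Ω k) {s : Finset Ω} (hs : s.card = k) (ht : IndG G s = ⊤) :
    IsMultiplyPretransitive G Ω k := by
  have key : ∀ x : Fin k → Ω, Function.Injective x →
      ∃ g : G, ∀ i, g • ((Finset.equivFinOfCardEq hs).symm i : Ω) = x i := fun x hx => by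
    obtain ⟨g, hg⟩ := h (Finset.univ.image x) s (by simp [Finset.card_image_of_injective _ hx]) hs
    let f : Fin k → s := fun i => ⟨g • x i, hg ▸ Finset.smul_mem_smul_finset (by simp)⟩
    have hf : Function.Bijective f := (Fintype.bijective_iff_injective_and_card f).2
      ⟨fun i j e => hx ((smul_left_cancel_iff g).1 (congrArg Subtype.val e)), by simp [hs]⟩
    obtain ⟨u, hu⟩ : (Finset.equivFinOfCardEq hs).trans (Equiv.ofBijective f hf) ∈ IndG G s :=
      ht ▸ mem_top _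
    exact ⟨g⁻¹ * u, fun i => by rw [mul_smul, hu, inv_smul_eq_iff]; simp [f]⟩
  refine H17.mt_iff.2 fun x y hx hy => ?_
  obtain ⟨u, hu⟩ := key x hx
  obtain ⟨v, hv⟩ := key y hy
  exact ⟨v * u⁻¹, fun i => by rw [← hu, mul_smul, inv_smul_smul, hv]⟩

theorem card_orbit_fix (s : Finset Ω) (x : Ω) :
    Nat.card (orbit (fixingSubgroup G (s : Set Ω)) x) *
      Nat.card (fixingSubgroup G ((insert x s : Finset Ω) : Set Ω)) =
      Nat.card (fixingSubgroup G (s : Set Ω)) := by
  rw [Finset.coe_insert, H17.fix_insert, H17.card_orbit_mul_inf]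

theorem smul_notMem {s : Finset Ω} {g : G} (hg : g ∈ fixingSubgroup G (s : Set Ω)) {x : Ω}
    (hx : x ∉ s) : g • x ∉ s := fun e =>
  hx ((smul_left_cancel_iff g).1 (H17.mem_fix_iff.1 hg _ e) ▸ e)

theorem fix_eq_bot [Finite G] [Finite Ω] [FaithfulSMul G Ω] {i : ℕ} (hi : i ≤ Nat.card Ω)
    (ht : IsMultiplyPretransitive G Ω i) (hnt : ¬ IsMultiplyPretransitive G Ω (i + 1))
    (h1 : Hom G Ω (i + 1)) (h2 : Hom G Ω (i + 2)) {s : Finset Ω} (hs : s.card = i + 1) :
    fixingSubgroup G (s : Set Ω) = ⊥ := by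
  have := Fintype.ofFinite Ω
  obtain ⟨Γ, -, hΓ⟩ := Finset.exists_subset_card_eq (s := (Finset.univ : Finset Ω)) (n := i)
    (by rwa [Finset.card_univ, ← Nat.card_eq_fintype_card])
  obtain ⟨x, y, hx, hy, hxy⟩ : ∃ x y, x ∉ Γ ∧ y ∉ Γ ∧
      y ∉ orbit (fixingSubgroup G (Γ : Set Ω)) x := by
    by_contra h
    push Not at h
    exact hnt (H17.mt_succ_of_one ht Γ hΓ fun a b ha hb =>
      (h a b ha hb).elim fun g e => ⟨g, H17.mem_fix_iff.1 g.2, e⟩)
  set H := fixingSubgroup G (Γ : Set Ω)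
  have c1 : ∀ z, z ∉ Γ → (insert z Γ).card = i + 1 := fun z hz => by
    rw [Finset.card_insert_of_notMem hz, hΓ]
  have c2 : ∀ z, z ∉ insert x Γ → (insert z (insert x Γ)).card = i + 2 := fun z hz => by
    rw [Finset.card_insert_of_notMem hz, c1 x hx]
  set K := fixingSubgroup G ((insert x Γ : Finset Ω) : Set Ω)
  have hKH : K ≤ H := fixingSubgroup_antitone G Ω (by simp)
  rw [← card_eq_one, h1.card_fix hs (c1 x hx), card_eq_one, eq_bot_iff_forall]
  refine fun g hg => eq_of_smul_eq_smul (α := Ω) fun z => (one_smul G z).symm ▸ ?_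
  by_cases hz : z ∈ insert x Γ
  · exact H17.mem_fix_iff.1 hg z hz
  have e1 : ∀ w, w ∉ insert x Γ → Nat.card (orbit K z) ∣ Nat.card (orbit K w) := fun w hw => by
    have e := card_orbit_fix (G := G) (insert x Γ) w
    rw [← card_orbit_fix (insert x Γ) z, h2.card_fix (c2 w hw) (c2 z hz)] at e
    exact (Nat.eq_of_mul_eq_mul_right Nat.card_pos e).symm.dvd
  have o : ∀ w, w ∉ Γ → ∀ v ∈ orbit H w, v ∉ Γ := by
    rintro w hw _ ⟨u, rfl⟩; exact smul_notMem u.2 hw
  have o' : ∀ w : Ω, ∀ g ∈ K, ∀ v ∈ orbit H w, g • v ∈ orbit H w := fun w g hg v hv =>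
    mem_orbit_of_mem_orbit (⟨g, hKH hg⟩ : H) hv
  have e2 := dvd_ncard_of_orbits K (orbit H y) (o' y) fun w hw => e1 w (by
    rw [Finset.mem_insert, not_or]
    exact ⟨fun e => hxy ((orbitRel H Ω).symm (e ▸ hw)), o y hy w hw⟩)
  have e3 := dvd_ncard_of_orbits K (orbit H x \ {x}) (fun g hg v hv => ⟨o' x g hg v hv.1,
    fun e => hv.2 ((smul_left_cancel_iff g).1 (e.trans (H17.mem_fix_iff.1 hg x (by simp)).symm))⟩)
    fun w hw => e1 w (by rw [Finset.mem_insert, not_or]; exact ⟨hw.2, o x hx w hw.1⟩)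
  have e4 := card_orbit_fix (G := G) Γ y
  rw [← card_orbit_fix Γ x, h1.card_fix (c1 y hy) (c1 x hx)] at e4
  have e5 : (orbit H y).ncard = (orbit H x).ncard := Nat.eq_of_mul_eq_mul_right Nat.card_pos e4
  rw [e5, ← Set.ncard_diff_singleton_add_one (mem_orbit_self x), Nat.dvd_add_right e3,
    Nat.dvd_one] at e2
  have := (Nat.card_eq_one_iff_unique.1 e2).1
  exact congrArg Subtype.val (Subsingleton.elim (⟨g • z, ⟨g, hg⟩, rfl⟩ : orbit K z)
    ⟨z, mem_orbit_self z⟩)

omit [DecidableEq Ω] in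
theorem pd_sylow [Finite G] [FaithfulSMul G Ω] [IsPretransitive G Ω] {p : ℕ} (hp : p.Prime)
    (h : Nat.card Ω = p) : ∃ d n, d ∣ p - 1 ∧ n % p = 1 % p ∧ Nat.card G = n * (p * d) := by
  have := Fact.mk hp
  obtain ⟨P⟩ : Nonempty (Sylow p G) := inferInstance
  obtain ⟨d, h1, -, h2, -⟩ := H17.pd_card_normalizer h P
  exact ⟨d, _, h1, card_sylow_modEq_one p G, h2⟩

omit [DecidableEq Ω] in
theorem pd_sylow_stab [Finite G] [Finite Ω] [FaithfulSMul G Ω] (h2 : IsMultiplyPretransitive G Ω 2)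
    {p : ℕ} (hp : p.Prime) (h : Nat.card Ω = p + 1) :
    ∃ d n, d ∣ p - 1 ∧ n % p = 1 % p ∧ Nat.card G = (p + 1) * (n * (p * d)) := by
  obtain ⟨a⟩ := (Nat.card_pos_iff.1 (show 0 < Nat.card Ω by omega)).1
  have : IsPretransitive G Ω := is_one_pretransitive_iff.1 (H17.mt_of_le h2 (by omega)
    (by have := hp.two_le; omega))
  have := is_one_pretransitive_iff.1 (SubMulAction.ofStabilizer.isMultiplyPretransitive (a := a).1 h2)
  have := H17.faithful_stab (G := G) a
  obtain ⟨d, n, h1, h3, h4⟩ := pd_sylow (G := stabilizer G a) (Ω := SubMulAction.ofStabilizer G a) hp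
    (by rw [SubMulAction.nat_card_ofStabilizer_eq, h]; rfl)
  exact ⟨d, n, h1, h3, by rw [← h4, ← h, H17.card_mul_stabilizer]⟩

end

variable {α : Type*} [Fintype α] [DecidableEq α] {G : Subgroup (Perm α)}

theorem eq_alt_of_card (h : 2 * Nat.card G = (Nat.card α).factorial) : G = alternatingGroup α := by
  rw [← Nat.card_perm, ← G.index_mul_card] at h
  exact Perm.eq_alternatingGroup_of_index_eq_two (Nat.eq_of_mul_eq_mul_right Nat.card_pos h).symm

theorem lw {i : ℕ} (hi : 1 ≤ i) (hn : i + 2 ≤ Nat.card α) (ht : IsMultiplyPretransitive G α i)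
    (hnt : ¬ IsMultiplyPretransitive G α (i + 1)) (h1 : Hom G α (i + 1)) (h2 : Hom G α (i + 2)) :
    (i + 2 = Nat.card α ∧ G = alternatingGroup α) ∨ (Nat.card α = 5 ∧ i = 2 ∧ Nat.card G = 20) ∨
    (Nat.card α = 6 ∧ i = 3 ∧ Nat.card G = 120) ∨
    (Nat.card α = 9 ∧ i = 3 ∧ (Nat.card G = 504 ∨ Nat.card G = 1512)) := by
  have hc := Nat.card_eq_fintype_card (α := α)
  have hb := fun (s : Finset α) => fix_eq_bot (by omega) ht hnt h1 h2 (s := s)
  have hb' : ∀ s : Finset α, i + 1 ≤ s.card → fixingSubgroup G (s : Set α) = ⊥ := fun s hs => by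
    obtain ⟨t, h4, h5⟩ := Finset.exists_subset_card_eq hs
    exact le_bot_iff.1 ((fixingSubgroup_antitone G α (Finset.coe_subset.2 h4)).trans (hb t h5).le)
  have ex : ∀ k ≤ i + 2, ∃ s : Finset α, s.card = k := fun k hk =>
    (Finset.exists_subset_card_eq (s := Finset.univ) (n := k)
      (by rw [Finset.card_univ]; omega)).imp fun _ h => h.2
  obtain ⟨Γ, hΓ⟩ := ex i (by omega)
  obtain ⟨Δ, hΔ⟩ := ex (i + 2) le_rfl
  have e0 := index_fix ht (s := Γ) (by simp [hΓ])
  set m := Nat.card (fixingSubgroup G (Γ : Set α))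
  obtain ⟨n, hn'⟩ := Nat.exists_eq_add_of_le hn
  have hd : 0 < (Nat.card α).descFactorial i := Nat.descFactorial_pos.2 (by omega)
  have e1 : ∀ s : Finset α, s.card = i + 1 → m * (IndG G s).index = n + 2 := fun s hs => by
    have e1 := h1.card_eq hs
    have e2 := (IndG G s).index_mul_card
    rw [Nat.card_perm, Nat.card_eq_fintype_card (α := s), Fintype.card_coe, hs] at e2
    rw [hb s hs, card_bot, one_mul, e0] at e1
    refine Nat.eq_of_mul_eq_mul_left hd ?_
    rw [← mul_assoc, e1, mul_assoc, mul_comm (Nat.card _), e2, mul_comm,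
      ← Nat.descFactorial_eq_factorial_mul_choose, Nat.descFactorial_succ, mul_comm, hn']
    congr 1; omega
  have e2 : m * (IndG G Δ).index = (n + 1) * (n + 2) := by
    have e1 := h2.card_eq hΔ
    have e2 := (IndG G Δ).index_mul_card
    rw [Nat.card_perm, Nat.card_eq_fintype_card (α := Δ), Fintype.card_coe, hΔ] at e2
    rw [hb' Δ (by omega), card_bot, one_mul, e0] at e1
    refine Nat.eq_of_mul_eq_mul_left hd ?_
    rw [← mul_assoc, e1, mul_assoc, mul_comm (Nat.card _), e2, mul_comm,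
      ← Nat.descFactorial_eq_factorial_mul_choose, Nat.descFactorial_succ, Nat.descFactorial_succ,
      ← mul_assoc, mul_comm, hn']
    congr 2 <;> omega
  have e3 : ∀ s : Finset α, s.card = i + 1 → (IndG G s).index ≠ 1 := fun s hs e =>
    hnt (h1.mt hs (index_eq_one.1 e))
  obtain ⟨s, hs⟩ := ex (i + 1) (by omega)
  have hodd : 2 ≤ i → ¬ 2 ∣ m := fun h h' => e3 s hs (index_eq_one.2 (caseB h PiN.bot
    (fun Q _ _ h => by
      obtain ⟨t, h1, h2⟩ := Set.exists_subset_card_eq h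
      lift t to Finset α using Set.toFinite _
      exact le_bot_iff.1 ((le_fix_iff.2 h1).trans (hb t (by simpa using h2)).le))
    (fun t ht' e => e.sne_bot Nat.prime_two (card_fix_eq ht hΓ ht' ▸ h') rfl) hs
    (le_fix_iff.1 bot_le)))
  by_cases h4 : 4 ≤ i
  · obtain ⟨k, rfl⟩ := Nat.exists_eq_add_of_le' h4
    have hK : HK (k + 4) G α := ⟨ht, fun t s hs htt e => by_contra fun h => hodd (by omega) (by
      rw [show m = _ from card_fix_eq ht hΓ hs, ← orderOf_eq_prime (p := 2) ((sq t).trans htt) h]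
      exact orderOf_dvd_card' (H17.mem_fix_iff.2 e))⟩
    rcases HK.hall k hK (by omega) with h | ⟨h | h, h'⟩ | ⟨h, h'⟩
    · omega
    · exact Or.inl ⟨by omega, eq_alt_of_card h'⟩
    · obtain rfl := eq_alt_of_card h'
      exact absurd (H17.mt_of_le (alternatingGroup.isMultiplyPretransitive α) (by omega)
        (by omega)) hnt
    · obtain ⟨t, h5, h6⟩ := exists_alt ht h4 (by omega)
      have h7 := index_dvd_of_le h6
      have : Nontrivial t := Fintype.one_lt_card_iff_nontrivial.1 (by simp [h5])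
      rw [alternatingGroup.index_eq_two] at h7
      have h8 := e1 t h5
      rw [h', h] at e0
      rw [h] at hd
      rw [(Nat.mul_eq_left hd.ne').1 e0.symm] at h8
      have := Nat.le_of_dvd two_pos h7
      omega
  have e4 := e1 s hs
  have e5 := e3 s hs
  have e6 : (IndG G s).index ∣ (i + 1).factorial := by
    simpa [Fintype.card_perm, hs] using (IndG G s).index_dvd_card
  have e7 : (IndG G Δ).index ∣ (i + 2).factorial := by
    simpa [Fintype.card_perm, hΔ] using (IndG G Δ).index_dvd_card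
  have hm : 0 < m := Nat.card_pos
  rw [← e4, mul_left_comm] at e2
  rw [Nat.eq_of_mul_eq_mul_left hm e2] at e7
  generalize (IndG G s).index = r at *
  have h5 := Nat.le_of_dvd (Nat.factorial_pos _) e6
  have h6 : n < _ := Nat.le_of_dvd (Nat.factorial_pos _) ((dvd_mul_right _ _).trans e7)
  have h7 : m = (n + 2) / r := by
    rw [← e4, Nat.mul_div_cancel _ (Nat.pos_of_ne_zero (by rintro rfl; simp at e4))]
  have h8 : r ∣ n + 2 := ⟨m, by rw [← e4, mul_comm]⟩
  have alt := eq_alt_of_card (G := G)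
  have tr := is_one_pretransitive_iff.1 (H17.mt_of_le ht hi (by omega))
  rw [h7] at e0 hodd
  clear e1 e2 e3 e4 hb' h7 hm ex hd
  rw [hn'] at e0 alt ⊢
  obtain rfl | rfl | rfl : i = 1 ∨ i = 2 ∨ i = 3 := by omega
  · have : n = 0 ∧ r = 2 ∨ n = 2 ∧ r = 2 := by
      revert e5 e6 e7 h8; simp only [Nat.factorial] at h5 h6
      interval_cases r <;> interval_cases n <;> decide
    rcases this with ⟨rfl, rfl⟩ | ⟨rfl, rfl⟩
    · exact Or.inl ⟨rfl, alt (by rw [e0]; rfl)⟩
    · exact absurd ((Cfsg.Agent.S0735.result G (hom_iff.2 h1) (by omega)).1 (by rw [e0]; decide)) hnt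
  · have : n = 0 ∧ r = 2 ∨ n = 1 ∧ r = 3 ∨ n = 7 ∧ r = 3 := by
      replace hodd := hodd le_rfl
      revert e5 e6 e7 h8 hodd; simp only [Nat.factorial] at h5 h6
      interval_cases r <;> interval_cases n <;> decide
    rcases this with ⟨rfl, rfl⟩ | ⟨rfl, rfl⟩ | ⟨rfl, rfl⟩
    · exact Or.inl ⟨rfl, alt (by rw [e0]; rfl)⟩
    · exact Or.inr (Or.inl ⟨rfl, rfl, e0⟩)
    · obtain ⟨d, c, h1, h2, h3⟩ := pd_sylow (G := G) (p := 11) (by norm_num) hn'
      have := Nat.le_of_dvd (by norm_num) h1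
      rw [e0] at h3
      simp only [Nat.descFactorial] at h3
      interval_cases d <;> omega
  · have : n = 0 ∧ r = 2 ∨ n = 1 ∧ r = 3 ∨ n = 2 ∧ r = 4 ∨ n = 4 ∧ r = 2 ∨ n = 4 ∧ r = 6 ∨
        n = 7 ∧ r = 3 ∨ n = 19 ∧ r = 3 := by
      replace hodd := hodd (by omega)
      have : ∀ r ≤ 24, ∀ n < 120, (r ≠ 1 ∧ r ∣ 24 ∧ (n + 1) * r ∣ 120 ∧ r ∣ n + 2 ∧
          ¬ 2 ∣ (n + 2) / r) → (n, r) ∈ [(0, 2), (1, 3), (2, 4), (4, 2), (4, 6), (7, 3), (19, 3)] := by
        set_option synthInstance.maxSize 1000 in decide +kernel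
      simpa using this r h5 n h6 ⟨e5, e6, e7, h8, hodd⟩
    have t2 := H17.mt_of_le (m := 2) ht (by omega) (by omega)
    rcases this with ⟨rfl, rfl⟩ | ⟨rfl, rfl⟩ | ⟨rfl, rfl⟩ | ⟨rfl, rfl⟩ | ⟨rfl, rfl⟩ | ⟨rfl, rfl⟩ |
      ⟨rfl, rfl⟩
    · exact Or.inl ⟨rfl, alt (by rw [e0]; rfl)⟩
    · exact Or.inr (Or.inr (Or.inl ⟨rfl, rfl, e0⟩))
    · exfalso
      obtain ⟨a⟩ := (Nat.card_pos_iff.1 (show 0 < Nat.card α by omega)).1
      have h9 := Sh.stab (k := 2) ⟨ht, H17.sharp_of_finset fun t e g hg => by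
        have := index_fix ht (s := t) (by simp [e])
        rw [e0, hn'] at this
        exact (eq_bot_iff_forall _).1 (card_eq_one.1 (by simpa using this.symm)) g
          (H17.mem_fix_iff.2 hg)⟩ (by omega) a
      have h10 := SubMulAction.nat_card_ofStabilizer_add_one_eq G a
      have : Nontrivial (SubMulAction.ofStabilizer G a) :=
        Finite.one_lt_card_iff_nontrivial.1 (by omega)
      obtain ⟨K, _, k1, k2, -⟩ := H17.sharp_two_kernel h9.mt (H17.sharp_two_iff.1 h9.sh)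
      obtain ⟨p, j, hp, -, h, -⟩ := H17.regular_normal_elem_ab h9.mt K k1 k2
      have h11 : p ^ j = 6 := by omega
      have := (Nat.prime_dvd_prime_iff_eq Nat.prime_two hp).1
        (Nat.prime_two.dvd_of_dvd_pow (h11 ▸ by norm_num : 2 ∣ p ^ j))
      have := (Nat.prime_dvd_prime_iff_eq Nat.prime_three hp).1
        (Nat.prime_three.dvd_of_dvd_pow (h11 ▸ by norm_num : 3 ∣ p ^ j))
      omega
    · exact Or.inr (Or.inr (Or.inr ⟨rfl, rfl, Or.inr e0⟩))
    · exact Or.inr (Or.inr (Or.inr ⟨rfl, rfl, Or.inl e0⟩))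
    · obtain ⟨d, c, h1, h2, h3⟩ := pd_sylow_stab t2 (p := 11) (by norm_num) hn'
      have := Nat.le_of_dvd (by norm_num) h1
      rw [e0] at h3
      simp only [Nat.descFactorial] at h3
      interval_cases d <;> omega
    · obtain ⟨d, c, h1, h2, h3⟩ := pd_sylow_stab t2 (p := 23) (by norm_num) hn'
      have := Nat.le_of_dvd (by norm_num) h1
      rw [e0] at h3
      simp only [Nat.descFactorial] at h3
      interval_cases d <;> omega

theorem lw1 {k : ℕ} (hk : 2 * (k + 2) ≤ Nat.card α) (h : Hom G α (k + 2)) :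
    IsMultiplyPretransitive G α (k + 1) := by
  have hc := Nat.card_eq_fintype_card (α := α)
  induction k with
  | zero =>
    exact is_one_pretransitive_iff.2 ⟨fun a b => by
      simpa using h.of_le (j := 1) (by omega) le_rfl (by omega) {a} {b} rfl rfl⟩
  | succ k ih =>
    have h1 := h.of_le (j := k + 2) (by omega) (by omega) (by omega)
    by_contra h2
    have := lw (by omega) (by omega) (ih (by omega) h1) h2 h1 h
    omega

end H24
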