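import Cfsg.Agent.H7.ME0

/-! Maximal subgroups of `E₇(2)`: the steps `LP` and `FIN`. -/

set_option autoImplicit false

namespace H24.ME

open H18.E7 (G M cardG)
open Subgroup H7.ME

/-- a fixed point free element of prime order -/
theorem fpf {Γ : Type*} [Group Γ] [Finite Γ] {R : Subgroup Γ} {a : Γ} {r : ℕ} [Fact r.Prime] (o : orderOf a = r)
    (n : a ∈ normalizer (R : Set Γ)) (h : ∀ y ∈ R, Commute y a → y = 1) : Nat.card R ≡ 1 [MOD r] := by
  have l : zpowers a ≤ normalizer (R : Set Γ) := zpowers_le.2 n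
  letI : MulAction (zpowers a) R := MulAction.compHom R ((normalizerMonoidHom R).comp (inclusion l))
  have hp : IsPGroup r (zpowers a) := IsPGroup.of_card (n := 1) (by rw [Nat.card_zpowers, o, pow_one])
  refine (hp.card_modEq_card_fixedPoints R).trans (Eq.symm (congrArg (· % r) (Eq.symm (Nat.card_eq_one_iff_exists.2
    ⟨⟨1, fun g => map_one ((normalizerMonoidHom R).comp (inclusion l) g)⟩, fun y => Subtype.ext (Subtype.ext (h _ y.1.2 ?_))⟩))))
  have : a * y.1 * a⁻¹ = y.1 := congrArg Subtype.val (y.2 ⟨a, mem_zpowers a⟩)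
  exact (mul_inv_eq_iff_eq_mul.1 this).symm

theorem ocj (g a : G) : orderOf (g⁻¹ * a * g) = orderOf a := by
  simpa using (MulAut.conj g⁻¹).orderOf_eq a

theorem arith {p k : ℕ} (hp : p.Prime) (h2 : p ≠ 2) (h7 : p ≠ 127) (d : p ^ k ∣ NG) (m : p ^ k ≡ 1 [MOD 127]) : k = 0 := by
  by_contra k0
  have d1 : p ∣ ([2, 3, 5, 7, 11, 13, 17, 19, 31, 43, 73, 127].prod) ^ 63 := ((dvd_pow_self p k0).trans d).trans (by decide)
  obtain ⟨r, hr, d2⟩ := (Prime.dvd_prod_iff hp.prime).1 (hp.dvd_of_dvd_pow d1)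
  obtain rfl := (Nat.prime_dvd_prime_iff_eq hp (by fin_cases hr <;> norm_num)).1 d2
  have l : k < 12 := by
    by_contra! l
    have d2 := (pow_dvd_pow p l).trans d
    fin_cases hr <;> first | exact h2 rfl | exact absurd d2 (by decide)
  fin_cases hr <;> first | exact h2 rfl | exact h7 rfl | (interval_cases k <;> revert k0 d m <;> decide)

theorem lp (v : Fv) (bt : BT) (p43 : P43) : LP := fun a b p R oa ob hp hR na nb => by
  have : Fact p.Prime := ⟨hp⟩
  have : Fact (Nat.Prime 43) := ⟨by norm_num⟩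
  have : Fact (Nat.Prime 127) := ⟨by norm_num⟩
  by_contra n
  obtain ⟨k, hk⟩ := IsPGroup.iff_card.1 hR
  have d : p ^ k ∣ NG := hk ▸ (card_subgroup_dvd_card R).trans cardG.dvd
  have k0 : k ≠ 0 := fun e => n (by rwa [e, pow_zero, card_eq_one] at hk)
  by_cases h2 : p = 2
  · subst h2
    obtain ⟨g, i, h⟩ := bt R hR n
    exact (p43 _ ((ocj g a).trans oa)).1 i (h a na)
  by_cases h7 : p = 127
  · subst h7
    obtain rfl : k = 1 := by
      by_contra c
      exact absurd ((pow_dvd_pow 127 (show 2 ≤ k by omega)).trans d) (by decide)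
    refine absurd (hk ▸ fpf oa na fun y hy c => by_contra fun y1 => ?_) (by decide)
    have o : orderOf y = 127 := ((Nat.dvd_prime hp).1 (pow_one 127 ▸ hk ▸ orderOf_dvd_natCard R hy)).resolve_left
      (mt orderOf_eq_one_iff.1 y1)
    exact absurd (oa ▸ orderOf_dvd_of_pow_eq_one (v.b127 y o a c.symm)) (by decide)
  refine k0 (arith hp h2 h7 d (hk ▸ fpf ob nb fun y hy c => orderOf_eq_one_iff.1 (Nat.eq_one_of_dvd_coprimes
    (((Nat.coprime_primes hp (by norm_num)).2 h7).pow_left k) (hk ▸ orderOf_dvd_natCard R hy)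
    (orderOf_dvd_of_pow_eq_one (v.b127 b ob y c)))))

theorem cj_iff {H H' : Subgroup G} {g : G} (e : H'.map (MulAut.conj g).toMonoidHom = H) (y : G) : y ∈ H' ↔ g * y * g⁻¹ ∈ H :=
  e ▸ (mem_map_iff_mem (f := (MulAut.conj g).toMonoidHom) (MulAut.conj g).injective).symm
theorem cj_sy {H H' : Subgroup G} {g : G} (e : H'.map (MulAut.conj g).toMonoidHom = H) :
    H.map (MulAut.conj g⁻¹).toMonoidHom = H' := by
  ext y
  rw [cj_iff e]
  exact ⟨fun ⟨x, m, k⟩ => by simpa [← k, mul_assoc] using m, fun m => ⟨_, m, by simp [mul_assoc]⟩⟩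

theorem fin (pa : PA) (p43 : P43) (ph : PH) (cb : CB) (l1 : L1) (l2 : L2) (l3 : L3) (da : DA) (dl : DL) : Res := by
  obtain ⟨A, N, a1, a2, a3, a4, a5, a6⟩ := da
  obtain ⟨B, b1, a, ha, b, hb, oa, ob⟩ := dl
  choose W w1 w2 using fun i => (eq_top_or_exists_le_coatom (A i)).resolve_left (a1 i)
  obtain ⟨L, c1, c2⟩ := (eq_top_or_exists_le_coatom B).resolve_left b1
  have gd := fun i => a2 i _ (w2 i) (w1 i).1
  have m : ∀ {H : Subgroup G} {g : G}, H.map (MulAut.conj g).toMonoidHom = L → ∀ x ∈ B, g⁻¹ * x * g ∈ H := fun e x hx =>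
    (cj_iff e _).2 (by simpa [mul_assoc] using c2 hx)
  have k1 : ∀ i j g, (Pm i).map (MulAut.conj g).toMonoidHom ≠ W j := fun i j g e =>
    ph _ _ (gd j) (a3 j) g fun q hq => (cj_iff e q).1 (pa.2.2 i hq)
  have k2 : ∀ i g, (Pm i).map (MulAut.conj g).toMonoidHom ≠ L := fun i g e => (p43 _ ((ocj g a).trans oa)).1 i (m e a ha)
  have k3 : ∀ i g, (W i).map (MulAut.conj g).toMonoidHom ≠ L := fun i g e => by
    have : Fact (Nat.Prime 43) := ⟨by norm_num⟩
    obtain ⟨K, k⟩ := l1 _ _ _ _ (gd i) (m e a ha) (m e b hb) ((ocj g a).trans oa) ((ocj g b).trans ob)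
    have x := l3 _ _ _ _ _ (gd i) k ((ocj g a).trans oa) ((ocj g b).trans ob)
    obtain c | c := a6 i
    · exact let ⟨e, h1, h2, h3⟩ := x; h3 (c e h1 h2)
    obtain ⟨t, ht⟩ := exists_prime_orderOf_dvd_card' 43 k.d43
    exact c t (l2 _ _ _ _ _ (gd i) k x t.2) (by rw [orderOf_coe, ht])
  let H : Fin 7 ⊕ Fin 11 ⊕ Unit → Subgroup G := Sum.elim Pm (Sum.elim W fun _ => L)
  let e : Fin 19 ≃ Fin 7 ⊕ Fin 11 ⊕ Unit := (Fintype.equivFinOfCardEq (by simp)).symm
  refine ⟨H ∘ e, fun i => ?_, fun i j ⟨g, k⟩ => e.injective ?_⟩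
  · simp only [Function.comp]
    rcases e i with i | i | i
    exacts [pa.1 i, w1 i, c1]
  simp only [Function.comp] at k
  generalize e i = i at k
  generalize e j = j at k
  rcases i with i | i | i <;> rcases j with j | j | j
  · rw [pa.2.1 i j g k]
  · exact (k1 i j g k).elim
  · exact (k2 i g k).elim
  · exact (k1 j i _ (cj_sy k)).elim
  · by_contra n
    have n : j ≠ i := fun e => n (by rw [e])
    exact (cb _ _ _ _ _ _ g (gd j) (gd i) (cj_iff k) (w2 j) (w2 i)).elim (fun ⟨p, c, h⟩ => a4 j i n p c h) (a5 j i n g)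
  · exact (k3 i g k).elim
  · exact (k2 j _ (cj_sy k)).elim
  · exact (k3 j _ (cj_sy k)).elim
  · rfl

end H24.ME
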