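import Cfsg.Agent.H7.ME1

/-! S5934, chunk `CT`: invariants of subgroups of `Q` under the centralizer of `z`. -/

set_option autoImplicit false
set_option maxRecDepth 100000

namespace H24.ME

open H7.ME Matrix Subgroup
open H18.E7 (G M xr)

theorem zz : z * z = 1 := X_sq 125

theorem pu_z (q : G) : Pu (z * q) ↔ Pu q := by rw [Pu, Pu, ← mul_assoc z, zz, one_mul, or_comm]

theorem tst {Y : ℕ} {q : G} (h : toM 56 56 Y = M q * (M x0 - 1)) :
    Nat.beq (Nat.land (Nat.xor (ap 0 Y) Y) (msk 56 56)) 0 = true ↔ (M x0 - 1) * M q * (M x0 - 1) = 0 := by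
  refine (eqm_iff (n := 56) (m := 56)).trans ?_
  rw [toM_ap, h, mul_assoc, sub_mul, one_mul, sub_eq_zero]; rfl

theorem put_iff {Y : ℕ} {q : G} (h : toM 56 56 Y = M q * (M x0 - 1)) : put (msk 56 56) Y = true ↔ Pu q := by
  rw [put, frc_eq, Bool.or_eq_true, tst h, tst (q := z * q) (by rw [toM_ap, h, map_mul, mul_assoc]; rfl)]; rfl

theorem Y0 : toM 56 56 (Nat.xor (wm [0]) Id) = M x0 - 1 := by
  rw [toM_xor, toM_Id, ← M_wd, wd_one, sub_eq_add_neg]
  exact congrArg _ (by ext i j; exact (ZMod.neg_eq_self_mod_two _).symm)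

theorem pu_X : ∀ r < 126, 1 ≤ dg r → Pu (X r) := fun r hr h => by
  have a : ∀ r < 126, 1 ≤ dg r → 93 ≤ r := by decide +kernel
  have b : (List.range 33).all (fun i => put (msk 56 56) (ap (93 + i) (Nat.xor (wm [0]) Id))) = true := by decide +kernel
  have := List.all_eq_true.1 b (r - 93) (List.mem_range.2 (by omega))
  rw [show 93 + (r - 93) = r by have := a r hr h; omega] at this
  exact (put_iff (by rw [toM_ap, Y0])).1 this

theorem ring_cj {G R : Type*} [Group G] [Ring R] (M : G →* R) {l x : G} (h : Commute l x) (q : G) :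
    (M x - 1) * M (l * q * l⁻¹) * (M x - 1) = 0 ↔ (M x - 1) * M q * (M x - 1) = 0 := by
  have c : ∀ l, Commute l x → Commute (M l) (M x - 1) := fun l h => (h.map M).sub_right (Commute.one_right _)
  rw [map_mul, map_mul, ← mul_assoc, ← mul_assoc, ← (c l h).eq, mul_assoc _ (M l⁻¹), (c _ h.inv_left).eq, ← mul_assoc,
    ((Group.isUnit l⁻¹).map M).mul_left_eq_zero, mul_assoc, mul_assoc, ((Group.isUnit l).map M).mul_right_eq_zero, mul_assoc]

theorem zN (W : List ℕ) : z ∈ Nn W := by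
  have := wd_mem (L := gN W) (l := [125]) (by simp [gN]); rwa [wd_one] at this

theorem pu_cj (f : Fs) {p q : G} (hp : Commute p z) (hq : q ∈ Q) : Pu (p * q * p⁻¹) ↔ Pu q := by
  obtain ⟨a, ha, l, hl, rfl⟩ := f.dec p hp
  obtain ⟨l1, l2⟩ := f.L0z l hl
  have k : ∀ q : G, (M x0 - 1) * M (l * q * l⁻¹) * (M x0 - 1) = 0 ↔ (M x0 - 1) * M q * (M x0 - 1) = 0 := ring_cj M l2
  have k' : Pu (l * q * l⁻¹) ↔ Pu q := by
    rw [Pu, Pu, k, show z * (l * q * l⁻¹) = l * (z * q) * l⁻¹ by simp only [← mul_assoc, l1.eq], k]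
  have m := f.nQ l l1 q hq
  rw [show a * l * q * (a * l)⁻¹ = a * (l * q * l⁻¹) * a⁻¹ by group]
  rcases f.cQ a ha _ m with e | e <;> rw [e]
  · exact k'
  · rw [(f.Qz _ m).eq, pu_z, k']

/-- the columns of a list -/
abbrev A (W : List ℕ) := toM 32 W.length (pk W)

theorem A_cons (w : ℕ) (W : List ℕ) (a : F) (c : Fin W.length → F) :
    A (w :: W) *ᵥ (Fin.cons a c : Fin (W.length + 1) → F) = a • bv 32 w + A W *ᵥ c := funext fun i => by
  change ∑ j : Fin (W.length + 1), A (w :: W) i j * (Fin.cons a c : Fin (W.length + 1) → F) j = a * _ + ∑ j, A W i j * c j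
  rw [Fin.sum_univ_succ, mul_comm a]
  simp only [toM_pk 32 (by decide)]; rfl

theorem two (v : Fin 32 → F) : v + v = 0 := funext fun i => CharTwo.add_self_eq_zero _

theorem cnt_aux (f : Fs) (L : Lam) (W : List ℕ) : (∀ c, A W *ᵥ c = 0 → c = 0) → ∀ q ∈ Q, ∀ Y, toM 56 56 Y = M q * (M x0 - 1) →
    {x | (x ∈ Q ∧ ∃ c, lam x + lam q = A W *ᵥ c) ∧ Pu x}.ncard = 2 * cntL (msk 56 56) (W.map fun w => wm (uw w)) Y := by
  haveI := H18.E7.finG
  induction W with
  | nil =>
    intro _ q hq Y hY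
    have l1 : lam 1 = 0 := by simpa using L.mul 1 (one_mem _) 1 (one_mem _)
    have lz : lam z = 0 := by simpa using ((L.mem [] (by simp) z).1 (zN _)).2
    have e : ∀ x, (x ∈ Q ∧ ∃ c, lam x + lam q = A [] *ᵥ c) ↔ x = q ∨ x = z * q := fun x => by
      refine ⟨fun ⟨h, c, e⟩ => ?_, ?_⟩
      · have i := L.mul q hq _ (inv_mem hq)
        rw [mul_inv_cancel, l1, eq_comm, add_eq_zero_iff_eq_neg, neg_eq_of_add_eq_zero_right (two _)] at i
        simpa [mul_inv_eq_one, mul_inv_eq_iff_eq_mul] using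
          L.ker _ (mul_mem h (inv_mem hq)) (by rw [L.mul _ h _ (inv_mem hq), ← i, e]; simp)
      · rintro (rfl | rfl)
        · exact ⟨hq, 0, by simp [two]⟩
        · exact ⟨mul_mem f.zQ hq, 0, by simp [two, L.mul _ f.zQ _ hq, lz]⟩
    simp only [e]
    change _ = 2 * cond (put _ Y) 1 0
    cases h : put (msk 56 56) Y
    · have : ¬ Pu q := fun k => by simp [(put_iff hY).2 k] at h
      rw [Set.eq_empty_of_forall_notMem (s := {x | _}) (by rintro x ⟨rfl | rfl, k⟩; exacts [this k, this ((pu_z _).1 k)])]; simp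
    · have := (put_iff hY).1 h
      rw [show {x | (x = q ∨ x = z * q) ∧ Pu x} = {q, z * q} from Set.ext fun x =>
        and_iff_left_of_imp (by rintro (rfl | rfl); exacts [this, (pu_z _).2 this])]
      exact Set.ncard_pair fun e => f.ne1 125 (by decide) (right_eq_mul.1 e)
  | cons w W ih =>
    intro h q hq Y hY
    have ih := ih fun c e => funext fun j => congrFun (h (Fin.cons 0 c) (by rw [A_cons, e]; simp)) j.succ
    change _ = 2 * frc Y fun Y => Nat.add (cntL _ _ Y) (cntL _ _ (mul 56 (wm (uw w)) Y))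
    rw [frc_eq, Nat.add_eq, mul_add, ← ih q hq Y hY, ← ih _ (mul_mem (L.uQ w) hq) _ (by
      rw [toM_mul, hY, ← M_wd, map_mul, mul_assoc]), L.mul _ (L.uQ w) _ hq, L.u, ← Set.ncard_union_eq]
    · congr 1; ext x
      simp only [Set.mem_setOf_eq, Set.mem_union, ← or_and_right, ← and_or_left]
      refine and_congr_left' (and_congr_right' ⟨fun ⟨c, e⟩ => ?_, ?_⟩)
      · rw [← Fin.cons_self_tail c, A_cons] at e
        rcases (by decide : ∀ a : F, a = 0 ∨ a = 1) (c (0 : Fin (W.length + 1))) with k | k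
        · exact .inl ⟨_, by rw [e, k, zero_smul, zero_add]⟩
        · exact .inr ⟨_, by rw [add_left_comm, e, k, one_smul, ← add_assoc, two, zero_add]⟩
      · rintro (⟨c, e⟩ | ⟨c, e⟩)
        · exact ⟨Fin.cons 0 c, by rw [A_cons, e]; simp⟩
        · exact ⟨Fin.cons 1 c, by rw [A_cons, ← e, one_smul, add_left_comm (lam x), ← add_assoc, two, zero_add]⟩
    · refine Set.disjoint_left.2 fun x ⟨⟨_, c, e⟩, _⟩ ⟨⟨_, c', e'⟩, _⟩ => ?_
      refine one_ne_zero (congrFun (h (Fin.cons 1 (c + c')) ?_) (0 : Fin (W.length + 1)))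
      rw [A_cons, mulVec_add, ← e, ← e', add_left_comm (lam x), add_left_comm (lam x + lam q), two, add_zero, one_smul, two]

theorem trc_eq {n m X Y : ℕ} (h : trc n m X Y = true) : toM m n Y = (toM n m X)ᵀ := by
  ext j i
  simp only [trc, List.all_eq_true, List.mem_range, Nat.beq_eq] at h
  have := h i i.2 j j.2
  have k : ∀ X a, Nat.land (Nat.shiftRight X a) 1 = (X.testBit a).toNat := fun X a => by
    rw [Nat.toNat_testBit, ← Nat.shiftRight_eq_div_pow, ← Nat.and_one_is_mod]; rfl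
  rw [k, k] at this
  simp only [toM, of_apply, transpose_apply, bt]
  rw [show Y.testBit (64 * i + j) = X.testBit (64 * j + i) by revert this; cases Y.testBit _ <;> cases X.testBit _ <;> simp]

theorem ndc_eq {W : List ℕ} {T Gi : ℕ} (h : ndc W T Gi = true) : W.length ≤ 31 ∧ toM W.length 32 T = (A W)ᵀ ∧
    toM W.length 32 (Li W.length T Gi) * A W = 1 := by
  simp only [ndc, Bool.and_eq_true, Nat.ble_eq] at h
  obtain ⟨⟨a, b⟩, c⟩ := h
  have d : W.length ≤ 64 := by omega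
  rw [eqm_iff d d, toM_mul _ _ _ d d, toM_Id d] at c
  exact ⟨a, trc_eq b, c⟩

theorem split_vec {n k k' : ℕ} {B : Matrix (Fin n) (Fin k) F} {B' : Matrix (Fin n) (Fin k') F} {C : Matrix (Fin k) (Fin k) F}
    {J : Matrix (Fin n) (Fin n) F} {C' : Matrix (Fin k') (Fin n) F} {v : Fin n → F} (e : B * (C * (Bᵀ * J)) + B' * C' = 1)
    (h : Bᵀ *ᵥ (J *ᵥ v) = 0) : v = B' *ᵥ (C' *ᵥ v) := by
  conv_lhs => rw [← one_mulVec v, ← e, add_mulVec, ← mulVec_mulVec, ← mulVec_mulVec, ← mulVec_mulVec, h,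
    mulVec_zero, mulVec_zero, zero_add, ← mulVec_mulVec]

theorem cm_zero {a b : G} : cm a b = 0 ↔ Commute a b := by rw [cm]; split_ifs with h <;> simp [h]

theorem ct (f : Fs) (L : Lam) : CT where
  cnt W T Gi h := by
    obtain ⟨a, -, c⟩ := ndc_eq h
    have l1 : lam 1 = 0 := by simpa using L.mul 1 (one_mem _) 1 (one_mem _)
    rw [cnt, frc_eq, frcL_eq, ← cnt_aux f L W (fun v e => by rw [← one_mulVec v, ← c, ← mulVec_mulVec, e, mulVec_zero])
      1 (one_mem _) _ (by rw [Y0, map_one, one_mul]), ← Nat.card_coe_set_eq]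
    simp only [np, L.mem W (by omega), l1, add_zero]; rfl
  inv N N' p h hp e := ⟨(Nat.card_congr ((MulAut.conj p).toEquiv.subtypeEquiv e)).symm,
    (Nat.card_congr ((MulAut.conj p).toEquiv.subtypeEquiv fun q =>
      ⟨fun k => ⟨(e q).1 k.1, (pu_cj f hp (h k.1)).2 k.2⟩, fun k => ⟨(e q).2 k.1, (pu_cj f hp (h ((e q).2 k.1))).1 k.2⟩⟩)).symm⟩
  deg N h hz hn e he eN := by
    haveI := H18.E7.finG
    obtain ⟨p, hp, r, hr, rfl⟩ := f.pair e he
    have m : X r ∈ Q := by simpa [mul_assoc] using f.nQ _ hp.inv_left _ (h eN)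
    have pz := pu_X 125 (by decide) ((f.inQ _ (by decide)).1 f.zQ)
    by_contra ne
    have := Set.ncard_le_ncard (s := {1, z, p * X r * p⁻¹}) (t := {q | q ∈ N ∧ Pu q}) (by
      rintro _ (rfl | rfl | rfl)
      exacts [⟨one_mem _, zz ▸ (pu_z _).2 pz⟩, ⟨hz, pz⟩, ⟨eN, (pu_cj f hp m).2 (pu_X r hr ((f.inQ r hr).1 m))⟩])
    rw [Set.ncard_eq_three.2 ⟨_, z, _, (f.ne1 125 (by decide)).symm, fun k => f.ne1 r hr (by simpa using k.symm),
      Ne.symm ne, rfl⟩, ← Nat.card_coe_set_eq] at this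
    exact absurd (this.trans hn) (by decide)
  perp W T Gi W' T' Gi' h h' e e' q := by
    obtain ⟨a, b, -⟩ := ndc_eq h
    obtain ⟨a', -, -⟩ := ndc_eq h'
    have d : W.length ≤ 64 := by omega
    have d' : W'.length ≤ 64 := by omega
    rw [eqm_iff d d', toM_mul _ _ _ d d', toM_mul _ _ _ d, b, toM_zero] at e
    rw [eqm_iff, toM_xor, toM_mul, toM_mul, toM_Id, Li, toM_mul _ _ _ d, toM_mul _ _ _ d, b] at e'
    rw [L.mem W' d']
    refine and_congr_right fun hq => ⟨fun ⟨c, k⟩ n hn => ?_, fun k => ⟨toM W'.length 32 (Li W'.length T' Gi') *ᵥ lam q, ?_⟩⟩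
    · obtain ⟨n1, c', k'⟩ := (L.mem W d n).1 hn
      rw [← cm_zero, L.form q hq n n1, k, k', dotProduct_comm, dotProduct_mulVec, ← mulVec_transpose, mulVec_mulVec,
        mulVec_mulVec, e, zero_mulVec, zero_dotProduct]
    · refine split_vec e' (funext fun j => ?_)
      have := L.form q hq _ (L.uQ W[j])
      rw [cm_zero.2 (k _ (wd_mem (List.mem_cons_of_mem _ (List.mem_map_of_mem (a := W[j]) (List.getElem_mem j.2))))), L.u] at this
      rw [show bv 32 W[j] = (A W)ᵀ j from funext fun i => (toM_pk 32 (by decide) W i j).symm] at this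
      generalize toM 32 32 Jm *ᵥ lam q = v at this ⊢
      exact this.symm

end H24.ME
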