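import Cfsg.Agent.H24.Miller

/-! Elements of small support in primitive groups. -/

set_option autoImplicit false

namespace H24
open MulAction Subgroup Equiv Equiv.Perm Pointwise

variable {α : Type*} [Fintype α] [DecidableEq α] {G : Subgroup (Perm α)}

theorem alt_le_of_inter (hprim : IsPreprimitive G α) {g h : Perm α} (g1 : g ∈ G) (k1 : h ∈ G)
    {a : α} (ha : g a ≠ a) (h7 : h a ≠ a) (h6 : ∀ x, g x ≠ x → h x ≠ x → x = a) :
    alternatingGroup α ≤ G := by
  have h8 : g (h a) = h a := by_contra fun e => h7 (h6 _ e (h.injective.ne h7))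
  refine H17.alt_le_of_support_le_three hprim (mul_mem (inv_mem (mul_mem k1 g1))
    (mul_mem g1 k1)) (fun e => ?_) (le_trans (Finset.card_le_card fun x hx => ?_)
      (Finset.card_le_three (a := a) (b := g⁻¹ a) (c := h⁻¹ a)))
  · have := congrArg (· a) (inv_mul_eq_one.1 e)
    exact ha (h.injective (this.trans h8))
  by_contra h9
  simp only [Finset.mem_insert, Finset.mem_singleton, not_or, ← Ne.eq_def, Perm.eq_inv_iff_eq] at h9
  refine mem_support.1 hx ((Perm.inv_eq_iff_eq (f := h * g)).2 ?_)
  change g (h x) = h (g x)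
  by_cases e : g x = x
  · by_cases e' : h x = x
    · rw [e, e', e]
    · rw [e, by_contra fun e'' => h9.2.2 (h6 _ e'' (h.injective.ne e'))]
  · rw [by_contra fun e' => h9.1 (h6 x e e'), by_contra fun e' => h9.2.1 (h6 _ (g.injective.ne e) e')]

theorem alt_le_of_two_small (h2 : IsMultiplyPretransitive G α 2) {g : Perm α} (hg : g ∈ G)
    (h1 : g ≠ 1) (hs : (g.support.card - 1) ^ 2 + 1 < Fintype.card α) : alternatingGroup α ≤ G := by
  classical
  obtain ⟨a, ha⟩ := Finset.nonempty_iff_ne_empty.2 (mt support_eq_empty_iff.1 h1)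
  have hc := Nat.card_eq_fintype_card (α := α)
  set S := g.support.erase a
  have e1 := index_fix (H17.mt_of_le (m := 1) h2 (by omega) (by omega)) (s := {a}) (by simp)
  have c : ∀ x ∈ S, ∀ y, (Finset.univ.filter fun u : G => u • a = a ∧ u • x = y).card *
      (Fintype.card α - 1) ≤ Nat.card (fixingSubgroup G ({a} : Set α)) := fun x hx y => by
    have e2 := index_fix h2 (s := {a, x}) (Set.ncard_pair (Finset.ne_of_mem_erase hx).symm)
    rw [e1, Nat.descFactorial_succ _ 1, Nat.descFactorial_one, mul_comm (_ - _), mul_assoc, hc] at e2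
    rw [Nat.eq_of_mul_eq_mul_left (by omega) e2, mul_comm]
    refine Nat.mul_le_mul_left _ ?_
    obtain e | ⟨v, hv⟩ := (Finset.univ.filter fun u : G => u • a = a ∧ u • x = y).eq_empty_or_nonempty
    · simp [e]
    simp only [Finset.mem_filter, Finset.mem_univ, true_and] at hv
    rw [← Nat.card_eq_finsetCard]
    exact Nat.card_le_card_of_injective (fun u => ⟨v⁻¹ * u.1, H17.mem_fix_iff.2 fun z hz => by
      have := (Finset.mem_filter.1 u.2).2
      rcases hz with e | e <;> rw [e, mul_smul, inv_smul_eq_iff]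
      exacts [this.1.trans hv.1.symm, this.2.trans hv.2.symm]⟩)
      fun u w e => Subtype.ext (mul_left_cancel (congrArg Subtype.val e))
  obtain ⟨u, hu, hu'⟩ := Finset.exists_mem_notMem_of_card_lt_card
    (s := (S ×ˢ S).biUnion fun z => Finset.univ.filter fun u : G => u • a = a ∧ u • z.1 = z.2)
    (t := Finset.univ.filter (· ∈ fixingSubgroup G ({a} : Set α))) (by
      rw [← Fintype.card_subtype, ← Nat.card_eq_fintype_card]
      refine Nat.lt_of_mul_lt_mul_right (a := Fintype.card α - 1) ?_
      refine (Nat.mul_le_mul_right _ Finset.card_biUnion_le).trans_lt ?_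
      rw [Finset.sum_mul]
      refine (Finset.sum_le_card_nsmul _ _ _ fun z hz =>
        c _ (Finset.mem_product.1 hz).1 _).trans_lt ?_
      rw [smul_eq_mul, mul_comm, Finset.card_product, Finset.card_erase_of_mem ha, ← sq]
      exact Nat.mul_lt_mul_of_pos_left (by omega) Nat.card_pos)
  have h3 : (u : Perm α) a = a := H17.mem_fix_iff.1 (Finset.mem_filter.1 hu).2 a rfl
  simp only [Finset.mem_biUnion, Finset.mem_product, Finset.mem_filter, Finset.mem_univ, true_and,
    not_exists, not_and, Prod.forall, and_imp] at hu'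
  refine alt_le_of_inter (isPreprimitive_of_is_two_pretransitive h2) hg
    (mul_mem (mul_mem u.2 hg) (inv_mem u.2)) (mem_support.1 ha)
    (mem_support.1 (h3 ▸ (H17.mem_support_conj_iff g u a).2 ha)) fun x e e' => by_contra fun c => ?_
  obtain ⟨y, rfl⟩ := (u : Perm α).surjective x
  exact hu' y _ (Finset.mem_erase.2 ⟨fun e => c (e ▸ h3), (H17.mem_support_conj_iff g u y).1
    (mem_support.2 e')⟩) (Finset.mem_erase.2 ⟨c, mem_support.2 e⟩) h3 rfl

theorem alt_le_of_sq_dvd (hprim : IsPreprimitive G α) {p : ℕ} (hp : p.Prime)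
    (hn : p + 3 ≤ Fintype.card α) (s : Finset α) (h1 : Fintype.card α < s.card + p ^ 2)
    (h2 : Fintype.card α < s.card + 3 * p) (hd : p ^ 2 ∣ Nat.card (fixingSubgroup G (s : Set α))) :
    alternatingGroup α ≤ G := by
  classical
  have := Fact.mk hp
  obtain ⟨Q, hQ⟩ := Sylow.exists_subgroup_card_pow_prime p hd
  let P := Q.map (fixingSubgroup G (s : Set α)).subtype
  have hP : Nat.card P = p ^ 2 := by rw [← hQ, card_map_of_injective (subtype_injective _)]
  have hF := le_fix_iff.1 (map_subtype_le Q)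
  have h3 := hp.one_lt
  obtain ⟨a, ha⟩ : ∃ a : α, a ∉ fixedPoints P α := by
    by_contra e
    push Not at e
    have := card_eq_one.2 ((eq_bot_iff_forall P).2 fun x hx => eq_of_smul_eq_smul (α := α)
      fun a => (e a ⟨x, hx⟩).trans (one_smul G a).symm)
    nlinarith
  have h4 : orbit P a ⊆ (s : Set α)ᶜ := by
    rintro _ ⟨u, rfl⟩ e
    exact ha fun v => (smul_left_cancel_iff u).1 (hF e u) ▸ hF e v
  have h5 : Nat.card (orbit P a) = p := by
    obtain ⟨j, hj, e⟩ := (Nat.dvd_prime_pow hp).1 (hP ▸ Dvd.intro _ (H17.card_orbit_mul (G := P) a))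
    have h6 := Set.ncard_le_ncard h4
    rw [Set.ncard_compl, Set.ncard_coe_finset, ← Nat.card_coe_set_eq, e,
      Nat.card_eq_fintype_card] at h6
    have := s.card_le_univ
    interval_cases j
    · exact absurd (subsingleton_orbit_iff_mem_fixedPoints.1 ((Set.subsingleton_coe _).1
        (Nat.card_eq_one_iff_unique.1 e).1)) ha
    · simpa using e
    · omega
  obtain ⟨χ, -, hχ⟩ := exists_chi (IsPGroup.of_card hP) h5
  have h6 := H17.card_orbit_mul (G := P) a
  rw [h5, hP, sq, mul_right_inj' hp.ne_zero] at h6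
  obtain ⟨u, hu⟩ := exists_prime_orderOf_dvd_card' p h6.symm.dvd
  rw [← orderOf_coe, ← orderOf_coe, ← orderOf_coe] at hu
  have h7 := Set.ncard_le_ncard (s := (((u : P) : G) : Perm α).support)
    (t := (s : Set α)ᶜ \ orbit P a) fun x hx => ⟨fun e => mem_support.1 hx (hF e u), fun e =>
      mem_support.1 hx ((hχ u x e).2 ((hχ u a (mem_orbit_self a)).1 u.2))⟩
  rw [Set.ncard_sdiff h4, Set.ncard_compl, ← Nat.card_coe_set_eq (orbit P a), h5,
    Set.ncard_coe_finset, Set.ncard_coe_finset, Nat.card_eq_fintype_card] at h7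
  obtain ⟨h8, h9⟩ := H17.isCycle_of_orderOf_prime hp hu (by omega)
  exact H17.jordan_prime_cycle G hprim hp hn h8 h9 ((u : P) : G).2

end H24
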