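import Cfsg.Agent.H4.ND0

/-! S4780: reduction of `DA` to the faithful case. -/

set_option autoImplicit false

open Subgroup MulAction H19 H20 H6 Cfsg H3.PT H3.GR H3.ND
open scoped commutatorElement

namespace H24.ND

universe u

theorem da' (daf : H4.ND.DAF.{u}) : DA.{u} := by
  intro G _ _ B hB V _ _ _ _ ab cy ne nz fp _ ir sr st
  set C := (toPermHom G V).ker with hC
  have mC : ∀ {c : G}, c ∈ C ↔ ∀ v : V, c • v = v := Equiv.ext_iff
  obtain ⟨v0, hv0⟩ := exists_ne (0 : V)
  have CZ : ∀ c ∈ C, c ∈ B → c ∈ center G := fun c a b => by_contra fun e => hv0 (sr c b e v0 (mC.1 a v0))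
  have cm : ∀ x, ∀ b ∈ B, x * b * x⁻¹ * b⁻¹ ∈ B := fun x b hb => mul_mem (hB.conj_mem b hb x) (B.inv_mem hb)
  have CB : C ≤ B := fun c a => by_contra fun e => nz fun b hb => fp c e b hb (CZ _ (by
    rw [mul_assoc, mul_assoc, ← mul_assoc b]
    exact mul_mem a (Normal.conj_mem inferInstance _ (C.inv_mem a) b)) (cm c b hb))
  let _ : DistribMulAction (G ⧸ C) V := quoAct C fun w g hg => mC.1 hg w
  have hs : ∀ (g : G) (v : V), QuotientGroup.mk' C g • v = g • v := fun _ _ => rfl
  have sj := QuotientGroup.mk'_surjective C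
  have cs : ∀ v : V, (stabilizer (G ⧸ C) v).comap (QuotientGroup.mk' C) = stabilizer G v :=
    fun v => Subgroup.ext fun g => by rw [mem_comap, mem_stabilizer_iff, mem_stabilizer_iff, hs]
  have ix : ∀ v : V, (stabilizer (G ⧸ C) v).index = (stabilizer G v).index := fun v => by
    rw [← cs, index_comap_of_surjective _ sj]
  have cB : (B.map (QuotientGroup.mk' C)).comap (QuotientGroup.mk' C) = B := by
    rw [comap_map_eq, QuotientGroup.ker_mk', sup_eq_left.2 CB]
  have iB : (B.map (QuotientGroup.mk' C)).index = B.index := by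
    rw [← index_comap_of_surjective _ sj, cB]
  obtain ⟨y, -, hy⟩ := SetLike.not_le_iff_exists.1 (mt top_le_iff.1 ne)
  have zz : ∀ b ∈ B, QuotientGroup.mk' C b ∈ center _ → b ∈ center G := fun b hb e =>
    fp y hy b hb (CZ _ ((QuotientGroup.eq_one_iff _).1 (by
      change QuotientGroup.mk' C _ = 1
      rw [map_mul, map_mul, map_mul, mem_center_iff.1 e, map_inv, map_inv]; group)) (cm y b hb))
  have := hB.map _ sj
  rw [← iB]
  refine daf V inferInstance ?_ (fun e => ne ?_) (fun e => nz fun b hb => zz b hb (e (mem_map_of_mem _ hb)))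
    (fun x hx => ?_) (fun U hU => ir U fun g v hv => hs g v ▸ hU _ v hv) ?_
    fun v a => ⟨?_, by rw [iB, ix]; exact (st v a).2.1, fun w b => by rw [ix, ix]; exact (st v a).2.2 w b⟩
  · obtain ⟨g, e⟩ := cy
    exact ⟨QuotientGroup.mk' C g, by rw [← MonoidHom.map_zpowers, ← Subgroup.map_sup, e, map_top_q]⟩
  · rw [← cB, e, comap_top]
  · obtain ⟨x, rfl⟩ := sj x
    rintro _ ⟨b, hb, rfl⟩ e
    have := fp x (fun q => hx (mem_map_of_mem _ q)) b hb (zz _ (cm x b hb) (by simpa only [map_mul, map_inv] using e))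
    exact mem_center_iff.2 fun g => by
      obtain ⟨g, rfl⟩ := sj g
      rw [← map_mul, ← map_mul, mem_center_iff.1 this]
  · rintro _ ⟨b, hb, rfl⟩ b1 v e
    by_cases z : b ∈ center G
    · refine (ir ((DistribSMul.toAddMonoidHom V b - AddMonoidHom.id V).ker) fun g w hw => ?_).elim
        (fun q => AddSubgroup.mem_bot.1 (q.le (sub_eq_zero.2 e))) fun q => absurd ((QuotientGroup.eq_one_iff _).2
          (mC.2 fun w => sub_eq_zero.1 (q.ge (AddSubgroup.mem_top w)))) b1
      change b • g • w - g • w = 0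
      rw [← mul_smul, ← mem_center_iff.1 z g, mul_smul, show b • w = w from sub_eq_zero.1 hw, sub_self]
    · exact sr b hb z v e
  · have := (st v a).1
    rw [← map_comap_eq_self_of_surjective sj (stabilizer (G ⧸ C) v), cs]
    infer_instance

end H24.ND
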