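import Cfsg.Agent.H24.ClassSize
import Cfsg.Agent.H4.Basic
import Cfsg.Agent.H1.Fitting
import Cfsg.Agent.H2.Super

/-! Groups whose class sizes are not divisible by `p ^ 2`. -/

set_option autoImplicit false

namespace H24
open Subgroup Pointwise Cfsg
open scoped commutatorElement

variable {G : Type*} [Group G] [Finite G] {p : ℕ} [hp : Fact p.Prime]

theorem relIndex_cent_dvd {P : Subgroup G} [P.Normal] (hP : IsPGroup p P) {x : G}
    (h : ¬ p ^ 2 ∣ cs x) : (centralizer ({x} : Set G)).relIndex P ∣ p := by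
  obtain ⟨k, hk⟩ := IsPGroup.iff_card.mp hP
  obtain ⟨j, -, hj⟩ := (Nat.dvd_prime_pow hp.out).mp (hk ▸ relIndex_dvd_card (centralizer {x}) P)
  have h1 := relIndex_dvd_index_of_normal_right (centralizer ({x} : Set G)) P
  rw [hj] at h1 ⊢
  have h2 : j ≤ 1 := by
    by_contra h2
    exact h ((pow_dvd_pow p (by omega)).trans h1)
  simpa using pow_dvd_pow p h2

omit [Finite G] in
theorem le_of_relIndex_dvd_prime {C P K : Subgroup G} (h : C.relIndex P ∣ p) (hK : C ⊓ P ≤ K)
    {a : G} (ha : a ∈ P) (haK : a ∈ K) (haC : a ∉ C) : P ≤ K := by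
  have h1 : C.subgroupOf P ≤ K.subgroupOf P := fun x hx => hK ⟨hx, x.2⟩
  rcases (Nat.dvd_prime hp.out).mp ((index_dvd_of_le h1).trans h) with h2 | h2
  · exact subgroupOf_eq_top.mp (index_eq_one.mp h2)
  · have h3 := relIndex_mul_index h1
    have h4 : C.relIndex P = p := by
      rcases (Nat.dvd_prime hp.out).mp h with h4 | h4
      · exact absurd (subgroupOf_eq_top.mp (index_eq_one.mp h4) ha) haC
      · exact h4
    rw [h2, show (C.subgroupOf P).index = p from h4, mul_eq_right₀ hp.out.ne_zero,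
      relIndex_eq_one] at h3
    exact absurd (h3 (x := ⟨a, ha⟩) haK) haC

theorem card_commutator_dvd_of_not_sq_dvd (P : Sylow p G) [hn : (P : Subgroup G).Normal]
    (hG' : commutator G ≤ P) (hC : centralizer ((P : Subgroup G) : Set G) ≤ P)
    (h : ∀ x : G, ¬ p ^ 2 ∣ cs x) : Nat.card (commutator G) ∣ p := by
  have hM : ∀ x : G, (centralizer ({x} : Set G)).relIndex P ∣ p := fun x =>
    relIndex_cent_dvd P.isPGroup' (h x)
  have hP' : ∀ x : G, ∀ u ∈ (P : Subgroup G), ∀ w ∈ (P : Subgroup G),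
      ⁅u, w⁆ ∈ centralizer ({x} : Set G) := by
    intro x u hu w hw
    rcases (Nat.dvd_prime hp.out).mp (hM x) with h1 | h1
    · exact relIndex_eq_one.mp h1 (hG' (commutator_mem_commutator (mem_top u) (mem_top w)))
    · haveI := H4.normal_of_index_prime P.isPGroup' h1
      exact H4.commutator_le_of_index_prime h1
        (commutator_mem_commutator (mem_top (⟨u, hu⟩ : P)) (mem_top (⟨w, hw⟩ : P)))
  have hDP : ∀ x : G, ∀ u ∈ (P : Subgroup G), u⁻¹ * (x * u * x⁻¹) ∈ (P : Subgroup G) :=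
    fun x u hu => mul_mem (inv_mem hu) (hn.conj_mem u hu x)
  have hD1 : ∀ x u : G, u⁻¹ * (x * u * x⁻¹) = 1 ↔ u ∈ centralizer ({x} : Set G) := fun x u => by
    rw [inv_mul_eq_one, eq_mul_inv_iff_mul_eq, mem_cent]
  have hcM : ∀ x : G, ∀ u ∈ (P : Subgroup G), centralizer ({x} : Set G) ⊓ P ≤
      centralizer {u⁻¹ * (x * u * x⁻¹)} := by
    intro x u hu m hm
    have h1 := mem_cent.mp hm.1
    have h2 := mem_cent.mp (hP' x u hu m hm.2)
    have h3 : x * u * x⁻¹ * m * (x * u * x⁻¹)⁻¹ = u * m * u⁻¹ := by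
      calc _ = x * u * (x⁻¹ * (m * x)) * u⁻¹ * x⁻¹ := by group
        _ = x * ⁅u, m⁆ * (m * x⁻¹) := by rw [h1, commutatorElement_def]; group
        _ = ⁅u, m⁆ * (x * m) * x⁻¹ := by rw [← h2]; group
        _ = _ := by rw [← h1, commutatorElement_def]; group
    rw [mem_cent]
    calc _ = u⁻¹ * (u * m * u⁻¹) * (x * u * x⁻¹) := by group
      _ = _ := by rw [← h3]; group
  have hpow : ∀ x : G, (∀ u ∈ (P : Subgroup G), u⁻¹ * (x * u * x⁻¹) ∈ centralizer ({x} : Set G)) →
      x ∈ (P : Subgroup G) := by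
    intro x hx
    have h1 : ∀ (n : ℕ), ∀ u ∈ (P : Subgroup G),
        x ^ n * u * (x ^ n)⁻¹ = u * (u⁻¹ * (x * u * x⁻¹)) ^ n := by
      intro n u hu
      have h2 := (mem_cent_iff_commute.mp (hx u hu))
      induction n with
      | zero => simp
      | succ n ih =>
        calc _ = x * (x ^ n * u * (x ^ n)⁻¹) * x⁻¹ := by rw [pow_succ']; group
          _ = x * u * ((u⁻¹ * (x * u * x⁻¹)) ^ n * x⁻¹) := by rw [ih]; group
          _ = _ := by
            rw [(h2.pow_left n).inv_right.eq, pow_succ']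
            generalize (u⁻¹ * (x * u * x⁻¹)) ^ n = d
            group
    have h2 : x ^ Nat.card (P : Subgroup G) ∈ (P : Subgroup G) := by
      refine hC (mem_centralizer_iff.mpr fun u hu => ?_)
      have h3 := h1 (Nat.card (P : Subgroup G)) u hu
      rw [orderOf_dvd_iff_pow_eq_one.mp (orderOf_dvd_natCard _ (hDP x u hu)), mul_one,
        mul_inv_eq_iff_eq_mul] at h3
      exact h3.symm
    rw [← QuotientGroup.eq_one_iff, ← orderOf_eq_one_iff]
    refine Nat.eq_one_of_dvd_coprimes P.card_coprime_index ?_ (orderOf_dvd_natCard _)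
    rw [orderOf_dvd_iff_pow_eq_one, ← QuotientGroup.mk_pow, QuotientGroup.eq_one_iff]
    exact h2
  have hz : ∀ x : G, ∀ u ∈ (P : Subgroup G),
      u⁻¹ * (x * u * x⁻¹) ∈ centralizer ((P : Subgroup G) : Set G) := by
    intro x u hu
    rw [mem_centralizer_iff]
    by_cases h1 : ∀ u ∈ (P : Subgroup G), u⁻¹ * (x * u * x⁻¹) ∈ centralizer ({x} : Set G)
    · intro w _
      have h2 := mem_cent.mp (hP' w u⁻¹ (inv_mem hu) x (hpow x h1))
      rw [commutatorElement_def, inv_inv] at h2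
      simpa only [mul_assoc] using h2.symm
    · push Not at h1
      obtain ⟨v, hv, hv'⟩ := h1
      have h2 := le_of_relIndex_dvd_prime (hM x) (hcM x v hv) (hDP x v hv) (self_mem_cent _) hv'
      have h3 := le_of_relIndex_dvd_prime (hM x) (hcM x u hu) (hDP x v hv)
        (mem_cent_comm.mp (h2 (hDP x u hu))) hv'
      exact fun w hw => mem_cent.mp (h3 hw)
  let D : G → (P : Subgroup G) →* G := fun x => MonoidHom.mk' (fun u => (u : G)⁻¹ * (x * u * x⁻¹))
    fun a b => by
      have h1 := mem_centralizer_iff.mp (hz x a a.2) _ (inv_mem b.2)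
      rw [← mul_assoc _ (b : G)⁻¹, ← h1, Subgroup.coe_mul]; group
  have hD : ∀ x (u : (P : Subgroup G)), D x u = (u : G)⁻¹ * (x * u * x⁻¹) := fun _ _ => rfl
  have hcard : ∀ x, Nat.card (D x).range ∣ p := fun x => by
    have h1 : (D x).ker = (centralizer ({x} : Set G)).subgroupOf P := by
      ext u; exact hD1 x u
    rw [← index_ker, h1]; exact hM x
  have hle : ∀ N : Subgroup G, N.Normal → (∀ x u, D x u ∈ N) → commutator G ≤ N := by
    intro N hN h1
    obtain ⟨H, hH⟩ := exists_right_complement'_of_coprime P.card_coprime_index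
    have h2 : ⁅(P : Subgroup G), (⊤ : Subgroup G)⁆ ≤ N := commutator_le.mpr fun u hu x _ => by
      have h3 := h1 x ⟨u⁻¹, inv_mem hu⟩
      rw [hD] at h3
      simpa only [commutatorElement_def, inv_inv, mul_assoc] using h3
    have h3 : ⁅H, H⁆ = ⊥ := by
      rw [eq_bot_iff, ← hH.disjoint.eq_bot]
      exact le_inf ((commutator_mono le_top le_top).trans hG')
        (H1.commutator_le_of_le_normalizer_left le_normalizer)
    rw [_root_.commutator_def]
    nth_rewrite 1 [← hH.sup_eq_top]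
    refine H1.commutator_sup_le le_normalizer_of_normal le_normalizer_of_normal h2 ?_
    rw [← hH.sup_eq_top]
    refine H1.commutator_sup_le' le_normalizer_of_normal le_normalizer_of_normal ?_
      (h3 ▸ bot_le)
    rw [commutator_comm]
    exact (commutator_mono le_rfl le_top).trans h2
  have hGz := hle _ inferInstance fun x u => hz x u u.2
  have hA : ∀ y, (D y).range.Normal := fun y => ⟨by
    rintro _ ⟨u, rfl⟩ g
    refine ⟨⟨g * u * g⁻¹, hn.conj_mem _ u.2 g⟩, ?_⟩
    have h1 := mem_centralizer_iff.mp (hGz (commutator_mem_commutator (mem_top g) (mem_top y))) _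
      (hn.conj_mem _ (hn.conj_mem _ u.2 g) y)
    rw [hD, hD]
    calc _ = (g * u * g⁻¹)⁻¹ * (y * (g * u * g⁻¹) * y⁻¹ * ⁅g, y⁆) * ⁅g, y⁆⁻¹ := by group
      _ = _ := by rw [h1, commutatorElement_def]; group⟩
  by_cases h0 : ∀ x, (D x).range = ⊥
  · rw [le_bot_iff.mp (hle ⊥ inferInstance fun x u => h0 x ▸ ⟨u, rfl⟩), card_bot]
    exact one_dvd p
  push Not at h0
  obtain ⟨x, hx⟩ := h0
  refine (card_dvd_of_le (hle _ (hA x) fun y u => ?_)).trans (hcard x)
  by_contra hy
  have hdis : ∀ x y, ¬ (D y).range ≤ (D x).range → (D x).range ⊓ (D y).range = ⊥ := by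
    intro x y hxy
    rcases (Nat.dvd_prime hp.out).mp ((card_dvd_of_le (inf_le_right (a := (D x).range))).trans
      (hcard y)) with h1 | h1
    · exact card_eq_one.mp h1
    · exact absurd (inf_eq_right.mp (eq_of_le_of_card_ge inf_le_right
        ((Nat.le_of_dvd hp.out.pos (hcard y)).trans h1.ge))) hxy
  have hne : ∀ x, (D x).range ≠ ⊥ → ∃ a ∈ (P : Subgroup G), a ∉ centralizer ({x} : Set G) := by
    intro x hx
    by_contra h1
    push Not at h1
    refine hx (eq_bot_iff.mpr ?_)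
    rintro _ ⟨u, rfl⟩
    exact (hD1 x u).mpr (h1 u u.2)
  have hMeq : ∀ x y, (D x).range ≠ ⊥ → (D x).range ⊓ (D y).range = ⊥ →
      centralizer ({x} : Set G) ⊓ P ≤ centralizer {y} := by
    intro x y hx hxy
    have h1 : centralizer ({x * y} : Set G) ⊓ P ≤ centralizer {x} ⊓ centralizer {y} := by
      intro u hu
      have h2 := (hD1 _ u).mpr hu.1
      have h3 : D x ⟨u, hu.2⟩ * (x * D y ⟨u, hu.2⟩ * x⁻¹) = 1 := by
        rw [← h2, hD, hD]; group
      have h4 : D x ⟨u, hu.2⟩ ∈ (D x).range ⊓ (D y).range :=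
        mem_inf.mpr ⟨⟨_, rfl⟩, by
          rw [eq_inv_of_mul_eq_one_left h3]
          exact inv_mem ((hA y).conj_mem _ ⟨_, rfl⟩ x)⟩
      rw [hxy, mem_bot] at h4
      rw [h4, one_mul, conj_eq_one_iff] at h3
      exact ⟨(hD1 x u).mp h4, (hD1 y u).mp h3⟩
    intro m hm
    by_contra hm'
    obtain ⟨a, ha, ha'⟩ := hne x hx
    exact ha' (le_of_relIndex_dvd_prime (hM (x * y)) (h1.trans inf_le_left) hm.2 hm.1
      (fun h => hm' (h1 ⟨h, hm.2⟩).2) ha)
  have hxy := hdis x y fun h => hy (h ⟨u, rfl⟩)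
  have hy0 : (D y).range ≠ ⊥ := fun h => hy (by
    have h1 : D y u ∈ (⊥ : Subgroup G) := h ▸ ⟨u, rfl⟩
    rw [mem_bot.mp h1]; exact one_mem _)
  have hyx := hMeq y x hy0 (by rw [inf_comm, hxy])
  have hall : ∀ w, (D w).range ≠ ⊥ → centralizer ({w} : Set G) ⊓ P ≤ centralizer {x} := by
    intro w hw
    by_cases h1 : (D x).range ≤ (D w).range
    · refine (le_inf (hMeq w y hw (hdis w y fun h2 => hy ?_)) inf_le_right).trans hyx
      have h3 : (D w).range ≤ (D x).range := by
        by_contra h3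
        exact hx (eq_bot_iff.mpr (hdis x w h3 ▸ le_inf le_rfl h1))
      exact h3 (h2 ⟨u, rfl⟩)
    · exact hMeq w x hw (hdis w x h1)
  have hcen : ∀ v ∈ (P : Subgroup G), v ∉ centralizer ({x} : Set G) →
      v ∈ centralizer ((P : Subgroup G) : Set G) := by
    intro v hv hv'
    have h1 : (D v).range = ⊥ := by
      by_contra h1
      exact hv' (hall v h1 ⟨self_mem_cent v, hv⟩)
    refine mem_centralizer_iff.mpr fun w hw => mem_cent.mp ((hD1 v w).mp ?_)
    have h2 : D v ⟨w, hw⟩ ∈ (⊥ : Subgroup G) := h1 ▸ ⟨_, rfl⟩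
    exact h2
  obtain ⟨a, ha, ha'⟩ := hne x hx
  have hab : (P : Subgroup G) ≤ centralizer ((P : Subgroup G) : Set G) := by
    intro v hv
    by_cases hv' : v ∈ centralizer ({x} : Set G)
    · exact (mul_mem_cancel_left (hcen a ha ha')).mp (hcen _ (mul_mem ha hv)
        fun h => ha' ((mul_mem_cancel_right hv').mp h))
    · exact hcen v hv hv'
  refine ha' (mem_cent_comm.mp (mem_cent.mpr (mem_centralizer_iff.mp (hab (hpow x fun v hv => ?_))
    a ha).symm))
  refine hyx ⟨(hD1 y _).mp ?_, hDP x v hv⟩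
  rw [← mem_bot, ← hxy]
  have h1 : v⁻¹ * (x * v * x⁻¹) ∈ (D x).range := ⟨⟨v, hv⟩, rfl⟩
  exact mem_inf.mpr ⟨mul_mem (inv_mem h1) ((hA x).conj_mem _ h1 y), ⟨⟨_, hDP x v hv⟩, rfl⟩⟩

end H24
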