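import Mathlib
import Cfsg.Agent.H17.Jordan
import Cfsg.Agent.H17.Prim

/-! Wielandt's theorem on primitive permutation groups of degree `2p` (centraliser ring proof). -/

set_option autoImplicit false

namespace H24
open MulAction Matrix

theorem polar_two {K : Type*} [CommRing K] (X Y : Matrix (Fin 2) (Fin 2) K) :
    X * Y + Y * X = X.trace • Y + Y.trace • X + ((X * Y).trace - X.trace * Y.trace) • 1 := by
  ext i j
  fin_cases i <;> fin_cases j <;>
    simp [Matrix.mul_apply, Matrix.trace, Fin.sum_univ_two] <;> ring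

theorem idem_two {F : Matrix (Fin 2) (Fin 2) ℂ} (h : F * F = F) : F.trace = 1 ∨ F = 0 ∨ F = 1 := by
  by_cases h1 : F.trace = 1
  · exact Or.inl h1
  have h2 := polar_two F F
  rw [h] at h2
  obtain ⟨c, rfl⟩ : ∃ c : ℂ, F = c • 1 := by
    refine ⟨(2 * (1 - F.trace))⁻¹ * (F.trace - F.trace * F.trace), ?_⟩
    rw [mul_smul, eq_inv_smul_iff₀ (mul_ne_zero two_ne_zero (sub_ne_zero.2 (Ne.symm h1)))]
    linear_combination (norm := module) h2
  have h3 : c * c = c := by simpa using congrFun (congrFun h 0) 0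
  rcases mul_eq_zero.1 (show c * (c - 1) = 0 by linear_combination h3) with h4 | h4
  · simp [h4]
  · simp [sub_eq_zero.1 h4]

theorem rank_one_two {F N : Matrix (Fin 2) (Fin 2) ℂ} (h : F.trace = 1) (h1 : N * F = 0)
    (h2 : F * N = 0) : N = N.trace • (1 - F) := by
  have h3 := polar_two F N
  rw [h1, h2, h] at h3
  simp only [trace_zero, add_zero, one_mul, zero_sub, one_smul] at h3
  linear_combination (norm := module) -h3

variable {p : ℕ} [Fact p.Prime]

/-- Fourier transform of a rational function on `ZMod p` -/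
noncomputable def ft (ψ : AddChar (ZMod p) ℂ) (f : ZMod p → ℚ) : ℂ := ∑ i, (f i : ℂ) * ψ i

theorem ft_one (f : ZMod p → ℚ) : ft 1 f = (∑ i, f i : ℚ) := by simp [ft]

theorem ft_sub (ψ : AddChar (ZMod p) ℂ) (f g : ZMod p → ℚ) : ft ψ (f - g) = ft ψ f - ft ψ g := by
  simp [ft, sub_mul]

theorem ft_add (ψ : AddChar (ZMod p) ℂ) (f g : ZMod p → ℚ) : ft ψ (f + g) = ft ψ f + ft ψ g := by
  simp [ft, add_mul, Finset.sum_add_distrib]

theorem ft_conv (ψ : AddChar (ZMod p) ℂ) (f g : ZMod p → ℚ) :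
    ft ψ (fun j => ∑ i, f i * g (j - i)) = ft ψ f * ft ψ g := by
  simp only [ft, Rat.cast_sum, Finset.sum_mul, Finset.mul_sum]
  rw [Finset.sum_comm, Finset.sum_comm (f := fun i j => (f j : ℂ) * ψ j * (g i * ψ i))]
  refine Finset.sum_congr rfl fun i _ => ?_
  rw [← Equiv.sum_comp (Equiv.addRight i)]
  refine Finset.sum_congr rfl fun j _ => ?_
  simp [AddChar.map_add_eq_mul]; ring

theorem exists_sep : ∃ ψ : AddChar (ZMod p) ℂ, ∀ f, ft ψ f = 0 → ∀ i j, f i = f j := by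
  have hp : p.Prime := Fact.out
  have h := Complex.isPrimitiveRoot_exp p hp.ne_zero
  refine ⟨AddChar.zmodChar p h.pow_eq_one, fun f hf => ?_⟩
  obtain ⟨n, rfl⟩ := Nat.exists_eq_succ_of_ne_zero hp.ne_zero
  exact (h.sum_eq_zero_iff_forall_eq hp f).1 hf

theorem eq_of_ft {ψ : AddChar (ZMod p) ℂ} (hψ : ∀ f, ft ψ f = 0 → ∀ i j, f i = f j)
    {f g : ZMod p → ℚ} (h1 : ft ψ f = ft ψ g) (h2 : ft 1 f = ft 1 g) : f = g := by
  have h3 := hψ (f - g) (by rw [ft_sub, h1, sub_self])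
  have h4 : ∑ i, (f - g) i = 0 := by exact_mod_cast (by rw [← ft_one, ft_sub, h2, sub_self] : ((∑ i, (f - g) i : ℚ) : ℂ) = 0)
  ext i
  rw [Finset.sum_congr rfl fun j _ => h3 j i] at h4
  simpa [sub_eq_zero, (Fact.out : p.Prime).ne_zero] using h4

variable (G : Type*) [Group G] {Ω : Type*} [MulAction G Ω]

/-- invariant matrices -/
def InvM (X : Matrix Ω Ω ℚ) : Prop := ∀ (g : G) a b, X (g • a) (g • b) = X a b

/-- a semiregular element with two cycles of length `p` -/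
structure W2 (Ω : Type*) [MulAction G Ω] (p : ℕ) where
  e : Fin 2 × ZMod p ≃ Ω
  x : G
  hx : ∀ r i, x • e (r, i) = e (r, i + 1)

variable {G} [Fintype Ω] [DecidableEq Ω]

theorem InvM.one : InvM G (1 : Matrix Ω Ω ℚ) := fun g a b => by simp [one_apply]
theorem InvM.sub {X Y : Matrix Ω Ω ℚ} (h : InvM G X) (k : InvM G Y) : InvM G (X - Y) :=
  fun g a b => by simp [h g, k g]
theorem InvM.smul {X : Matrix Ω Ω ℚ} (h : InvM G X) (c : ℚ) : InvM G (c • X) :=
  fun g a b => by simp [h g]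
theorem InvM.tr {X : Matrix Ω Ω ℚ} (h : InvM G X) : InvM G Xᵀ := fun g a b => h g b a
theorem InvM.mul {X Y : Matrix Ω Ω ℚ} (h : InvM G X) (k : InvM G Y) : InvM G (X * Y) :=
  fun g a b => by
    rw [mul_apply, mul_apply, ← Equiv.sum_comp (toPerm g)]; simp [h g, k g]
theorem InvM.row [IsPretransitive G Ω] {X : Matrix Ω Ω ℚ} (h : InvM G X) (a b : Ω) :
    ∑ c, X a c = ∑ c, X b c := by
  obtain ⟨g, rfl⟩ := exists_smul_eq G b a
  rw [← Equiv.sum_comp (toPerm g)]; simp [h g]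
theorem InvM.diag [IsPretransitive G Ω] {X : Matrix Ω Ω ℚ} (h : InvM G X) (a b : Ω) :
    X a a = X b b := by
  obtain ⟨g, rfl⟩ := exists_smul_eq G b a
  exact h g b b

namespace W2
variable (W : W2 G Ω p)

def row (X : Matrix Ω Ω ℚ) (r s : Fin 2) (i : ZMod p) : ℚ := X (W.e (r, 0)) (W.e (s, i))

noncomputable def fou (ψ : AddChar (ZMod p) ℂ) (X : Matrix Ω Ω ℚ) : Matrix (Fin 2) (Fin 2) ℂ :=
  of fun r s => ft ψ (W.row X r s)

theorem shift {X : Matrix Ω Ω ℚ} (h : InvM G X) (r s : Fin 2) (i j : ZMod p) :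
    X (W.e (r, i)) (W.e (s, j)) = W.row X r s (j - i) := by
  have h1 : ∀ (k : ℕ) r i, W.x ^ k • W.e (r, i) = W.e (r, i + k) := fun k r i => by
    induction k with
    | zero => simp
    | succ k ih => rw [pow_succ', mul_smul, ih, W.hx]; push_cast; rw [add_assoc]
  rw [row, ← h (W.x ^ i.val) (W.e (r, 0)), h1, h1]; simp

theorem sum_eq (f : Ω → ℚ) : ∑ a, f a = ∑ i, f (W.e (0, i)) + ∑ i, f (W.e (1, i)) := by
  rw [← Equiv.sum_comp W.e, Fintype.sum_prod_type, Fin.sum_univ_two]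

theorem fou_mul (ψ : AddChar (ZMod p) ℂ) (X : Matrix Ω Ω ℚ) {Y : Matrix Ω Ω ℚ} (h : InvM G Y) :
    W.fou ψ (X * Y) = W.fou ψ X * W.fou ψ Y := by
  ext r s
  simp only [fou, mul_apply, of_apply, Fin.sum_univ_two, ← ft_conv, ← ft_add]
  congr 1
  ext i
  rw [row, mul_apply, W.sum_eq]
  simp only [W.shift h]
  rfl

theorem fou_sub (ψ : AddChar (ZMod p) ℂ) (X Y : Matrix Ω Ω ℚ) :
    W.fou ψ (X - Y) = W.fou ψ X - W.fou ψ Y := by
  ext r s
  exact ft_sub ψ (W.row X r s) (W.row Y r s)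

theorem fou_zero (ψ : AddChar (ZMod p) ℂ) : W.fou ψ 0 = 0 := by
  ext r s; simp [fou, ft, row]

theorem fou_one (ψ : AddChar (ZMod p) ℂ) : W.fou ψ 1 = 1 := by
  ext r s
  by_cases h : r = s <;> simp [fou, ft, row, one_apply, h, apply_ite]

/-- block sums -/
def bs (X : Matrix Ω Ω ℚ) (r s : Fin 2) : ℚ := ∑ i, W.row X r s i

theorem bs_tr {X : Matrix Ω Ω ℚ} (h : InvM G X) (r s : Fin 2) : W.bs Xᵀ r s = W.bs X s r := by
  rw [bs, bs, ← Equiv.sum_comp (Equiv.neg _)]
  exact Finset.sum_congr rfl fun i _ => (W.shift h s r (-i) 0).trans (by simp)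

theorem bs_row (X : Matrix Ω Ω ℚ) (r : Fin 2) : ∑ c, X (W.e (r, 0)) c = W.bs X r 0 + W.bs X r 1 :=
  W.sum_eq _

variable [IsPretransitive G Ω]

theorem bs_sym {X : Matrix Ω Ω ℚ} (h : InvM G X) : W.bs X 1 1 = W.bs X 0 0 ∧ W.bs X 1 0 = W.bs X 0 1 := by
  have h1 := h.row (W.e (0, 0)) (W.e (1, 0))
  have h2 := h.tr.row (W.e (0, 0)) (W.e (1, 0))
  simp only [bs_row, W.bs_tr h] at h1 h2
  constructor <;> linarith

def u (a : Ω) : ℚ := if (W.e.symm a).1 = 0 then 1 else -1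

def lam (X : Matrix Ω Ω ℚ) : ℚ := W.bs X 0 0 - W.bs X 0 1

theorem lam_tr {X : Matrix Ω Ω ℚ} (h : InvM G X) : W.lam Xᵀ = W.lam X := by
  rw [lam, lam, W.bs_tr h, W.bs_tr h, (W.bs_sym h).2]

theorem mul_u {X : Matrix Ω Ω ℚ} (h : InvM G X) (a : Ω) : ∑ c, X a c * W.u c = W.lam X * W.u a := by
  obtain ⟨⟨r, i⟩, rfl⟩ := W.e.surjective a
  have h1 : ∀ s, ∑ j, W.row X r s (j - i) = W.bs X r s := fun s =>
    Equiv.sum_comp (Equiv.subRight i) _
  have := W.bs_sym h
  rw [W.sum_eq]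
  fin_cases r <;> simp [u, W.shift h, lam] at h1 ⊢ <;> simp only [h1] <;> linarith [this.1, this.2]

theorem exists_E [Finite G] : ∃ E : Matrix Ω Ω ℚ, InvM G E ∧ Eᵀ = E ∧ W.lam E = 1 ∧
    (∀ a, ∑ c, E a c = 0) ∧ ∀ X, InvM G X → X * E = W.lam X • E := by
  have := Fintype.ofFinite G
  let S : Matrix Ω Ω ℚ := of fun a b => ∑ g : G, W.u (g • a) * W.u (g • b)
  have h1 : InvM G S := fun g a b => by
    simp only [S, of_apply, ← mul_smul]
    exact Equiv.sum_comp (Equiv.mulRight g) fun k => W.u (k • a) * W.u (k • b)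
  have h2 : Sᵀ = S := by ext a b; simp [S, mul_comm]
  have h3 : ∀ X, InvM G X → X * S = W.lam X • S := fun X h => by
    ext a b
    simp only [S, mul_apply, of_apply, Finset.mul_sum, Matrix.smul_apply, smul_eq_mul]
    rw [Finset.sum_comm]
    refine Finset.sum_congr rfl fun g _ => ?_
    rw [← mul_assoc, ← W.mul_u h, Finset.sum_mul, ← Equiv.sum_comp (toPerm g)
      fun c => X (g • a) c * W.u c * W.u (g • b)]
    simp [h g, mul_assoc]
  have h4 : W.lam S ≠ 0 := fun h => by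
    have h5 := congrFun (congrFun (h3 S h1) (W.e (0, 0))) (W.e (0, 0))
    rw [h, zero_smul, mul_apply, Matrix.zero_apply, Finset.sum_eq_zero_iff_of_nonneg fun c _ => by
      rw [← transpose_apply S _ c, h2]; exact mul_self_nonneg _] at h5
    have h6 := mul_self_eq_zero.1 (h5 _ (Finset.mem_univ (W.e (0, 0))))
    have h7 : ∀ a, W.u a * W.u a = 1 := fun a => by unfold u; split_ifs <;> simp
    simp [S, h7] at h6
  refine ⟨(W.lam S)⁻¹ • S, h1.smul _, by rw [transpose_smul, h2], ?_, fun a => ?_, fun X h => ?_⟩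
  · have : ∀ c : ℚ, W.lam (c • S) = c * W.lam S := fun c => by
      simp [lam, bs, row, mul_sub, Finset.mul_sum]
    rw [this, inv_mul_cancel₀ h4]
  · have h5 : ∀ g : G, ∑ c, W.u (g • c) = 0 := fun g => by
      rw [show ∑ c, W.u (g • c) = ∑ c, W.u c from Equiv.sum_comp (toPerm g) _, W.sum_eq]; simp [u]
    simp only [S, Matrix.smul_apply, smul_eq_mul, of_apply, ← Finset.mul_sum]
    rw [Finset.sum_comm]
    simp [← Finset.mul_sum, h5]
  · rw [Matrix.mul_smul, h3 X h, smul_comm]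

end W2

open Classical in
/-- orbital matrix -/
noncomputable def orbM (G : Type*) [Group G] [MulAction G Ω] (a b : Ω) : Matrix Ω Ω ℚ :=
  of fun c d => if ∃ g : G, g • a = c ∧ g • b = d then 1 else 0

theorem orbM_inv (a b : Ω) : InvM G (orbM G a b) := fun g c d => by
  classical
  simp only [orbM, of_apply]
  refine if_congr ⟨?_, ?_⟩ rfl rfl <;> rintro ⟨k, h1, h2⟩
  · exact ⟨g⁻¹ * k, by simp [mul_smul, h1], by simp [mul_smul, h2]⟩
  · exact ⟨g * k, by simp [mul_smul, h1], by simp [mul_smul, h2]⟩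

theorem orbM_row (a b : Ω) : ∑ c, orbM G a b a c = Nat.card (orbit (stabilizer G a) b) := by
  classical
  simp only [orbM, of_apply, Finset.sum_boole, Nat.card_eq_fintype_card, Fintype.card_ofFinset,
    Nat.cast_inj]
  congr 1; ext c; simp [mem_orbit_iff, Subtype.exists]

theorem orbM_mul {X : Matrix Ω Ω ℚ} (h : InvM G X) (a b c d : Ω) :
    orbM G a b c d * X c d = orbM G a b c d * X a b := by
  simp only [orbM, of_apply]
  split_ifs with h1
  · obtain ⟨g, rfl, rfl⟩ := h1; rw [h g]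
  · simp

theorem orbM_diag {a b : Ω} (h : a ≠ b) (c : Ω) : orbM G a b c c = 0 :=
  if_neg fun ⟨g, h1, h2⟩ => h (smul_left_cancel g (h1.trans h2.symm))

theorem orbM_sq (a b c d : Ω) : orbM G a b c d ^ 2 = orbM G a b c d := by
  simp only [orbM, of_apply]; split_ifs <;> simp

theorem card_quot_eq_sum (H : Type*) [Group H] [MulAction H Ω] :
    (Nat.card (orbitRel.Quotient H Ω) : ℚ) = ∑ b : Ω, (Nat.card (orbit H b) : ℚ)⁻¹ := by
  classical
  have := Fintype.ofFinite (orbitRel.Quotient H Ω)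
  rw [← Finset.sum_fiberwise Finset.univ (Quotient.mk (orbitRel H Ω)), Nat.card_eq_fintype_card,
    ← Finset.card_univ, Finset.card_eq_sum_ones, Nat.cast_sum]
  refine Finset.sum_congr rfl fun q _ => ?_
  obtain ⟨b, rfl⟩ := Quotient.exists_rep q
  have h1 : ∀ c, Quotient.mk (orbitRel H Ω) c = Quotient.mk _ b ↔ c ∈ orbit H b := fun c =>
    Quotient.eq
  rw [Finset.sum_congr rfl fun c hc => by rw [orbit_eq_iff.2 ((h1 c).1 (Finset.mem_filter.1 hc).2)],
    Finset.sum_const, nsmul_eq_mul]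
  have h2 : Nat.card (orbit H b) = (Finset.univ.filter fun c =>
      Quotient.mk (orbitRel H Ω) c = Quotient.mk _ b).card := by
    simp [h1, Fintype.card_subtype]
  rw [← h2, mul_inv_cancel₀ (Nat.cast_ne_zero.2 (Nat.card_pos_iff.2 ⟨⟨⟨b, mem_orbit_self b⟩⟩,
    inferInstance⟩).ne'), Nat.cast_one]

namespace W2
variable (W : W2 G Ω p) [IsPreprimitive G Ω]

theorem const_of_fou {ψ : AddChar (ZMod p) ℂ} (hψ : ∀ f, ft ψ f = 0 → ∀ i j, f i = f j)
    {N : Matrix Ω Ω ℚ} (h : InvM G N) (h0 : W.fou ψ N = 0) (a b c d : Ω) : N a b = N c d := by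
  have h1 : ∀ r s i, W.row N r s i = W.row N r s 0 := fun r s i =>
    hψ _ (congrFun (congrFun h0 r) s) _ _
  have h2 := W.bs_sym h
  simp only [bs, h1, Finset.sum_const, nsmul_eq_mul, mul_eq_mul_left_iff, Nat.cast_eq_zero,
    Finset.card_univ, Fintype.card_ne_zero, or_false] at h2
  have h3 : ∀ r i s j, N (W.e (r, i)) (W.e (s, j)) =
      if r = s then W.row N 0 0 0 else W.row N 0 1 0 := fun r i s j => by
    rw [W.shift h, h1]; fin_cases r <;> fin_cases s <;> simp [h2]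
  have h4 : ∀ a b, N a b = if (W.e.symm a).1 = (W.e.symm b).1 then W.row N 0 0 0 else
    W.row N 0 1 0 := fun a b => by rw [← h3 _ (W.e.symm a).2 _ (W.e.symm b).2]; simp
  by_cases h5 : W.row N 0 1 0 = W.row N 0 0 0
  · simp [h4, h5]
  have h6 : ∀ a b, N a b = W.row N 0 0 0 ↔ (W.e.symm a).1 = (W.e.symm b).1 := fun a b => by
    rw [h4]; split_ifs with h7 <;> simp [h7, h5]
  rcases H17.prim_rel (G := G) (fun a b => (W.e.symm a).1 = (W.e.symm b).1)
    ⟨fun _ => rfl, Eq.symm, Eq.trans⟩ (fun g a b => by simp [← h6, h g]) with h7 | h7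
  · simpa using h7 (W.e (0, 0)) (W.e (0, 1)) (by simp)
  · simpa using h7 (W.e (0, 0)) (W.e (1, 0))

theorem trace_fou (ψ : AddChar (ZMod p) ℂ) (X : Matrix Ω Ω ℚ) :
    (W.fou ψ X).trace = ft ψ (W.row X 0 0 + W.row X 1 1) := by
  simp [trace, fou, ft_add]

variable {E : Matrix Ω Ω ℚ} (hE : InvM G E) (hs : Eᵀ = E) (hm : ∀ X, InvM G X → X * E = W.lam X • E)
include hE hs hm

theorem fou_eq {ψ : AddChar (ZMod p) ℂ} (h1 : (W.fou ψ E).trace = 1) {A : Matrix Ω Ω ℚ}
    (hA : InvM G A) : W.fou ψ (A - W.lam A • 1) * W.fou ψ E = 0 ∧ W.fou ψ (A - W.lam A • 1) =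
      (W.fou ψ (A - W.lam A • 1)).trace • (1 - W.fou ψ E) := by
  have h2 : E * A = W.lam A • E := by
    rw [← transpose_inj, transpose_mul, hs, hm _ hA.tr, W.lam_tr hA, transpose_smul, hs]
  have h3 : W.fou ψ (A - W.lam A • 1) * W.fou ψ E = 0 := by
    rw [← W.fou_mul _ _ hE, ← W.fou_zero ψ]; simp [sub_mul, hm A hA]
  refine ⟨h3, rank_one_two h1 h3 ?_⟩
  rw [← W.fou_mul _ _ (hA.sub (InvM.one.smul _)), ← W.fou_zero ψ]; simp [mul_sub, h2]

theorem sq_eq {ψ : AddChar (ZMod p) ℂ} (hψ : ∀ f, ft ψ f = 0 → ∀ i j, f i = f j)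
    (h1 : (W.fou ψ E).trace = 1) (h2 : (W.fou 1 E).trace = 1) {A : Matrix Ω Ω ℚ} (hA : InvM G A)
    {N : Matrix Ω Ω ℚ} (hN : N = A - W.lam A • 1) :
    ∑ c, N (W.e (0, 0)) c ^ 2 + ∑ c, N (W.e (1, 0)) c ^ 2 =
      ∑ i, (W.row N 0 0 i + W.row N 1 1 i) ^ 2 := by
  have h3 : InvM G N := hN ▸ hA.sub (InvM.one.smul _)
  have h4 : Nᵀ = Aᵀ - W.lam Aᵀ • 1 := by simp [hN, W.lam_tr hA]
  have h5 : ∀ φ, (W.fou φ E).trace = 1 → ft φ (W.row (N * Nᵀ) 0 0 + W.row (N * Nᵀ) 1 1) =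
      ft φ fun j => ∑ i, (W.row N 0 0 + W.row N 1 1) i * (W.row Nᵀ 0 0 + W.row Nᵀ 1 1) (j - i) :=
    fun φ h => by
      have h6 := (W.fou_eq hE hs hm h hA).1
      have h7 := (W.fou_eq hE hs hm h hA.tr).2
      rw [← hN] at h6
      rw [← h4] at h7
      rw [ft_conv, ← trace_fou, ← trace_fou, ← trace_fou, W.fou_mul _ _ h3.tr]
      conv_lhs => rw [h7]
      rw [Matrix.mul_smul, mul_sub, h6, trace_smul]; simp [mul_comm]
  have h6 := congrFun (eq_of_ft hψ (h5 ψ h1) (h5 1 h2)) 0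
  have h7 : ∀ r i, W.row Nᵀ r r (0 - i) = W.row N r r i := fun r i =>
    (W.shift h3 r r _ 0).trans (by simp)
  simp only [Pi.add_apply, h7] at h6
  simpa [row, mul_apply, sq] using h6

theorem orb_eq {ψ : AddChar (ZMod p) ℂ} (hψ : ∀ f, ft ψ f = 0 → ∀ i j, f i = f j)
    (h1 : (W.fou ψ E).trace = 1) (h2 : (W.fou 1 E).trace = 1)
    (h3 : W.row E 0 0 + W.row E 1 1 = Pi.single 0 1) {a b : Ω} (hab : a ≠ b) (h : E a b ≠ 0)
    {k : ℚ} (hk : k = Nat.card (orbit (stabilizer G a) b)) :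
    2 * E a b * (4 * k * E a b + 1) = 1 := by
  have hA := orbM_inv (G := G) a b
  have hd := orbM_diag (G := G) hab
  set A := orbM G a b
  have h4 : ∀ c, E c c = 1 / 2 := fun c => by
    have := congrFun h3 0
    simp only [row, Pi.add_apply, hE.diag _ c, Pi.single_eq_same] at this
    linarith
  have h5 : ∀ c, ∑ d, A c d = k := fun c => by rw [hA.row c a, hk, orbM_row]
  have h6 : W.lam A = 2 * k * E a b := by
    have := congrFun (congrFun (hm A hA) a) a
    rw [mul_apply, Finset.sum_congr rfl fun c _ => by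
      rw [← transpose_apply E a c, hs, orbM_mul hE], ← Finset.sum_mul, h5] at this
    simp [h4] at this; linarith
  have h7 := W.sq_eq hE hs hm hψ h1 h2 hA rfl
  have h8 : ∀ c, ∑ d, (A - W.lam A • (1 : Matrix Ω Ω ℚ)) c d ^ 2 = k + W.lam A ^ 2 := fun c => by
    rw [← h5 c, ← Finset.sum_ite_eq_of_mem Finset.univ c (fun _ => W.lam A ^ 2) (Finset.mem_univ _),
      ← Finset.sum_add_distrib]
    refine Finset.sum_congr rfl fun d _ => ?_
    by_cases h : c = d
    · simp [h, hd]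
    · simp [h, A, orbM_sq]
  have h9 : ∑ i, (W.row (A - W.lam A • 1) 0 0 i + W.row (A - W.lam A • 1) 1 1 i) ^ 2 =
      W.bs A 0 0 + W.bs A 1 1 + 4 * W.lam A ^ 2 := by
    rw [bs, bs, ← Finset.sum_ite_eq_of_mem' Finset.univ (0 : ZMod p) (fun _ => 4 * W.lam A ^ 2)
      (Finset.mem_univ _), ← Finset.sum_add_distrib, ← Finset.sum_add_distrib]
    refine Finset.sum_congr rfl fun i _ => ?_
    by_cases hi : i = 0
    · simp [hi, hd, row]; ring
    have k1 := congrFun h3 i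
    have k2 := orbM_mul hE a b (W.e (0, 0)) (W.e (0, i))
    have k3 := orbM_mul hE a b (W.e (1, 0)) (W.e (1, i))
    have k4 := orbM_sq (G := G) a b (W.e (0, 0)) (W.e (0, i))
    have k5 := orbM_sq (G := G) a b (W.e (1, 0)) (W.e (1, i))
    simp only [row, Pi.add_apply, Pi.single_eq_of_ne hi] at k1
    have k6 : A (W.e (0, 0)) (W.e (0, i)) * A (W.e (1, 0)) (W.e (1, i)) = 0 := by
      refine mul_right_cancel₀ (mul_ne_zero two_ne_zero h) ?_
      linear_combination A (W.e (0, 0)) (W.e (0, i)) * A (W.e (1, 0)) (W.e (1, i)) * k1 -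
        A (W.e (1, 0)) (W.e (1, i)) * k2 - A (W.e (0, 0)) (W.e (0, i)) * k3
    simp [row, hi, Ne.symm hi]
    linear_combination k4 + k5 + 2 * k6
  have k1 := W.bs_row A 0
  have k2 := (W.bs_sym hA).1
  have k3 : W.lam A = W.bs A 0 0 - W.bs A 0 1 := rfl
  have k4 : k ≠ 0 := hk ▸ Nat.cast_ne_zero.2 (Nat.card_pos_iff.2 ⟨⟨⟨b, mem_orbit_self b⟩⟩,
    inferInstance⟩).ne'
  rw [h8, h8, h9] at h7
  rw [h5] at k1
  refine mul_left_cancel₀ k4 ?_
  have : k = 2 * W.lam A ^ 2 + W.lam A := by linarith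
  rw [h6] at this
  linear_combination -this

omit hE hs hm in
include W in
theorem main [Finite G] (a₀ : Ω) : IsMultiplyPretransitive G Ω 2 ∨
    (Nat.card (orbitRel.Quotient (stabilizer G a₀) Ω) = 3 ∧ ∃ a : ℕ, 0 < a ∧
      p = 2 * a ^ 2 + 2 * a + 1 ∧ ∀ b, b ≠ a₀ → Nat.card (orbit (stabilizer G a₀) b) = a * (2 * a + 1) ∨
        Nat.card (orbit (stabilizer G a₀) b) = (a + 1) * (2 * a + 1)) := by
  obtain ⟨E, hE, hs, hl, hr, hm⟩ := W.exists_E
  obtain ⟨ψ, hψ⟩ := exists_sep (p := p)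
  have hp : p.Prime := Fact.out
  have EE : E * E = E := by rw [hm E hE, hl, one_smul]
  have b0 : W.bs E 0 0 = 1 / 2 ∧ W.bs E 0 1 = -1 / 2 := by
    have := W.bs_row E 0
    rw [hr] at this
    constructor <;> linarith [show W.bs E 0 0 - W.bs E 0 1 = 1 from hl]
  have b1 := (W.bs_sym hE).1
  have h2 : (W.fou 1 E).trace = 1 := by
    rw [trace_fou, ft_add, ft_one, ft_one, ← Rat.cast_add]
    exact_mod_cast (by rw [b1, b0.1]; norm_num : W.bs E 0 0 + W.bs E 1 1 = 1)
  rcases idem_two (F := W.fou ψ E) (by rw [← W.fou_mul _ _ hE, EE]) with h1 | h1 | h1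
  rotate_left
  · have := W.const_of_fou hψ hE h1
    have h3 : W.bs E 0 0 = W.bs E 0 1 := Finset.sum_congr rfl fun i _ => this ..
    linarith [b0.1, b0.2]
  · have h3 := W.const_of_fou hψ (InvM.one.sub hE) (by rw [fou_sub, fou_one, h1, sub_self])
    have h4 : ∀ a b c : Ω, a ≠ b → a ≠ c → ∃ g : G, g • a = a ∧ g • b = c := fun a b c hb hc => by
      have hA : InvM G (orbM G a b) := orbM_inv a b
      have h5 : (orbM G a b - W.lam (orbM G a b) • 1) * (1 - E) =
          orbM G a b - W.lam (orbM G a b) • 1 := by simp [mul_sub, sub_mul, hm _ hA]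
      have h6 : ((orbM G a b - W.lam (orbM G a b) • 1) * (1 - E)) a c =
          ((orbM G a b - W.lam (orbM G a b) • 1) * (1 - E)) a b :=
        Finset.sum_congr rfl fun d _ => congrArg _ (h3 d c d b)
      rw [h5] at h6
      simpa [hb, hc, orbM, show ∃ g : G, g • a = a ∧ g • b = b from ⟨1, by simp⟩] using h6
    refine Or.inl (is_two_pretransitive_iff.2 fun {a b c d} hab hcd => ?_)
    obtain ⟨g, rfl⟩ := exists_smul_eq G a c
    obtain ⟨k, k1, k2⟩ := h4 (g • a) (g • b) d (by simpa) hcd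
    exact ⟨k * g, by rw [mul_smul, k1], by rw [mul_smul, k2]⟩
  right
  have h3 : W.row E 0 0 + W.row E 1 1 = Pi.single 0 1 := by
    have : ∀ φ : AddChar (ZMod p) ℂ, ft φ (Pi.single 0 1) = 1 := fun φ => by
      simp [ft, Pi.single_apply, apply_ite]
    exact eq_of_ft hψ (by rw [← trace_fou, h1, this]) (by rw [← trace_fou, h2, this])
  have h4 : ∀ c, E c c = 1 / 2 := fun c => by
    have := congrFun h3 0
    simp only [row, Pi.add_apply, hE.diag _ c, Pi.single_eq_same] at this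
    linarith
  have sym : ∀ a b, E a b = E b a := fun a b => by rw [← transpose_apply E, hs]
  have h5 : ∀ a, ∑ c, E a c ^ 2 = 1 / 2 := fun a => by
    rw [← h4 a, ← congrFun (congrFun EE a) a, mul_apply]; simp [sq, sym a]
  have ho := fun {a b} hab h => W.orb_eq hE hs hm hψ h1 h2 h3 (a := a) (b := b) hab h rfl
  have hA : InvM G (E ⊙ E) := fun g a b => by simp [hE g]
  have h6 := (W.fou_eq hE hs hm h1 hA).2
  set N := E ⊙ E - W.lam (E ⊙ E) • 1 with hN
  have h7 : W.row N 0 0 = W.row N 1 1 := by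
    ext i
    by_cases hi : i = 0
    · simp [hi, row, N, h4]
    have k1 := congrFun h3 i
    simp only [row, Pi.add_apply, Pi.single_eq_of_ne hi] at k1
    simp [row, N, Ne.symm hi, eq_neg_of_add_eq_zero_left k1]
  have h8 : (W.fou ψ N).trace = 0 := by
    by_contra h8
    have k1 : W.fou ψ N 0 0 = W.fou ψ N 1 1 := congrArg (ft ψ) h7
    rw [h6] at k1
    have k2 : W.row E 0 0 = W.row E 1 1 := eq_of_ft hψ ((by simpa [h8] using k1) : W.fou ψ E 0 0 = W.fou ψ E 1 1)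
      (by rw [ft_one, ft_one]; exact_mod_cast b1.symm)
    have k3 : E (W.e (0, 0)) (W.e (0, 1)) = 0 := by
      have := congrFun h3 1
      rw [← k2, Pi.single_eq_of_ne one_ne_zero] at this
      exact add_self_eq_zero.1 this
    have k4 : ∀ r i, i ≠ 0 → W.row E r r i = 0 := fun r i hi => by
      have := congrFun h3 i
      rw [Pi.single_eq_of_ne hi] at this
      fin_cases r
      · exact add_self_eq_zero.1 (by rwa [← k2] at this)
      · exact add_self_eq_zero.1 (by rwa [k2] at this)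
    have k5 : ∀ a b, a ≠ b → E a b ≠ 0 → E a b = -1 / 2 := fun a b hab h => by
      have l1 := ho hab h
      have l2 := congrFun (congrFun (hm _ (orbM_inv a b)) a) a
      have l3 : W.bs (orbM G a b) 0 0 = 0 := Finset.sum_eq_zero fun i _ => by
        by_cases hi : i = 0
        · exact hi ▸ orbM_diag hab _
        have := orbM_mul hE a b (W.e (0, 0)) (W.e (0, i))
        exact (mul_eq_zero.1 (this.symm.trans (mul_eq_zero_of_right _ (k4 0 i hi)))).resolve_right h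
      have l4 := W.bs_row (orbM G a b) 0
      rw [(orbM_inv a b).row _ a, orbM_row] at l4
      rw [mul_apply, Finset.sum_congr rfl fun c _ => by rw [sym c a, orbM_mul hE], ← Finset.sum_mul,
        orbM_row, Matrix.smul_apply, h4, lam, l3] at l2
      have l5 : (Nat.card (orbit (stabilizer G a) b) : ℚ) ≠ 0 :=
        Nat.cast_ne_zero.2 (Nat.card_pos_iff.2 ⟨⟨⟨b, mem_orbit_self b⟩⟩, inferInstance⟩).ne'
      refine mul_left_cancel₀ l5 ?_
      rw [l2, l4, l3]; simp; ring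
    refine (H17.prim_rel (G := G) (fun a b => a = b ∨ E a b ≠ 0) ⟨fun _ => Or.inl rfl,
      fun h => h.imp Eq.symm fun h => sym .. ▸ h, ?_⟩ fun g a b => by simp [hE g]).elim
      (fun h => ?_) fun h => by simpa [k3] using h (W.e (0, 0)) (W.e (0, 1))
    swap
    · have := hr a₀
      rw [Finset.sum_eq_single a₀ (fun b _ hb => not_not.1 fun k => hb (h _ _ (Or.inr k)).symm)
        (by simp), h4] at this
      norm_num at this
    rintro a b c (rfl | h) (rfl | k)
    · exact Or.inl rfl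
    · exact Or.inr k
    · exact Or.inr h
    by_cases ab : a = b
    · exact Or.inr (ab ▸ k)
    by_cases bc : b = c
    · exact Or.inr (bc ▸ h)
    refine Or.inl (by_contra fun ac => ?_)
    have := Finset.sum_le_sum_of_subset_of_nonneg (Finset.subset_univ {a, b, c})
      fun d _ _ => sq_nonneg (E b d)
    rw [h5, Finset.sum_insert (by simp [ab, ac]), Finset.sum_pair bc, h4, sym b a, k5 a b ab h,
      k5 b c bc k] at this
    norm_num at this
  rw [h8, zero_smul] at h6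
  have h9 := W.const_of_fou hψ (hA.sub (InvM.one.smul _)) h6
  have hc : (Fintype.card Ω : ℚ) = 2 * p := by simp [← Fintype.card_congr W.e]
  have k1 : ∀ b, b ≠ a₀ → 4 * (2 * p - 1) * E a₀ b ^ 2 = 1 := fun b hb => by
    have := h5 a₀
    rw [← Finset.add_sum_erase _ _ (Finset.mem_univ a₀), h4, Finset.sum_congr rfl
      (g := fun _ => E a₀ b ^ 2) fun c hc => by
        simpa [hb.symm, (Finset.ne_of_mem_erase hc).symm, sq] using h9 a₀ c a₀ b] at this
    simp [Finset.card_erase_of_mem, Nat.cast_sub (Fintype.card_pos_iff.2 ⟨a₀⟩), hc] at this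
    linarith
  have k0 : ∀ b, b ≠ a₀ → E a₀ b ≠ 0 := fun b hb h => by simpa [h] using k1 b hb
  obtain ⟨s, hs⟩ : IsSquare (2 * p - 1) := by
    obtain ⟨b, hb⟩ : ∃ b, b ≠ a₀ := by
      by_cases h : W.e (0, 0) = a₀
      exacts [⟨W.e (1, 0), by simp [← h]⟩, ⟨_, h⟩]
    refine Rat.isSquare_natCast_iff.1 ⟨(2 * E a₀ b)⁻¹, ?_⟩
    have := k0 b hb
    rw [Nat.cast_sub (by have := hp.pos; omega)]; field_simp; push_cast; linarith [k1 b hb]
  obtain ⟨a, rfl⟩ : Odd s := by
    have : Odd (s * s) := ⟨p - 1, by have := hp.pos; omega⟩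
    exact (Nat.odd_mul.1 this).1
  have k2 : p = 2 * a ^ 2 + 2 * a + 1 := by have := hp.pos; nlinarith [Nat.sub_add_cancel (show 1 ≤ 2 * p by omega)]
  have k3 : 0 < a := Nat.pos_of_ne_zero fun h => by simp [h] at k2; exact hp.ne_one k2
  have k4 : ∀ b, b ≠ a₀ → (Nat.card (orbit (stabilizer G a₀) b) : ℚ) = a * (2 * a + 1) ∧
      2 * (2 * a + 1) * E a₀ b = 1 ∨ (Nat.card (orbit (stabilizer G a₀) b) : ℚ) =
      (a + 1) * (2 * a + 1) ∧ 2 * (2 * a + 1) * E a₀ b = -1 := fun b hb => by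
    have l1 := ho hb.symm (k0 b hb)
    have l2 : (2 * (2 * a + 1) * E a₀ b) ^ 2 = 1 := by
      have := k1 b hb
      rw [k2] at this; push_cast at this; linarith
    refine (sq_eq_one_iff.1 l2).imp (fun h => ⟨?_, h⟩) fun h => ⟨?_, h⟩
    · linear_combination (2 * a + 1) ^ 2 / 2 * l1 - (Nat.card (orbit (stabilizer G a₀) b) : ℚ) * l2 -
        (2 * a + 1) / 2 * h
    · linear_combination (2 * a + 1) ^ 2 / 2 * l1 - (Nat.card (orbit (stabilizer G a₀) b) : ℚ) * l2 -
        (2 * a + 1) / 2 * h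
  refine ⟨?_, a, k3, k2, fun b hb => (k4 b hb).imp (fun h => by exact_mod_cast h.1)
    fun h => by exact_mod_cast h.1⟩
  have k5 : (0 : ℚ) < a := by exact_mod_cast k3
  have k6 := hr a₀
  have k7 : Nat.card (orbit (stabilizer G a₀) a₀) = 1 := by
    rw [Nat.card_eq_one_iff_exists]
    exact ⟨⟨a₀, mem_orbit_self _⟩, fun ⟨_, g, hg⟩ => Subtype.ext (hg.symm.trans g.2)⟩
  rw [← Finset.add_sum_erase _ _ (Finset.mem_univ a₀), h4] at k6
  rw [← Nat.cast_inj (R := ℚ), card_quot_eq_sum, ← Finset.add_sum_erase _ _ (Finset.mem_univ a₀), k7,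
    Finset.sum_congr rfl (g := fun b => (1 + 2 * E a₀ b) / (2 * a * (a + 1))) fun b hb => by
      rcases k4 b (Finset.ne_of_mem_erase hb) with ⟨h, k⟩ | ⟨h, k⟩ <;> rw [h] <;> field_simp <;>
        linear_combination -k, ← Finset.sum_div, Finset.sum_add_distrib, ← Finset.mul_sum]
  simp only [Finset.sum_const, Finset.card_erase_of_mem (Finset.mem_univ _), Finset.card_univ,
    nsmul_eq_mul, Nat.cast_sub (Fintype.card_pos_iff.2 ⟨a₀⟩), hc, eq_neg_of_add_eq_zero_right k6]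
  rw [k2]; push_cast; field_simp; ring

end W2

theorem exists_W2 {x : G} (hx : x ^ p = 1) (hf : ∀ a : Ω, x • a ≠ a) (hc : Fintype.card Ω = 2 * p) :
    Nonempty (W2 G Ω p) := by
  have hp : p.Prime := Fact.out
  have h0 : ∀ (i j : ZMod p) (a : Ω), x ^ (i + j).val • a = x ^ i.val • x ^ j.val • a :=
    fun i j a => by rw [ZMod.val_add, ← pow_eq_pow_mod _ hx, pow_add, mul_smul]
  have h1 : ∀ (i j : ZMod p) (a b : Ω), x ^ i.val • a = x ^ j.val • b → x ^ (i - j).val • a = b :=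
    fun i j a b h => by rw [sub_eq_neg_add, h0, h, ← h0]; simp
  have h2 : ∀ (a : Ω) (i j : ZMod p), x ^ i.val • a = x ^ j.val • a → i = j := fun a i j h => by
    have k1 : period x a = p :=
      ((Nat.dvd_prime hp).1 (pow_smul_eq_iff_period_dvd.1 (by simp [hx]))).resolve_left
        fun k => hf a (period_eq_one_iff.1 k)
    have := pow_smul_eq_iff_period_dvd.1 (h1 i j a a h)
    rw [k1] at this
    exact sub_eq_zero.1 ((ZMod.val_eq_zero _).1 (Nat.eq_zero_of_dvd_of_lt this (ZMod.val_lt _)))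
  obtain ⟨a⟩ : Nonempty Ω := Fintype.card_pos_iff.1 (by have := hp.pos; omega)
  obtain ⟨b, hb⟩ : ∃ b, ∀ i : ZMod p, x ^ i.val • a ≠ b := by
    by_contra! h
    have := Fintype.card_le_of_surjective _ h
    rw [ZMod.card] at this
    have := hp.pos; omega
  have h3 : Function.Injective fun y : Fin 2 × ZMod p => x ^ y.2.val • ![a, b] y.1 := by
    rintro ⟨r, i⟩ ⟨s, j⟩ h
    fin_cases r <;> fin_cases s
    · exact congrArg _ (h2 _ _ _ h)
    · exact (hb _ (h1 _ _ _ _ h)).elim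
    · exact (hb _ (h1 _ _ _ _ h.symm)).elim
    · exact congrArg _ (h2 _ _ _ h)
  refine ⟨⟨.ofBijective _ ((Fintype.bijective_iff_injective_and_card _).2 ⟨h3, by simp [hc]⟩), x,
    fun r i => ?_⟩⟩
  simp only [Equiv.ofBijective_apply]
  rw [add_comm, h0, ZMod.val_one, pow_one]

theorem wielandt_two_p (G : Subgroup (Equiv.Perm Ω)) [hG : IsPreprimitive G Ω]
    (hc : Fintype.card Ω = 2 * p) (a₀ : Ω) : IsMultiplyPretransitive G Ω 2 ∨
    (Nat.card (orbitRel.Quotient (stabilizer G a₀) Ω) = 3 ∧ ∃ a : ℕ, 0 < a ∧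
      p = 2 * a ^ 2 + 2 * a + 1 ∧ ∀ b, b ≠ a₀ → Nat.card (orbit (stabilizer G a₀) b) = a * (2 * a + 1) ∨
        Nat.card (orbit (stabilizer G a₀) b) = (a + 1) * (2 * a + 1)) := by
  have hp : p.Prime := Fact.out
  have := hp.pos
  obtain ⟨x, hx⟩ := exists_prime_orderOf_dvd_card' (G := G) p (by
    rw [← H17.card_mul_stabilizer (G := G) a₀, Nat.card_eq_fintype_card, hc]
    exact (dvd_mul_left _ _).mul_right _)
  by_cases h : x.1.support = Finset.univ
  · obtain ⟨W⟩ := exists_W2 (hx ▸ pow_orderOf_eq_one x :)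
      (fun a => Equiv.Perm.mem_support.1 (h ▸ Finset.mem_univ a)) hc
    exact W.main a₀
  obtain ⟨h1, h2⟩ := H17.isCycle_of_orderOf_prime hp ((Subgroup.orderOf_coe x).trans hx)
    (hc ▸ Finset.card_lt_univ_of_notMem (Classical.choose_spec (not_forall.1
      (mt Finset.eq_univ_iff_forall.2 h))))
  have h3 := H17.mprim_of_prime_cycle hG hp (by omega) h1 h2 x.2
  exact Or.inl (H17.mt_of_le h3.isMultiplyPretransitive (by omega)
    (by rw [Nat.card_eq_fintype_card]; omega))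

end H24
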