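import Cfsg.Agent.H24.FCStr
import Cfsg.Agent.H3.Frobenius

/-! Generators and relations for Z-groups. -/

set_option autoImplicit false

namespace H24
open Subgroup Cfsg H28
open scoped commutatorElement

variable {G : Type*} [Group G]

theorem conj_pow_pow {x y : G} {r : ℕ} (h : x⁻¹ * y * x = y ^ r) (k : ℕ) :
    (x ^ k)⁻¹ * y * x ^ k = y ^ r ^ k := by
  induction k with
  | zero => simp
  | succ k ih =>
    calc _ = x⁻¹ * ((x ^ k)⁻¹ * y * x ^ k) * x⁻¹⁻¹ := by group
      _ = _ := by rw [ih, ← conj_pow, inv_inv, h, ← pow_mul, pow_succ']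

theorem modEq_of_comm {x y : G} {r k : ℕ} (h : x⁻¹ * y * x = y ^ r) (hc : x ^ k * y = y * x ^ k) :
    r ^ k % orderOf y = 1 % orderOf y :=
  pow_eq_pow_iff_modEq.1 (by rw [← conj_pow_pow h, mul_assoc, ← hc]; simp)

theorem card_le_of_meta {x y : G} {n m r : ℕ} (hn : 0 < n) (hm : 0 < m) (hx : x ^ n = 1)
    (hy : y ^ m = 1) (h : x⁻¹ * y * x = y ^ r) (hg : closure {x, y} = ⊤) :
    Finite G ∧ Nat.card G ≤ n * m := by
  haveI : Finite (zpowers x) := finite_zpowers.2 (isOfFinOrder_iff_pow_eq_one.2 ⟨n, hn, hx⟩)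
  haveI : Finite (zpowers y) := finite_zpowers.2 (isOfFinOrder_iff_pow_eq_one.2 ⟨m, hm, hy⟩)
  rw [H4.closure_pair] at hg
  have h1 : zpowers x ≤ 𝐍 (zpowers y) := zpowers_le.2 (inv_mem_iff.1 (mem_normalizer_of_cj_le (by
    rw [cj_zpowers, inv_inv, h, zpowers_le]; exact npow_mem_zpowers y r)))
  have h2 : Function.Surjective fun p : zpowers x × zpowers y => (p.1 : G) * p.2 := fun g => by
    obtain ⟨a, ha, b, hb, e⟩ := (mem_sup_of_le_normalizer h1).1 (hg ▸ mem_top g)
    exact ⟨(⟨a, ha⟩, ⟨b, hb⟩), e⟩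
  refine ⟨.of_surjective _ h2, (Nat.card_le_card_of_surjective _ h2).trans ?_⟩
  rw [Nat.card_prod, Nat.card_zpowers, Nat.card_zpowers]
  exact Nat.mul_le_mul (orderOf_le_of_pow_eq_one hn hx) (orderOf_le_of_pow_eq_one hm hy)

variable [Finite G]

theorem zgroup_gens [hG : IsZGroup G] : ∃ (x y : G) (r : ℕ), closure {x, y} = ⊤ ∧
    x⁻¹ * y * x = y ^ r ∧ (r - 1).Coprime (orderOf y) ∧ (orderOf x).Coprime (orderOf y) ∧ 1 ≤ r ∧
    Nat.card G = orderOf x * orderOf y ∧ zpowers y = commutator G := by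
  obtain ⟨H, hH⟩ := exists_right_complement'_of_coprime hG.coprime_commutator_index
  have e : Abelianization G ≃* H := hH.symm.QuotientMulEquiv
  obtain ⟨x, rfl⟩ := (Subgroup.isCyclic_iff_exists_zpowers_eq_top H).1
    (isCyclic_of_surjective _ e.surjective)
  obtain ⟨y, hy⟩ := (Subgroup.isCyclic_iff_exists_zpowers_eq_top _).1 hG.isCyclic_commutator
  have h0 := hG.coprime_commutator_index
  rw [hH.symm.index_eq_card] at h0
  have h1 := hH.card_mul
  have h2 := hH.symm.sup_eq_top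
  rw [← hy] at h0 h1 h2
  haveI : (zpowers y).Normal := hy ▸ inferInstance
  obtain ⟨k, hk⟩ := (mem_powers_iff_mem_zpowers.2
    (Normal.conj_mem' ‹_› y (mem_zpowers y) x) :)
  have h3 : x⁻¹ * y * x = y ^ (k + orderOf y) := by rw [pow_add, pow_orderOf_eq_one, mul_one, ← hk]
  have h4 : 1 ≤ k + orderOf y := le_add_left (orderOf_pos y)
  simp only [Nat.card_zpowers] at h0 h1
  refine ⟨x, y, _, by rwa [H4.closure_pair], h3, ?_, h0.symm, h4, by rw [← h1, mul_comm], hy⟩
  haveI := H4.normal_zpowers_pow (a := y) (k + orderOf y - 1)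
  refine mem_zpowers_pow_iff.1 (H4.commutator_le_of_pair (a := x⁻¹) (b := y)
    (by rwa [zpowers_inv]) ?_ (hy.le (mem_zpowers y)))
  rw [commutatorElement_def, inv_inv, h3, ← pow_sub_one_mul (n := k + orderOf y) (Nat.one_le_iff_ne_zero.1 h4) y,
    mul_inv_cancel_right]
  exact mem_zpowers _

theorem meta_pres {x y : G} {r : ℕ} (hg : closure {x, y} = ⊤) (h : x⁻¹ * y * x = y ^ r)
    (hc : Nat.card G = orderOf x * orderOf y) : Nonempty (G ≃* PresentedGroup
      ({FreeGroup.of (0 : Fin 2) ^ orderOf x, FreeGroup.of (1 : Fin 2) ^ orderOf y,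
        (FreeGroup.of (0 : Fin 2))⁻¹ * FreeGroup.of 1 * FreeGroup.of 0 *
          (FreeGroup.of (1 : Fin 2) ^ r)⁻¹} : Set (FreeGroup (Fin 2)))) := by
  generalize hR : ({_, _, _} : Set (FreeGroup (Fin 2))) = R
  have rel : ∀ r ∈ R, PresentedGroup.mk R r = 1 := fun r hr => PresentedGroup.one_of_mem hr
  have hF : ∀ r ∈ R, FreeGroup.lift ![x, y] r = 1 := by
    rintro r hr
    rw [← hR] at hr
    rcases hr with rfl | rfl | rfl <;> simp [h]
  obtain ⟨_, h1⟩ := card_le_of_meta (x := PresentedGroup.of (rels := R) 0)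
    (y := PresentedGroup.of 1) (r := r) (orderOf_pos x) (orderOf_pos y)
    (rel (FreeGroup.of 0 ^ _) (by simp [← hR])) (rel (FreeGroup.of 1 ^ _) (by simp [← hR]))
    (mul_inv_eq_one.1 (rel ((FreeGroup.of 0)⁻¹ * FreeGroup.of 1 * FreeGroup.of 0 *
      (FreeGroup.of 1 ^ r)⁻¹) (by simp [← hR])))
    (by rw [← PresentedGroup.closure_range_of, ← Set.image_pair]
        congr 1
        ext; simp [Fin.exists_fin_two, eq_comm])
  have hs : Function.Surjective (PresentedGroup.toGroup hF) := by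
    rw [← MonoidHom.range_eq_top, eq_top_iff, ← hg, closure_le]
    rintro _ (rfl | rfl)
    exacts [⟨PresentedGroup.of 0, PresentedGroup.toGroup.of hF⟩,
      ⟨PresentedGroup.of 1, PresentedGroup.toGroup.of hF⟩]
  exact ⟨(MulEquiv.ofBijective _ ((Nat.bijective_iff_surjective_and_card _).2
    ⟨hs, le_antisymm (hc ▸ h1) (Nat.card_le_card_of_surjective _ hs)⟩)).symm⟩

theorem IsFC.comm_prime (h : IsFC G) {c v : G} (hc : (orderOf c).Prime) (hv : (orderOf v).Prime)
    (hn : c * v * c⁻¹ ∈ zpowers v) : c * v = v * c := by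
  obtain ⟨L, _, _, H, hH, ⟨e⟩⟩ := h
  obtain ⟨K, -, _, -, h1, h2, _⟩ := H3.exists_frobeniusKernel hH
  haveI := (nontrivial_iff_ne_bot K).2 h1
  let φ := H.subtype.comp e.toMonoidHom
  have hφ : Function.Injective φ := H.subtype_injective.comp e.injective
  apply hφ
  rw [map_mul, map_mul]
  refine H3.commute_of_fpf_prime (A := H) (V := (center K).map K.subtype) ?_ le_normalizer_of_normal
    (fun a ha h3 => H3.fpf_mono (h2 a ha h3) (map_subtype_le _)) (e c).2 (e v).2
    (by rwa [orderOf_injective φ hφ]) (by rwa [orderOf_injective φ hφ])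
    (mem_normalizer_of_cj_le ?_)
  · rw [Ne, map_eq_bot_iff_of_injective _ K.subtype_injective]
    exact Group.IsNilpotent.center_ne_bot K
  · rw [cj_zpowers, zpowers_le, ← map_inv, ← map_mul, ← map_mul, ← MonoidHom.map_zpowers]
    exact mem_map_of_mem φ hn

theorem IsFC.comm_of_cyc (h : IsFC G) {u y : G} (hu : Squarefree (orderOf u))
    (hc : (orderOf u).Coprime (orderOf y)) (hn : u ∈ 𝐍 (zpowers y)) : u * y = y * u := by
  rw [← mem_centralizer_singleton_iff, ← centralizer_zpowers]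
  refine mem_of_forall_primePow u fun w hw p k hp ho => ?_
  have h1 := orderOf_dvd_of_mem_zpowers hw
  have h2 := zpowers_le.2 hn hw
  refine H2.le_centralizer_of_prime_order (zpowers_le.2 h2)
    (by simpa using hc.coprime_dvd_left h1) (fun v hv hv' a ha => ?_) (mem_zpowers w)
  obtain ⟨j, rfl⟩ := ha
  refine Commute.zpow_left (?_ : Commute w v) j
  by_cases h3 : w = 1
  · simp [h3]
  refine h.comm_prime ?_ hv' (conj_mem_of_mem_normalizer
    (H19.cyc_norm inferInstance (zpowers_le.2 hv) h2) (mem_zpowers v))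
  have h4 := (hu.squarefree_of_dvd h1)
  rw [ho] at h4 ⊢
  have h5 : k ≠ 0 := by rintro rfl; exact h3 (orderOf_eq_one_iff.1 ho)
  rwa [((Nat.squarefree_pow_iff hp.ne_one h5).1 h4).2, pow_one]

end H24
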